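import Mathlib
import Cfsg.Agent.Fus.LinearSimple
import Cfsg.Agent.Classical.Linear.SylowP

/-!
Overgroups of the unitriangular group in `SL_n(q)` are normalized by the triangular group.
-/

set_option autoImplicit false
set_option linter.unusedSectionVars false

namespace CfsgLib.SymSylow.Flag

open Matrix CfsgLib.Fus.LinearSimple

variable {K : Type*} [Field K] [Fintype K] [DecidableEq K] {n : ℕ}

local notation "SL" => Matrix.SpecialLinearGroup (Fin n) K
local notation "T[" hij ", " a "]" => Matrix.SpecialLinearGroup.transvection hij a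

/-- Diagonal elements. -/
def IsDg (t : SL) : Prop := ∀ i j : Fin n, i ≠ j → ent t i j = 0

theorem dg_transvection {t : SL} (ht : IsDg t) {i j : Fin n} (hij : i ≠ j) (a : K) :
    t * T[hij, a] * t⁻¹ = T[hij, ent t i i * a / ent t j j] := by
  have hjj : ent t j j ≠ 0 := by
    intro h0
    have hd := t.2
    have hu : (t : Matrix (Fin n) (Fin n) K) = Matrix.diagonal fun x => ent t x x := by
      ext x y
      rcases eq_or_ne x y with rfl | hxy
      · simp
      · simp [hxy]; exact ht x y hxy
    rw [hu, det_diagonal, Finset.prod_eq_zero (f := fun x => ent t x x) (Finset.mem_univ j) h0] at hd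
    exact zero_ne_one hd
  rw [mul_inv_eq_iff_eq_mul]
  refine Subtype.ext (Matrix.ext fun x y => ?_)
  show ent (t * T[hij, a]) x y = ent (T[hij, ent t i i * a / ent t j j] * t) x y
  rw [ent_mul_transvection, ent_transvection_mul]
  by_cases hy : y = j <;> by_cases hx : x = i
  · subst hx hy; simp [div_mul_cancel₀ _ hjj]
  · subst hy; simp [hx, ht x i hx]
  · subst hx; simp [hy, ht j y (Ne.symm hy)]
  · simp [hx, hy]

variable (H : Subgroup (Matrix.SpecialLinearGroup (Fin n) K))

/-- Elements of `H` all of whose diagonal conjugates lie in `H`. -/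
def core : Subgroup SL where
  carrier := {h | h ∈ H ∧ ∀ t : SL, IsDg t → t * h * t⁻¹ ∈ H}
  one_mem' := ⟨H.one_mem, fun t _ => by simp⟩
  mul_mem' := fun {a b} ha hb => ⟨H.mul_mem ha.1 hb.1, fun t ht => by
    rw [show t * (a * b) * t⁻¹ = (t * a * t⁻¹) * (t * b * t⁻¹) by group]
    exact H.mul_mem (ha.2 t ht) (hb.2 t ht)⟩
  inv_mem' := fun {a} ha => ⟨H.inv_mem ha.1, fun t ht => by
    rw [show t * a⁻¹ * t⁻¹ = (t * a * t⁻¹)⁻¹ by group]
    exact H.inv_mem (ha.2 t ht)⟩

theorem transvection_mem_core {i j : Fin n} (hij : i ≠ j) (h : ∀ a : K, T[hij, a] ∈ H) (a : K) :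
    T[hij, a] ∈ core H :=
  ⟨h a, fun t ht => by rw [dg_transvection ht hij a]; exact h _⟩

theorem isDg_of_upper {g : SL} (hg : IsUpper g) :
    ∃ d : SL, IsDg d ∧ (∀ i, ent d i i = ent g i i) ∧ d⁻¹ * g ∈ (uniSL : Subgroup SL) := by
  have hd := g.2
  rw [Matrix.det_of_upperTriangular (fun a b hab => hg a b hab)] at hd
  let d : SL := ⟨Matrix.diagonal fun i => ent g i i, by rw [det_diagonal]; exact hd⟩
  have hdg : IsDg d := fun i j hij => Matrix.diagonal_apply_ne _ hij
  have hdd : ∀ i, ent d i i = ent g i i := fun i => Matrix.diagonal_apply_eq _ i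
  refine ⟨d, hdg, hdd, ?_⟩
  have hu : IsUpper d := fun i j hij => hdg i j hij.ne'
  have hu' : IsUpper d⁻¹ := mem_upperSL.1 ((upperSL : Subgroup SL).inv_mem (mem_upperSL.2 hu))
  refine ⟨isUpper_mul hu' hg, fun i => ?_⟩
  rw [CfsgLib.Fus.LinearSimple.diag_mul hu' hg, ← hdd, ← CfsgLib.Fus.LinearSimple.diag_mul hu' hu,
    inv_mul_cancel]
  exact Matrix.one_apply_eq i

theorem le_core (hU : (uniSL : Subgroup SL) ≤ H) : (uniSL : Subgroup SL) ≤ core H :=
  uniSL_le fun k l hkl a => transvection_mem_core H hkl.ne (fun b => hU (transvection_mem_uniSL hkl b)) a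

/-- An overgroup of the unitriangular group is normalized by diagonal elements. -/
theorem mem_core (hU : (uniSL : Subgroup SL) ≤ H) {h : SL} (hh : h ∈ H) : h ∈ core H := by
  suffices key : ∀ d j : ℕ, j + d = n → ∀ g ∈ H, (∀ i r : Fin n, (i : ℕ) < j → i < r → ent g r i = 0) →
      g ∈ core H from key n 0 (zero_add n) h hh fun i r hi => absurd hi (by omega)
  intro d
  induction d with
  | zero =>
    intro j hj g hg hflag
    have hup : IsUpper g := fun r i hri => hflag i r (by have := i.2; omega) hri
    obtain ⟨c, hc, -, hu⟩ := isDg_of_upper hup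
    have hcH : c ∈ H := by
      have := H.mul_mem hg (H.inv_mem (hU hu))
      simpa using this
    have hcc : c ∈ core H := ⟨hcH, fun t ht => by
      have e : t * c = c * t := by
        refine Subtype.ext (Matrix.ext fun x y => ?_)
        show ent (t * c) x y = ent (c * t) x y
        rw [ent_mul, ent_mul, Finset.sum_eq_single x (fun z _ hz => by rw [ht x z hz.symm, zero_mul])
          (by simp), Finset.sum_eq_single x (fun z _ hz => by rw [hc x z hz.symm, zero_mul]) (by simp)]
        rcases eq_or_ne x y with rfl | hxy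
        · rw [mul_comm]
        · rw [ht x y hxy, hc x y hxy, mul_zero, mul_zero]
      rw [e, mul_inv_cancel_right]
      exact hcH⟩
    rw [show g = c * (c⁻¹ * g) by group]
    exact (core H).mul_mem hcc (le_core H hU hu)
  | succ d ih =>
    intro j hj g hg hflag
    let J : Fin n := ⟨j, by omega⟩
    by_cases hcol : ∀ r, J < r → ent g r J = 0
    · refine ih (j + 1) (by omega) g hg fun i r hi hir => ?_
      rcases Nat.lt_succ_iff_lt_or_eq.1 hi with h' | h'
      · exact hflag i r h' hir
      · obtain rfl : i = J := Fin.ext h'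
        exact hcol r hir
    push Not at hcol
    obtain ⟨r₀, hr₀, hr₀'⟩ := hcol
    classical
    obtain ⟨k, hk, hmax⟩ := Finset.exists_max_image (Finset.univ.filter fun r : Fin n => ent g r J ≠ 0) id
      ⟨r₀, by simp [hr₀']⟩
    have hk0 : ent g k J ≠ 0 := (Finset.mem_filter.1 hk).2
    have hJk : J < k := lt_of_lt_of_le hr₀ (hmax r₀ (by simp [hr₀']))
    have habove : ∀ r, k < r → ent g r J = 0 := fun r hr => by
      by_contra h'
      exact absurd (hmax r (by simp [h'])) (not_le.2 hr)
    let M : Matrix (Fin n) (Fin n) K :=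
      Matrix.of fun r c => if c = k then ent g r J / ent g k J else (1 : Matrix (Fin n) (Fin n) K) r c
    have hMup : ∀ r c : Fin n, c < r → M r c = 0 := fun r c hrc => by
      by_cases hck : c = k
      · subst hck; simp [M, habove r hrc]
      · simp [M, hck, Matrix.one_apply_ne hrc.ne']
    have hMd : ∀ r, M r r = 1 := fun r => by
      by_cases hrk : r = k
      · subst hrk; simp [M, hk0]
      · simp [M, hrk]
    let u : SL := ⟨M, by
      rw [Matrix.det_of_upperTriangular (fun a b hab => hMup a b hab)]
      exact Finset.prod_eq_one fun i _ => hMd i⟩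
    have hu : u ∈ (uniSL : Subgroup SL) := ⟨fun r c hrc => hMup r c hrc, hMd⟩
    have hu' := (uniSL : Subgroup SL).inv_mem hu
    set g' := u⁻¹ * g with hg'
    have hg'H : g' ∈ H := H.mul_mem (hU hu') hg
    have hflag' : ∀ i r : Fin n, (i : ℕ) < j → i < r → ent g' r i = 0 := fun i r hi hir => by
      rw [hg', ent_mul]
      refine Finset.sum_eq_zero fun c _ => ?_
      rcases lt_or_ge c r with hc | hc
      · rw [hu'.1 r c hc, zero_mul]
      · rw [hflag i c hi (lt_of_lt_of_le hir hc), mul_zero]
    have hcolJ : ∀ r, ent g' r J = if r = k then ent g k J else 0 := by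
      intro r
      obtain ⟨c0, hc0⟩ : ∃ c0, ent g k J = c0 := ⟨_, rfl⟩
      have e : ∀ x, ent g x J = ∑ c, ent u x c * (if c = k then c0 else 0) := fun x => by
        rw [← hc0]
        rw [Finset.sum_eq_single k (fun c _ hc => by simp [hc]) (by simp)]
        show ent g x J = M x k * (if k = k then ent g k J else 0)
        simp only [M, Matrix.of_apply, if_true]
        rw [div_mul_cancel₀ _ hk0]
      rw [hc0, hg', ent_mul]
      simp_rw [e, Finset.mul_sum, ← mul_assoc]
      rw [Finset.sum_comm]
      simp_rw [← Finset.sum_mul, ← ent_mul, inv_mul_cancel]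
      rw [Finset.sum_eq_single k (fun c _ hc => by simp [hc]) (by simp)]
      simp [ent, Matrix.one_apply]
    have hinvk : ∀ r, ent g'⁻¹ r k = if r = J then (ent g k J)⁻¹ else 0 := by
      intro r
      have e : ent (g'⁻¹ * g') r J = ent g'⁻¹ r k * ent g k J := by
        rw [ent_mul, Finset.sum_eq_single k (fun c _ hc => by rw [hcolJ]; simp [hc]) (by simp), hcolJ,
          if_pos rfl]
      rw [inv_mul_cancel] at e
      by_cases hr : r = J
      · subst hr
        rw [if_pos rfl]
        refine eq_inv_of_mul_eq_one_left ?_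
        simpa [ent] using e.symm
      · rw [if_neg hr]
        refine (mul_eq_zero.1 ?_).resolve_right hk0
        simpa [ent, Matrix.one_apply_ne hr] using e.symm
    have hlow : ∀ a, T[hJk.ne', a] ∈ H := by
      intro a
      have e : ∀ r c, ent (g'⁻¹ * (T[hJk.ne', a] * g')) r c =
          (1 : Matrix (Fin n) (Fin n) K) r c + ent g'⁻¹ r k * (a * ent g' J c) := by
        intro r c
        rw [ent_mul]
        simp_rw [ent_transvection_mul, mul_add, Finset.sum_add_distrib]
        congr 1
        · rw [← ent_mul, inv_mul_cancel]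
          rfl
        · simp [mul_ite]
      have hmem : g'⁻¹ * (T[hJk.ne', a] * g') ∈ (uniSL : Subgroup SL) := by
        have key : ∀ r c, c ≤ r → ent g'⁻¹ r k * (a * ent g' J c) = 0 := by
          intro r c hcr
          rw [hinvk]
          split_ifs with hr
          · subst hr
            rcases lt_or_eq_of_le hcr with h' | h'
            · rw [hflag' c J h' h', mul_zero, mul_zero]
            · subst h'
              rw [hcolJ, if_neg hJk.ne]; simp
          · rw [zero_mul]
        refine ⟨fun r c hcr => ?_, fun r => ?_⟩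
        · rw [e, key r c hcr.le, Matrix.one_apply_ne hcr.ne', add_zero]
        · rw [e, key r r le_rfl, Matrix.one_apply_eq, add_zero]
      have := H.mul_mem (H.mul_mem hg'H (hU hmem)) (H.inv_mem hg'H)
      simpa [mul_assoc] using this
    set w : SL := T[hJk.ne, (1 : K)] * T[hJk.ne', (-1 : K)] * T[hJk.ne, (1 : K)] with hw
    have hwc : w ∈ core H := by
      have h1 := transvection_mem_core H hJk.ne (fun b => hU (transvection_mem_uniSL hJk b)) 1
      exact (core H).mul_mem ((core H).mul_mem h1 (transvection_mem_core H hJk.ne' hlow (-1))) h1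
    have hnext : w * g' ∈ core H := by
      refine ih (j + 1) (by omega) _ (H.mul_mem hwc.1 hg'H) fun i r hi hir => ?_
      rw [hw]
      simp only [mul_assoc, ent_transvection_mul]
      rcases Nat.lt_succ_iff_lt_or_eq.1 hi with h' | h'
      · have hiJ : i < J := h'
        simp [hflag' i r h' hir, hflag' i J h' hiJ, hflag' i k h' (hiJ.trans hJk)]
      · obtain rfl : i = J := Fin.ext h'
        by_cases hrk : r = k
        · subst hrk
          simp [hcolJ, hJk.ne, hJk.ne', hir.ne']
        · simp [hcolJ, hrk, hir.ne', hJk.ne, hJk.ne']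
    rw [show g = u * (w⁻¹ * (w * g')) by rw [hg']; group]
    exact (core H).mul_mem (le_core H hU hu) ((core H).mul_mem ((core H).inv_mem hwc) hnext)

/-- The normalizer of the unitriangular group normalizes its overgroups. -/
theorem normalizer_uni_le (hU : (uniSL : Subgroup SL) ≤ H) :
    Subgroup.normalizer ((uniSL : Subgroup SL) : Set SL) ≤ Subgroup.normalizer (H : Set SL) := by
  have key : ∀ g ∈ Subgroup.normalizer ((uniSL : Subgroup SL) : Set SL), ∀ h ∈ H, g * h * g⁻¹ ∈ H := by
    intro g hg h hh
    obtain ⟨d, hd, -, hu⟩ := isDg_of_upper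
      (isUpper_of_normalizing fun u hu => (Subgroup.mem_normalizer_iff.1 hg u).1 hu)
    have h1 : (d⁻¹ * g) * h * (d⁻¹ * g)⁻¹ ∈ H := H.mul_mem (H.mul_mem (hU hu) hh) (H.inv_mem (hU hu))
    have h2 := (mem_core H hU h1).2 d hd
    rwa [show d * ((d⁻¹ * g) * h * (d⁻¹ * g)⁻¹) * d⁻¹ = g * h * g⁻¹ by group] at h2
  intro g hg
  rw [Subgroup.mem_normalizer_iff]
  exact fun h => ⟨key g hg h, fun hh => by
    have := key g⁻¹ (inv_mem hg) _ hh
    simpa [mul_assoc] using this⟩

theorem upperUnitriSL_eq : CfsgLib.Classical.Linear.upperUnitriSL n K = (uniSL : Subgroup SL) := by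
  ext g
  exact Iff.rfl

end CfsgLib.SymSylow.Flag

namespace CfsgLib.SymSylow

/-- In `SL_n(q)` the normalizer of a Sylow subgroup at the characteristic normalizes all its overgroups. -/
theorem flag_normalizer_le {K : Type*} [Field K] [Fintype K] {n p : ℕ} [Fact p.Prime] [CharP K p]
    (H : Subgroup (Matrix.SpecialLinearGroup (Fin n) K))
    (S : Sylow p (Matrix.SpecialLinearGroup (Fin n) K))
    (hS : (S : Subgroup (Matrix.SpecialLinearGroup (Fin n) K)) ≤ H) :
    Subgroup.normalizer ((S : Subgroup (Matrix.SpecialLinearGroup (Fin n) K)) :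
      Set (Matrix.SpecialLinearGroup (Fin n) K)) ≤ Subgroup.normalizer (H : Set _) := by
  classical
  obtain ⟨x, hx⟩ := MulAction.exists_smul_eq (Matrix.SpecialLinearGroup (Fin n) K)
    (CfsgLib.Classical.Linear.upperSylowSL n K p) S
  have hU : (CfsgLib.Fus.LinearSimple.uniSL : Subgroup (Matrix.SpecialLinearGroup (Fin n) K)) ≤
      H.comap (MulAut.conj x).toMonoidHom := by
    intro u hu
    apply hS
    rw [← hx]
    exact ⟨u, by rw [← Flag.upperUnitriSL_eq] at hu; exact hu, rfl⟩
  intro g hg
  have hg' : x⁻¹ * g * x ∈ Subgroup.normalizer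
      ((CfsgLib.Fus.LinearSimple.uniSL : Subgroup (Matrix.SpecialLinearGroup (Fin n) K)) : Set _) := by
    rw [← Flag.upperUnitriSL_eq]
    refine (Sylow.smul_eq_iff_mem_normalizer (P := CfsgLib.Classical.Linear.upperSylowSL n K p)).1 ?_
    rw [mul_smul, mul_smul, hx, Sylow.smul_eq_iff_mem_normalizer.2 hg, ← hx, inv_smul_smul]
  have h2 := Subgroup.mem_normalizer_iff.1 (Flag.normalizer_uni_le _ hU hg')
  rw [Subgroup.mem_normalizer_iff]
  intro h
  have := h2 (x⁻¹ * h * x)
  simpa [mul_assoc] using this

end CfsgLib.SymSylow
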