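import Mathlib
import Cfsg.Agent.SymSylow.WreathNorm
import Cfsg.Agent.SymSylow.Pronormal
import Cfsg.Agent.PronormalExt.Criterion

/-!
Self-normalizing Sylow 2-subgroups in dimension `2^w`, and pronormality in quotient groups.
-/

set_option autoImplicit false
set_option linter.unusedSectionVars false

namespace CfsgLib.SymSylow.WreathNorm

open Matrix CfsgLib.SymSylow.GLTwo

theorem sum_split (g : ℕ → ℕ) : ∀ n, ∑ i ∈ Finset.range (n + n), g (i + 1) =
    ∑ j ∈ Finset.range n, (g (2 * j + 1) + g (2 * j + 2))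
  | 0 => rfl
  | n + 1 => by
    rw [show n + 1 + (n + 1) = n + n + 1 + 1 by omega, Finset.sum_range_succ, Finset.sum_range_succ,
      Finset.sum_range_succ, sum_split g n, two_mul, show n + n + 1 + 1 = n + n + 2 by rfl]
    omega

theorem factorization_two_mul (j : ℕ) :
    (2 * j + 2).factorization 2 = 1 + (j + 1).factorization 2 := by
  rw [show 2 * j + 2 = 2 * (j + 1) by ring, Nat.factorization_mul (by norm_num) (by omega),
    Finsupp.add_apply, Nat.prime_two.factorization_self]

theorem sum_factorization_two : ∀ w, ∑ j ∈ Finset.range (2 ^ w), (j + 1).factorization 2 = 2 ^ w - 1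
  | 0 => by simp
  | w + 1 => by
    rw [show 2 ^ (w + 1) = 2 ^ w + 2 ^ w by ring, sum_split (fun i => i.factorization 2), Finset.sum_congr rfl
      (fun j _ => show (2 * j + 1).factorization 2 + (2 * j + 2).factorization 2 = 1 + (j + 1).factorization 2 by
        rw [Nat.factorization_eq_zero_of_not_dvd (by omega), factorization_two_mul, zero_add]),
      Finset.sum_add_distrib, sum_factorization_two w, Finset.sum_const, Finset.card_range, smul_eq_mul,
      mul_one]
    have := Nat.one_le_two_pow (n := w)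
    omega

theorem sum_two_pow (g : ℕ → ℕ) (a b : ℕ) (ho : ∀ j, g (2 * j + 1) = a)
    (he : ∀ j, g (2 * j + 2) = b + (j + 1).factorization 2) (w : ℕ) :
    ∑ i ∈ Finset.range (2 ^ (w + 1)), g (i + 1) = 2 ^ w * (a + b) + (2 ^ w - 1) := by
  rw [show 2 ^ (w + 1) = 2 ^ w + 2 ^ w by ring, sum_split g, Finset.sum_congr rfl
    (fun j _ => show g (2 * j + 1) + g (2 * j + 2) = (a + b) + (j + 1).factorization 2 by
      rw [ho, he, add_assoc]),
    Finset.sum_add_distrib, sum_factorization_two w, Finset.sum_const, Finset.card_range, smul_eq_mul]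

variable {F : Type*} [Field F] [Finite F] {ι κ : Type*} [Fintype ι] [DecidableEq ι] [Fintype κ]
  [DecidableEq κ]

/-- The normalizer of `W ∩ SL` is scalar times `W`. -/
def NormSL (W : Subgroup (GL ι F)) : Prop :=
  ∀ g : GL ι F, (∀ x ∈ W, (x : Matrix ι ι F).det = 1 → g * x * g⁻¹ ∈ W) →
    (∀ x ∈ W, (x : Matrix ι ι F).det = 1 → g⁻¹ * x * g ∈ W) →
      ∃ c : Fˣ, ∃ a ∈ W, g = Matrix.GeneralLinearGroup.scalar ι c * a

theorem det_reindexGL (e : ι ≃ κ) (g : GL ι F) :
    (reindexGL (F := F) e g : Matrix κ κ F).det = (g : Matrix ι ι F).det :=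
  Matrix.det_reindexAlgEquiv F F e _

theorem reindexGL_scalar (e : ι ≃ κ) (c : Fˣ) :
    reindexGL (F := F) e (GeneralLinearGroup.scalar ι c) = GeneralLinearGroup.scalar κ c := by
  refine Units.ext ?_
  show (reindexAlgEquiv F F e) (Matrix.scalar ι (c : F)) = Matrix.scalar κ (c : F)
  ext i j
  simp [diagonal_apply]

theorem Good.map {W : Subgroup (GL ι F)} (hW : Good W) (e : ι ≃ κ) :
    Good (W.map (reindexGL (F := F) e).toMonoidHom) where
  negOne := ⟨-1, hW.negOne, Units.ext (by
    show (reindexAlgEquiv F F e) (((-1 : GL ι F) : Matrix ι ι F)) = ((-1 : GL κ F) : Matrix κ κ F)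
    ext i j
    simp [Matrix.one_apply])⟩
  cent := by
    intro g hg
    obtain ⟨c, hc⟩ := hW.cent ((reindexAlgEquiv F F e).symm g) fun x hx hd => by
      refine (reindexAlgEquiv F F e).injective ?_
      rw [map_mul, map_mul, AlgEquiv.apply_symm_apply]
      exact hg _ ⟨x, hx, rfl⟩ ((det_reindexGL e x).trans hd)
    refine ⟨c, ?_⟩
    rw [← (reindexAlgEquiv F F e).apply_symm_apply g, hc]
    ext i j
    simp [diagonal_apply]
  norm := by
    intro g hg
    obtain ⟨g, rfl⟩ := (reindexGL (F := F) e).surjective g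
    obtain ⟨c, a, ha, hga⟩ := hW.norm g fun x hx => by
      obtain ⟨y, hy, hye⟩ := hg _ ⟨x, hx, rfl⟩
      have : y = g * x * g⁻¹ := (reindexGL (F := F) e).injective (by
        rw [map_mul, map_mul, map_inv]; exact hye)
      exact this ▸ hy
    exact ⟨c, _, ⟨a, ha, rfl⟩, by rw [hga, map_mul, reindexGL_scalar]; rfl⟩

theorem NormSL.map {W : Subgroup (GL ι F)} (hW : NormSL W) (e : ι ≃ κ) :
    NormSL (W.map (reindexGL (F := F) e).toMonoidHom) := by
  intro g hg hg'
  obtain ⟨g, rfl⟩ := (reindexGL (F := F) e).surjective g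
  obtain ⟨c, a, ha, hga⟩ := hW g
    (fun x hx hd => by
      obtain ⟨y, hy, hye⟩ := hg _ ⟨x, hx, rfl⟩ ((det_reindexGL e x).trans hd)
      have : y = g * x * g⁻¹ := (reindexGL (F := F) e).injective (by
        rw [map_mul, map_mul, map_inv]; exact hye)
      exact this ▸ hy)
    (fun x hx hd => by
      obtain ⟨y, hy, hye⟩ := hg' _ ⟨x, hx, rfl⟩ ((det_reindexGL e x).trans hd)
      have : y = g⁻¹ * x * g := (reindexGL (F := F) e).injective (by
        rw [map_mul, map_mul, map_inv]; exact hye)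
      exact this ▸ hy)
  exact ⟨c, _, ⟨a, ha, rfl⟩, by rw [hga, map_mul, reindexGL_scalar]; rfl⟩

variable {G : ∀ n, Subgroup (GL (Fin n) F)} {a b : ℕ}

/-- The iterated wreath products are Sylow subgroups of the family `G`. -/
theorem exists_good (h2 : (2 : F) ≠ 0)
    (hJ : ∀ n, ∀ x ∈ G n, ∀ y ∈ G n, reindexGL (F := F) finSumFinEquiv (J x y) ∈ G (n + n))
    (hsw : ∀ n, reindexGL (F := F) finSumFinEquiv (sw : GL (Fin n ⊕ Fin n) F) ∈ G (n + n))
    (W₁ : Subgroup (GL (Fin 2) F)) (hle : W₁ ≤ G 2) (hcard : Nat.card W₁ = 2 ^ (a + b)) (hW : Good W₁) :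
    ∀ w n, n = 2 ^ (w + 1) → ∃ W : Subgroup (GL (Fin n) F), W ≤ G n ∧
      Nat.card W = 2 ^ (2 ^ w * (a + b) + (2 ^ w - 1)) ∧ Good W ∧ (1 ≤ w → NormSL W) := by
  intro w
  induction w with
  | zero =>
    intro n hn
    subst hn
    exact ⟨W₁, hle, by simpa using hcard, hW, fun h => absurd h (by omega)⟩
  | succ w ih =>
    intro N hN
    obtain ⟨n, hn⟩ : ∃ n, n = 2 ^ (w + 1) := ⟨_, rfl⟩
    obtain rfl : N = n + n := by rw [hN, hn]; ring
    obtain ⟨W, hWle, hWcard, hWg, -⟩ := ih n hn
    have h2n : 2 ≤ n := hn ▸ Nat.le_self_pow (Nat.succ_ne_zero w) 2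
    haveI : Nonempty (Fin n) := ⟨⟨0, by omega⟩⟩
    have he : Even (Fintype.card (Fin n)) := by
      rw [Fintype.card_fin, hn, pow_succ']; exact even_two_mul _
    have hι : 1 < Fintype.card (Fin n) := by rw [Fintype.card_fin]; omega
    refine ⟨(double W hWg.negOne).map (reindexGL (F := F) finSumFinEquiv).toMonoidHom, ?_, ?_,
      (good_double h2 he hι hWg).map _, fun _ => (NormSL.map (fun g hg hg' => norm_double h2 he hι hWg g hg hg') _)⟩
    · rintro _ ⟨g, ⟨x, hx, y, hy, rfl | rfl⟩, rfl⟩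
      · exact hJ n x (hWle hx) y (hWle hy)
      · rw [map_mul]; exact mul_mem (hJ n x (hWle hx) y (hWle hy)) (hsw n)
    · rw [Subgroup.card_map_of_injective (f := (reindexGL (F := F) finSumFinEquiv).toMonoidHom)
          (MulEquiv.injective _), card_double, hWcard,
        ← pow_mul, ← pow_succ']
      congr 1
      have := Nat.one_le_two_pow (n := w)
      rw [pow_succ 2 w, show 2 ^ w * 2 * (a + b) = (2 ^ w * (a + b)) * 2 by ring]
      omega

/-- The determinant one part of such a Sylow subgroup is self-normalizing in the determinant one part. -/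
theorem normalizer_le {n k : ℕ} (hn : n = 2 ^ k) (Gn W : Subgroup (GL (Fin n) F)) (hWG : W ≤ Gn) (hcard : Nat.card W = 2 ^ (Nat.card Gn).factorization 2)
    (hW : NormSL W) (H : Subgroup (SpecialLinearGroup (Fin n) F))
    (hH : ∀ A, A ∈ H ↔ SpecialLinearGroup.toGL A ∈ Gn) (S : Sylow 2 H) :
    Subgroup.normalizer ((S : Subgroup H) : Set H) ≤ S := by
  classical
  haveI : Fact (Nat.Prime 2) := ⟨Nat.prime_two⟩
  let ι₀ : H →* Gn := (SpecialLinearGroup.toGL.comp H.subtype).codRestrict Gn fun A => (hH A).1 A.2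
  have hι : Function.Injective ι₀ := fun A B e =>
    Subtype.ext (SpecialLinearGroup.toGL_injective (congrArg Subtype.val e))
  let dG : Gn →* Fˣ := GeneralLinearGroup.det.comp Gn.subtype
  have hrange : ι₀.range = dG.ker := by
    ext x
    constructor
    · rintro ⟨A, rfl⟩
      exact Units.ext (A : SpecialLinearGroup (Fin n) F).2
    · intro hx
      have hd : ((x : GL (Fin n) F) : Matrix (Fin n) (Fin n) F).det = 1 := congrArg Units.val hx
      refine ⟨⟨⟨_, hd⟩, (hH _).2 (by
        have : SpecialLinearGroup.toGL (⟨_, hd⟩ : SpecialLinearGroup (Fin n) F) = (x : GL (Fin n) F) :=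
          Units.ext rfl
        rw [this]; exact x.2)⟩, Subtype.ext (Units.ext rfl)⟩
  have hcardP : Nat.card (W.subgroupOf Gn) = 2 ^ (Nat.card Gn).factorization 2 := by
    rw [Nat.card_congr (Subgroup.subgroupOfEquivOfLe hWG).toEquiv, hcard]
  let P : Sylow 2 Gn := Sylow.ofCard (W.subgroupOf Gn) hcardP
  obtain ⟨Q, hQ⟩ := CfsgLib.PronormalExt.exists_sylow_inf dG.ker P
  let S₀' : Subgroup H := W.comap (SpecialLinearGroup.toGL.comp H.subtype)
  have hmap : S₀'.map ι₀ = (W.subgroupOf Gn) ⊓ dG.ker := by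
    rw [← hrange, inf_comm, ← Subgroup.map_comap_eq]
    rfl
  have hcS : Nat.card S₀' = 2 ^ (Nat.card H).factorization 2 := by
    rw [← Subgroup.card_map_of_injective (f := ι₀) hι, hmap]
    have hPeq : (P : Subgroup Gn) = W.subgroupOf Gn := rfl
    rw [← hPeq, ← hQ, Subgroup.card_map_of_injective (Subgroup.subtype_injective _), Q.card_eq_multiplicity,
      ← hrange, ← Nat.card_congr (MonoidHom.ofInjective hι).toEquiv]
  let S₀ : Sylow 2 H := Sylow.ofCard S₀' hcS
  have key : Subgroup.normalizer ((S₀ : Subgroup H) : Set H) ≤ S₀ := by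
    intro g hg
    have hgS : ∀ x : GL (Fin n) F, x ∈ W → (x : Matrix (Fin n) (Fin n) F).det = 1 → ∀ k : H,
        k ∈ Subgroup.normalizer ((S₀ : Subgroup H) : Set H) →
          SpecialLinearGroup.toGL (k : SpecialLinearGroup (Fin n) F) * x *
            (SpecialLinearGroup.toGL (k : SpecialLinearGroup (Fin n) F))⁻¹ ∈ W := by
      intro x hx hd k hk
      let y : SpecialLinearGroup (Fin n) F := ⟨x, hd⟩
      have hy : SpecialLinearGroup.toGL y = x := Units.ext rfl
      have hyH : y ∈ H := (hH y).2 (hy ▸ hWG hx)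
      have hmem : (⟨y, hyH⟩ : H) ∈ (S₀ : Subgroup H) := by
        show SpecialLinearGroup.toGL y ∈ W
        rw [hy]; exact hx
      have := (Subgroup.mem_normalizer_iff.1 hk ⟨y, hyH⟩).1 hmem
      have h' : SpecialLinearGroup.toGL ((k * ⟨y, hyH⟩ * k⁻¹ : H) : SpecialLinearGroup (Fin n) F) ∈ W := this
      simpa [hy] using h'
    obtain ⟨c, w, hw, hgw⟩ := hW (SpecialLinearGroup.toGL (g : SpecialLinearGroup (Fin n) F))
      (fun x hx hd => hgS x hx hd g hg)
      (fun x hx hd => by simpa using hgS x hx hd g⁻¹ (inv_mem hg))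
    have hwW : w ^ Nat.card W = 1 :=
      congrArg Subtype.val (pow_card_eq_one' (x := (⟨w, hw⟩ : W)))
    have hdw : ((c : F) ^ n) ^ Nat.card W = 1 := by
      have hd := congrArg (fun m : GL (Fin n) F => (m : Matrix (Fin n) (Fin n) F).det ^ Nat.card W) hgw
      simp only [Units.val_mul, det_mul, mul_pow] at hd
      rw [show ((SpecialLinearGroup.toGL (g : SpecialLinearGroup (Fin n) F) : GL (Fin n) F) :
        Matrix (Fin n) (Fin n) F).det = 1 from (g : SpecialLinearGroup (Fin n) F).2, one_pow,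
        ← Matrix.det_pow ((w : GL (Fin n) F) : Matrix (Fin n) (Fin n) F), ← Units.val_pow_eq_pow_val, hwW,
        Units.val_one, det_one, mul_one] at hd
      rw [hd]
      simp [GeneralLinearGroup.scalar]
    have hgpow : g ^ (n * Nat.card W) = 1 := by
      refine hι (Subtype.ext ?_)
      rw [map_pow, map_one]
      show (SpecialLinearGroup.toGL (g : SpecialLinearGroup (Fin n) F)) ^ (n * Nat.card W) = 1
      rw [hgw, (show Commute (GeneralLinearGroup.scalar (Fin n) c) w from scalar_comm c w).mul_pow,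
        ← map_pow, show c ^ (n * Nat.card W) = 1 from Units.ext (by
          rw [Units.val_pow_eq_pow_val, pow_mul]; simpa using hdw), map_one, one_mul, mul_comm, pow_mul,
        hwW, one_pow]
    have hz : IsPGroup 2 (Subgroup.zpowers g) := by
      obtain ⟨m, -, hm⟩ := (Nat.dvd_prime_pow Nat.prime_two).1
        ((orderOf_dvd_of_pow_eq_one hgpow).trans
          (show n * Nat.card W ∣ 2 ^ (k + (Nat.card Gn).factorization 2) by
            rw [hcard, pow_add]; exact mul_dvd_mul_right (dvd_of_eq hn) _))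
      exact IsPGroup.of_card (by rw [Nat.card_zpowers, hm])
    have : g ∈ Subgroup.zpowers g ⊓ Subgroup.normalizer ((S₀ : Subgroup H) : Set H) :=
      ⟨Subgroup.mem_zpowers g, hg⟩
    exact ((IsPGroup.inf_normalizer_sylow hz S₀).le this).2
  obtain ⟨h, rfl⟩ := MulAction.exists_smul_eq H S₀ S
  intro g hg
  have hg' : h⁻¹ * g * h ∈ Subgroup.normalizer ((S₀ : Subgroup H) : Set H) := by
    refine Sylow.smul_eq_iff_mem_normalizer.1 ?_
    rw [mul_smul, mul_smul, Sylow.smul_eq_iff_mem_normalizer.2 hg, inv_smul_smul]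
  exact ⟨h⁻¹ * g * h, key hg', by simp [mul_assoc]⟩

end CfsgLib.SymSylow.WreathNorm

namespace CfsgLib.SymSylow

/-- If every Sylow 2-subgroup has normalizer normalizing its overgroups, subgroups of odd index of a quotient
are pronormal. -/
theorem isPronormal_quotient {G : Type*} [Group G] [Finite G] (Z : Subgroup G) [Z.Normal]
    (h : ∀ (K : Subgroup G) (S : Sylow 2 G), (S : Subgroup G) ≤ K →
      Subgroup.normalizer ((S : Subgroup G) : Set G) ≤ Subgroup.normalizer (K : Set G))
    (H : Subgroup (G ⧸ Z)) (hH : Odd H.index) : Cfsg.IsPronormal H := by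
  have hsurj := QuotientGroup.mk'_surjective Z
  rw [← Subgroup.map_comap_eq_self_of_surjective hsurj H]
  refine CfsgLib.PronormalExt.isPronormal_map hsurj (isPronormal_of_odd_index _ ?_ fun S hS => h _ S hS)
  rw [Subgroup.index_comap_of_surjective _ hsurj]
  exact hH

theorem isPronormal_quotient_self {G : Type*} [Group G] [Finite G] (Z : Subgroup G) [Z.Normal]
    (h : ∀ S : Sylow 2 G, Subgroup.normalizer ((S : Subgroup G) : Set G) ≤ S)
    (H : Subgroup (G ⧸ Z)) (hH : Odd H.index) : Cfsg.IsPronormal H :=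
  isPronormal_quotient Z (fun _ S hS => ((h S).trans hS).trans Subgroup.le_normalizer) H hH

end CfsgLib.SymSylow
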