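import Mathlib
import Cfsg.Agent.SymSylow.WreathBase
import Cfsg.Agent.SymSylow.WreathSylow
import Cfsg.Agent.SylowGLTwo.Three
import Cfsg.Agent.SylowGLTwo.Card

/-!
Sylow 2-subgroups of `SL_{2^w}(q)`, `q` odd, are self-normalizing, except for `w = 1`, `q ≡ ±3 (mod 8)`.
-/

set_option autoImplicit false
set_option linter.unusedSectionVars false

namespace CfsgLib.SymSylow.WreathNorm

open Matrix

variable {F : Type*} [Field F] [Fintype F]

theorem two_ne_zero_of_odd_card (hq : Odd (Fintype.card F)) : (2 : F) ≠ 0 :=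
  Ring.two_ne_zero fun h =>
    Nat.not_even_iff_odd.2 hq (Nat.even_iff.2 (FiniteField.even_card_iff_char_two.1 h))

theorem factorization_sq_pow {q : ℕ} (hq : Odd q) (h1 : 1 < q) (j : ℕ) :
    (q ^ (2 * j + 2) - 1).factorization 2 = (q ^ 2 - 1).factorization 2 + (j + 1).factorization 2 := by
  rw [show 2 * j + 2 = 2 * (j + 1) by ring, pow_mul]
  refine GLTwo.factorization_pow_sub_one (Nat.one_lt_pow two_ne_zero h1) ?_ (by omega)
  obtain ⟨k, rfl⟩ := hq
  rw [show (2 * k + 1) ^ 2 = 4 * (k * k + k) + 1 by ring]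
  omega

theorem factorization_card_top (hq : Odd (Fintype.card F)) (w : ℕ) :
    (Nat.card (⊤ : Subgroup (GL (Fin (2 ^ (w + 1))) F))).factorization 2 = 2 ^ w *
      ((Fintype.card F - 1).factorization 2 + (Fintype.card F ^ 2 - 1).factorization 2) + (2 ^ w - 1) := by
  have h1 : 1 < Fintype.card F := Fintype.one_lt_card
  rw [Subgroup.card_top, GLTwo.factorization_card_GL hq,
    sum_two_pow (fun i => (Fintype.card F ^ i - 1).factorization 2) _ _ (fun j => ?_)
      (factorization_sq_pow hq h1)]
  rw [Nat.factorization_def _ Nat.prime_two, Nat.factorization_def _ Nat.prime_two]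
  exact CfsgLib.SylowGLTwo.padic_two_pow_sub_one_odd hq h1 (odd_two_mul_add_one j)

theorem exists_order_two_part : ∃ ζ : Fˣ, orderOf ζ = 2 ^ (Fintype.card F - 1).factorization 2 := by
  obtain ⟨g, hg⟩ := IsCyclic.exists_ofOrder_eq_natCard (α := Fˣ)
  refine ⟨g ^ (orderOf g / 2 ^ (Fintype.card F - 1).factorization 2),
    orderOf_pow_orderOf_div (orderOf_pos g).ne' ?_⟩
  rw [hg, Nat.card_units, Nat.card_eq_fintype_card]
  exact Nat.ordProj_dvd _ _

theorem linear_base (hq : Odd (Fintype.card F)) :
    ∃ W : Subgroup (GL (Fin 2) F), Nat.card W =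
        2 ^ ((Fintype.card F - 1).factorization 2 + (Fintype.card F ^ 2 - 1).factorization 2) ∧
      Good W ∧ (Fintype.card F % 8 = 1 ∨ Fintype.card F % 8 = 7 → NormSL W) := by
  have h2 := two_ne_zero_of_odd_card hq
  have h1 : 1 < Fintype.card F := Fintype.one_lt_card
  have hodd := Nat.odd_iff.1 hq
  rcases (show Fintype.card F % 4 = 1 ∨ Fintype.card F % 4 = 3 by omega) with h4 | h4
  · obtain ⟨ζ, hζ⟩ := exists_order_two_part (F := F)
    have hb := GLTwo.factorization_pow_sub_one h1 h4 two_ne_zero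
    rw [Nat.prime_two.factorization_self] at hb
    have h4e : 4 ∣ 2 ^ (Fintype.card F - 1).factorization 2 := by
      have : 2 ≤ (Fintype.card F - 1).factorization 2 :=
        (Nat.prime_two.pow_dvd_iff_le_factorization (by omega)).1 (Nat.dvd_of_mod_eq_zero (by omega))
      exact pow_dvd_pow 2 this
    refine ⟨monoW _, ?_, good_mono hζ h4e, fun h8 g hg _ => ?_⟩
    · rw [card_monoW hζ, hb, ← pow_mul, ← pow_succ']
      congr 1
      ring
    · have h8' : Fintype.card F % 8 = 1 := by omega
      have ha : 3 ≤ (Fintype.card F - 1).factorization 2 :=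
        (Nat.prime_two.pow_dvd_iff_le_factorization (by omega)).1 (Nat.dvd_of_mod_eq_zero (by omega))
      have h8e : 8 ≤ orderOf ζ := hζ ▸ (Nat.pow_le_pow_right two_pos ha)
      have hne4 : ζ ^ 4 ≠ 1 := fun e => by
        have := Nat.le_of_dvd (by norm_num) (orderOf_dvd_of_pow_eq_one e); omega
      have heven : Even (2 ^ (Fintype.card F - 1).factorization 2) :=
        even_iff_two_dvd.2 ((show 2 ∣ 4 by norm_num).trans h4e)
      have hze : ζ ^ (2 ^ (Fintype.card F - 1).factorization 2) = 1 := hζ ▸ pow_orderOf_eq_one ζ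
      refine mono_core heven (p := ζ) (r := ζ⁻¹) (fun e => hne4 ?_) (fun e => hne4 ?_) g
        (hg _ (diagD_mem hze (by rw [inv_pow, hze, inv_one])) (by simp [Matrix.det_fin_two_of]))
        (hg _ (antiD_mem (one_pow _) heven.neg_one_pow) (by simp [Matrix.det_fin_two_of]))
      · rw [eq_inv_iff_mul_eq_one] at e
        rw [show 4 = 2 * 2 from rfl, pow_mul, pow_two ζ, e, one_pow]
      · refine Units.ext ?_
        have e' : (ζ : F) ^ 2 = -1 := by
          have hz := ζ.ne_zero
          rw [Units.val_inv_eq_inv_val] at e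
          field_simp at e
          linear_combination e
        rw [Units.val_pow_eq_pow_val, show 4 = 2 * 2 from rfl, pow_mul, e', neg_one_sq, Units.val_one]
  · obtain ⟨x, y, n, hsd⟩ := CfsgLib.SylowGLTwo.exists_sdBlock h4
    have hn3 := hsd.three_le
    have hz : x ^ (2 ^ (n - 1)) = -1 := by
      have h2n : 2 ^ n = 2 ^ (n - 1) * 2 := by rw [← pow_succ]; congr 1; omega
      have hne : x ^ (2 ^ (n - 1)) ≠ 1 := fun e => by
        have := Nat.le_of_dvd (by positivity) (hsd.order ▸ orderOf_dvd_of_pow_eq_one e)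
        have := Nat.one_le_two_pow (n := n - 1)
        omega
      have hsq : x ^ (2 ^ (n - 1)) * x ^ (2 ^ (n - 1)) = 1 := by
        rw [← pow_add, ← mul_two, ← h2n, ← hsd.order, pow_orderOf_eq_one]
      set z := x ^ (2 ^ (n - 1)) with hzdef
      have hdz : (z : Matrix (Fin 2) (Fin 2) F).det = 1 := by
        have hd : (x : Matrix (Fin 2) (Fin 2) F).det = -1 := congrArg Units.val hsd.detx
        rw [hzdef, Units.val_pow_eq_pow_val, det_pow, hd]
        exact Even.neg_one_pow ((Nat.even_pow).2 ⟨even_two, by omega⟩)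
      have hc := cayley (z : Matrix (Fin 2) (Fin 2) F)
      rw [← Units.val_mul, hsq, Units.val_one, hdz, one_smul, eq_sub_iff_add_eq, ← two_smul F] at hc
      have htne : (z : Matrix (Fin 2) (Fin 2) F).trace ≠ 0 := fun e => by
        rw [e, zero_smul] at hc
        have := congrFun (congrFun hc 0) 0
        simp [h2] at this
      have hz' : (z : Matrix (Fin 2) (Fin 2) F) = ((z : Matrix (Fin 2) (Fin 2) F).trace⁻¹ * 2) • 1 := by
        rw [mul_smul, hc, smul_smul, inv_mul_cancel₀ htne, one_smul]
      set t := (z : Matrix (Fin 2) (Fin 2) F).trace⁻¹ * 2 with ht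
      have ht2 : t * t = 1 := by
        have := congrArg (fun m : GL (Fin 2) F => (m : Matrix (Fin 2) (Fin 2) F) 0 0) hsq
        simp [hz'] at this
        exact this
      rcases mul_self_eq_one_iff.1 ht2 with e | e
      · exact absurd (Units.ext (by rw [hz', e, one_smul, Units.val_one])) hne
      · exact Units.ext (by rw [hz', e, neg_one_smul, Units.val_neg, Units.val_one])
    have hpair : SDPair (K := F) x y (2 ^ n) := by
      have hh : 2 ^ n / 2 = 2 ^ (n - 1) := by
        rw [show n = n - 1 + 1 by omega, pow_succ, Nat.mul_div_cancel _ two_pos]; simp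
      refine ⟨h2, ?_, hsd.order, hsd.invol, ?_, congrArg Units.val hsd.detx, congrArg Units.val hsd.dety,
        hh.symm ▸ hz⟩
      · exact pow_dvd_pow 2 hn3
      · have := hsd.rel
        rw [inv_eq_of_mul_eq_one_right hsd.invol] at this
        rw [this]
        refine neg_eq_iff_eq_neg.1 (inv_eq_of_mul_eq_one_right ?_).symm
        rw [mul_neg, ← pow_succ', Nat.sub_add_cancel Nat.one_le_two_pow, hz, neg_neg]
    refine ⟨hpair.grp, ?_, hpair.good, fun h8 g hg _ => hpair.normSL ?_ g hg⟩
    · have hv : (Fintype.card F + 1).factorization 2 + 1 = n := by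
        rw [Nat.factorization_def _ Nat.prime_two]; exact hsd.val
      have ha : (Fintype.card F - 1).factorization 2 = 1 := GLTwo.factorization_two_of_mod_four (by omega)
      rw [hpair.card_grp, show Fintype.card F ^ 2 - 1 = (Fintype.card F + 1) * (Fintype.card F - 1) by
        rw [← one_pow 2, Nat.sq_sub_sq, one_pow], Nat.factorization_mul (by omega) (by omega),
        Finsupp.add_apply, ha, ← pow_succ']
      congr 1
      omega
    · have h3 : 3 ≤ (Fintype.card F + 1).factorization 2 :=
        (Nat.prime_two.pow_dvd_iff_le_factorization (by omega)).1 (Nat.dvd_of_mod_eq_zero (by omega))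
      rw [Nat.factorization_def _ Nat.prime_two] at h3
      have := hsd.val
      exact pow_dvd_pow 2 (show 4 ≤ n by omega)

/-- Self-normalizing Sylow 2-subgroups. -/
theorem linear_normalizer_le (hq : Odd (Fintype.card F)) {w n : ℕ} (hn : n = 2 ^ (w + 1))
    (h : 1 ≤ w ∨ Fintype.card F % 8 = 1 ∨ Fintype.card F % 8 = 7)
    (S : Sylow 2 (SpecialLinearGroup (Fin n) F)) :
    Subgroup.normalizer ((S : Subgroup (SpecialLinearGroup (Fin n) F)) : Set (SpecialLinearGroup (Fin n) F))
      ≤ S := by
  have h2 := two_ne_zero_of_odd_card hq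
  obtain ⟨W₁, hc, hg, hn₁⟩ := linear_base hq
  obtain ⟨W, hWn, hWc, hWN⟩ : ∃ W : Subgroup (GL (Fin n) F), True ∧
      Nat.card W = 2 ^ (Nat.card (⊤ : Subgroup (GL (Fin n) F))).factorization 2 ∧ NormSL W := by
    by_cases hw : w = 0
    · subst hw
      subst hn
      exact ⟨W₁, trivial, hc.trans (by rw [factorization_card_top hq]; simp), hn₁ (h.resolve_left (by omega))⟩
    · obtain ⟨W, -, hWc, -, hWN⟩ := exists_good (G := fun n => (⊤ : Subgroup (GL (Fin n) F))) h2
        (fun _ _ _ _ _ => trivial) (fun _ => trivial) W₁ le_top hc hg w n hn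
      subst hn
      exact ⟨W, trivial, by rw [hWc, factorization_card_top hq], hWN (by omega)⟩
  have hS := normalizer_le hn ⊤ W le_top hWc hWN ⊤ (fun A => iff_of_true trivial trivial)
  intro g hg'
  haveI : Fact (Nat.Prime 2) := ⟨Nat.prime_two⟩
  let e := (Subgroup.topEquiv (G := SpecialLinearGroup (Fin n) F))
  let T : Sylow 2 (⊤ : Subgroup (SpecialLinearGroup (Fin n) F)) := S.subtype le_top
  have hmem : (⟨g, trivial⟩ : (⊤ : Subgroup (SpecialLinearGroup (Fin n) F))) ∈
      Subgroup.normalizer ((T : Subgroup (⊤ : Subgroup (SpecialLinearGroup (Fin n) F))) : Set _) := by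
    rw [Subgroup.mem_normalizer_iff] at hg' ⊢
    intro k
    exact hg' (k : SpecialLinearGroup (Fin n) F)
  exact hS T hmem

end CfsgLib.SymSylow.WreathNorm
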