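import Mathlib
import Cfsg.Agent.Classical.Unitary.Anti.Unipotent
import Cfsg.Agent.Classical.Unitary.Anti.Moves
import Cfsg.Agent.Classical.Unitary.Anti.Standard

/-!
Overgroups of the unitriangular group in an even-dimensional unitary group are normalized by the
triangular group.
-/

set_option autoImplicit false
set_option linter.unusedSectionVars false

namespace CfsgLib.SymSylow.UnitFlag

open CfsgLib.Unitary CfsgLib.Unitary.Anti

variable {F : Type*} [Field F] [Fintype F] {n q : ℕ}

/-- Diagonal elements. -/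
def IsDg (t : ↥(SUJ n F q)) : Prop := ∀ a b : Fin n, a ≠ b → ent t a b = 0

theorem av_dg {t : ↥(SUJ n F q)} (ht : IsDg t) (i : Fin n) : av t (bv i) = ent t i i • bv i := by
  funext r
  rw [av_bv, Pi.smul_apply, smul_eq_mul, bv_apply]
  by_cases h : r = i
  · subst h; simp
  · rw [if_neg h, ht r i h, mul_zero]

/-- The height function cutting off after `j` coordinates. -/
abbrev cut (j : ℕ) : Fin n → ℕ := fun i => min (i : ℕ) j

theorem cut_mono (j : ℕ) : Monotone (cut (n := n) j) := fun _ _ h => min_le_min (Fin.le_def.1 h) le_rfl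

theorem mem_par_cut {j : ℕ} {g : ↥(SUJ n F q)} :
    g ∈ par (cut j) ↔ ∀ a b : Fin n, (b : ℕ) < j → b < a → ent g a b = 0 := by
  rw [mem_par]
  constructor
  · intro h a b hb hba
    refine h a b ?_
    have := Fin.lt_def.1 hba
    simp only [cut]
    omega
  · intro h a b hab
    simp only [cut] at hab
    exact h a b (by omega) (Fin.lt_def.2 (by omega))

variable (hF : Fintype.card F = q ^ 2)
include hF

theorem eich_smul_right {e w : Fin n → F} {l : F} (h : IsEich q e (l • w) (0 : F))
    (h' : IsEich q (l ^ q • e) w (0 : F)) :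
    eich hF e (l • w) 0 h = eich hF (l ^ q • e) w 0 h' := by
  refine av_ext fun x => ?_
  rw [av_eich, av_eich, antiH_smul_right, antiH_smul_right, pow_q_q hF]
  simp only [zero_mul, zero_smul, add_zero, smul_smul]
  module

theorem dg_conj_X {t : ↥(SUJ n F q)} (ht : IsDg t) {k l : Fin n} (hk : Fin.rev k ≠ k) (hl : Fin.rev l ≠ l)
    (hkl : k ≠ l) (a : F) : ∃ b : F, t * X hF hk hl hkl a * t⁻¹ = X hF hk hl hkl b := by
  set c := ent t (Fin.rev l) (Fin.rev l)
  refine ⟨c ^ q * (a * ent t k k), ?_⟩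
  rw [X, conj_eich hF]
  have he : av t (a • bv k) = (a * ent t k k) • bv k := by rw [av_smul, av_dg ht, smul_smul]
  have hw : av t (bv (Fin.rev l)) = c • bv (Fin.rev l) := av_dg ht _
  have h1 : IsEich q ((a * ent t k k) • bv k) (c • bv (Fin.rev l)) (0 : F) := by
    have := (isEich_X hF hk hl hkl a).map t
    rwa [he, hw] at this
  rw [eich_congr hF _ h1 he hw rfl]
  have e : c ^ q • ((a * ent t k k) • (bv k : Fin n → F)) = (c ^ q * (a * ent t k k)) • bv k := smul_smul _ _ _
  rw [eich_smul_right hF h1 (e.symm ▸ isEich_X hF hk hl hkl _), X]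
  exact eich_congr hF _ _ e rfl rfl

/-- A triangular element has a diagonal part. -/
theorem exists_diag_part {g : ↥(SUJ n F q)} (hg : g ∈ (borel : Subgroup ↥(SUJ n F q))) :
    ∃ d : ↥(SUJ n F q), IsDg d ∧ d⁻¹ * g ∈ (uni : Subgroup ↥(SUJ n F q)) := by
  have hmul : ∀ a : Fin n, ent g a a * ent g (Fin.rev a) (Fin.rev a) ^ q = 1 := by
    intro a
    have h := av_herm g (bv a) (bv (Fin.rev a))
    rw [antiH_bv_bv hF, Fin.rev_rev, if_pos rfl, antiH, Finset.sum_eq_single a] at h
    · rwa [av_bv, av_bv] at h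
    · intro i _ hi
      rw [av_bv, av_bv]
      rcases lt_or_gt_of_ne hi with h' | h'
      · rw [hg (Fin.rev i) (Fin.rev a) (Fin.lt_def.1 (Fin.rev_lt_rev.2 h')), zero_pow_q hF, mul_zero]
      · rw [hg i a (Fin.lt_def.1 h'), zero_mul]
    · simp
  have hd := g.1.2
  rw [Matrix.det_of_upperTriangular (M := (g.1 : Matrix (Fin n) (Fin n) F))
    (fun a b hab => hg a b (Fin.lt_def.1 hab))] at hd
  let D : Matrix.SpecialLinearGroup (Fin n) F :=
    ⟨Matrix.diagonal fun i => ent g i i, by rw [Matrix.det_diagonal]; exact hd⟩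
  have hD : D ∈ SUJ n F q := by
    intro x y
    show antiH q (Matrix.mulVec (Matrix.diagonal fun i => ent g i i) x)
      (Matrix.mulVec (Matrix.diagonal fun i => ent g i i) y) = antiH q x y
    refine Finset.sum_congr rfl fun i _ => ?_
    rw [Matrix.mulVec_diagonal, Matrix.mulVec_diagonal, mul_pow,
      show ent g i i * x i * (ent g (Fin.rev i) (Fin.rev i) ^ q * y (Fin.rev i) ^ q) =
        ent g i i * ent g (Fin.rev i) (Fin.rev i) ^ q * (x i * y (Fin.rev i) ^ q) by ring, hmul, one_mul]
  let d : ↥(SUJ n F q) := ⟨D, hD⟩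
  have hdd : ∀ i, ent d i i = ent g i i := fun i => Matrix.diagonal_apply_eq _ i
  have hdg : IsDg d := fun a b hab => Matrix.diagonal_apply_ne _ hab
  have hdb : d ∈ (borel : Subgroup ↥(SUJ n F q)) := fun a b hab =>
    hdg a b (fun e => by subst e; exact lt_irrefl _ hab)
  refine ⟨d, hdg, mem_uni_of_borel (mul_mem (inv_mem hdb) hg) fun a => ?_⟩
  rw [diag_mul (inv_mem hdb) hg, ← hdd, ← diag_mul (inv_mem hdb) hdb, inv_mul_cancel]
  exact Matrix.one_apply_eq a

variable (H : Subgroup ↥(SUJ n F q))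

omit hF in
/-- Elements of `H` all of whose diagonal conjugates lie in `H`. -/
def core : Subgroup ↥(SUJ n F q) where
  carrier := {h | h ∈ H ∧ ∀ t : ↥(SUJ n F q), IsDg t → t * h * t⁻¹ ∈ H}
  one_mem' := ⟨H.one_mem, fun t _ => by simp⟩
  mul_mem' := fun {a b} ha hb => ⟨H.mul_mem ha.1 hb.1, fun t ht => by
    rw [show t * (a * b) * t⁻¹ = (t * a * t⁻¹) * (t * b * t⁻¹) by group]
    exact H.mul_mem (ha.2 t ht) (hb.2 t ht)⟩
  inv_mem' := fun {a} ha => ⟨H.inv_mem ha.1, fun t ht => by
    rw [show t * a⁻¹ * t⁻¹ = (t * a * t⁻¹)⁻¹ by group]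
    exact H.inv_mem (ha.2 t ht)⟩

theorem X_mem_core {k l : Fin n} (hk : Fin.rev k ≠ k) (hl : Fin.rev l ≠ l) (hkl : k ≠ l)
    (h : ∀ a, X hF hk hl hkl a ∈ H) (a : F) : X hF hk hl hkl a ∈ core H :=
  ⟨h a, fun t ht => by obtain ⟨b, hb⟩ := dg_conj_X hF ht hk hl hkl a; rw [hb]; exact h b⟩

omit hF in
theorem dg_borel {t : ↥(SUJ n F q)} (ht : IsDg t) : t ∈ (borel : Subgroup ↥(SUJ n F q)) :=
  fun a b hab => ht a b (fun e => by subst e; exact lt_irrefl _ hab)

omit hF in
theorem borel_mem_core (hU : (uni : Subgroup ↥(SUJ n F q)) ≤ H) {g : ↥(SUJ n F q)} (hgH : g ∈ H)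
    (hg : g ∈ (borel : Subgroup ↥(SUJ n F q))) : g ∈ core H := by
  refine ⟨hgH, fun t ht => ?_⟩
  have hb := dg_borel ht
  have h1 : t * g * t⁻¹ * g⁻¹ ∈ (uni : Subgroup ↥(SUJ n F q)) := by
    refine mem_uni_of_borel (mul_mem (mul_mem (mul_mem hb hg) (inv_mem hb)) (inv_mem hg)) fun a => ?_
    have e : ∀ x ∈ (borel : Subgroup ↥(SUJ n F q)), ent x a a * ent x⁻¹ a a = 1 := fun x hx => by
      rw [← diag_mul hx (inv_mem hx), mul_inv_cancel]
      exact Matrix.one_apply_eq a
    rw [diag_mul (mul_mem (mul_mem hb hg) (inv_mem hb)) (inv_mem hg), diag_mul (mul_mem hb hg) (inv_mem hb),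
      diag_mul hb hg]
    linear_combination (ent g a a * ent g⁻¹ a a) * e t hb + e g hg
  have := H.mul_mem (hU h1) hgH
  simpa using this

/-- An overgroup of the unitriangular group is normalized by diagonal elements. -/
theorem mem_core {m : ℕ} (hn : n = m + m) (hU : (uni : Subgroup ↥(SUJ n F q)) ≤ H) {g₀ : ↥(SUJ n F q)}
    (hg₀ : g₀ ∈ H) : g₀ ∈ core H := by
  classical
  have hrev : ∀ i : Fin n, Fin.rev i ≠ i := fun i e => by
    have := congrArg Fin.val e
    rw [Anti.rev_val] at this
    omega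
  have hUc : (uni : Subgroup ↥(SUJ n F q)) ≤ core H := fun u hu =>
    borel_mem_core H hU (hU hu) (uni_le_par (f := fun i : Fin n => (i : ℕ)) (fun _ _ h => h) hu)
  have hq0 : q ≠ 0 := by have := two_le_q hF; omega
  suffices key : ∀ d j : ℕ, j + d = m → ∀ g ∈ H, g ∈ par (cut j) → g ∈ core H from
    key m 0 (zero_add m) g₀ hg₀ (mem_par_cut.2 fun _ _ h => absurd h (by omega))
  intro d
  induction d with
  | zero =>
    intro j hj g hg hflag
    refine borel_mem_core H hU hg fun a b hab => ?_
    have hab' : (b : ℕ) < (a : ℕ) := hab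
    rcases lt_or_ge (b : ℕ) m with hb | hb
    · exact mem_par_cut.1 hflag a b (by omega) (Fin.lt_def.2 hab')
    · have ha : ((Fin.rev a : Fin n) : ℕ) < m := by rw [Anti.rev_val]; omega
      have h1 : av g (bv b) a = antiH q (av g (bv b)) (bv (Fin.rev a)) := by
        rw [antiH_bv_right hF, Fin.rev_rev]
      rw [← av_bv, h1, ← av_av_inv g (bv (Fin.rev a)), av_herm, antiH_bv_left hF, av_bv,
        mem_par_cut.1 (inv_mem hflag) _ _ (by omega) (Fin.rev_lt_rev.2 (Fin.lt_def.2 hab')), zero_pow_q hF]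
  | succ d ih =>
    intro j hj g hg hflag
    let J : Fin n := ⟨j, by omega⟩
    have hJtop : (J : ℕ) < m := show j < m by omega
    set v := av g (bv J) with hv
    have hvne : ∃ r, J ≤ r ∧ v r ≠ 0 := by
      by_contra hcon
      push Not at hcon
      have h0 := av_inv_av g (bv J)
      rw [← hv] at h0
      have h1 := congrFun h0 J
      rw [bv_self, av_apply, Finset.sum_eq_zero] at h1
      · exact zero_ne_one h1
      · intro c _
        rcases lt_or_ge (c : ℕ) j with hc | hc
        · rw [mem_par_cut.1 (inv_mem hflag) J c hc (Fin.lt_def.2 hc), zero_mul]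
        · rw [hcon c (Fin.le_def.2 hc), mul_zero]
    obtain ⟨r₀, hr₀, hr₀'⟩ := hvne
    obtain ⟨k, hk, hmax⟩ := Finset.exists_max_image (Finset.univ.filter fun r : Fin n => v r ≠ 0) id
      ⟨r₀, by simp [hr₀']⟩
    have hk0 : v k ≠ 0 := (Finset.mem_filter.1 hk).2
    have hJk : J ≤ k := hr₀.trans (hmax r₀ (by simp [hr₀']))
    have habove : ∀ r, k < r → v r = 0 := fun r hr => by
      by_contra h'
      exact absurd (hmax r (by simp [h'])) (not_le.2 hr)
    rcases eq_or_lt_of_le hJk with hJk' | hJk'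
    · refine ih (j + 1) (by omega) g hg (mem_par_cut.2 fun a b hb hba => ?_)
      rcases Nat.lt_succ_iff_lt_or_eq.1 hb with hb | hb
      · exact mem_par_cut.1 hflag a b hb hba
      · obtain rfl : b = J := Fin.ext hb
        rw [← av_bv, ← hv]
        exact habove a (hJk' ▸ hba)
    have hkrj : k ≤ Fin.rev J := by
      by_contra hlt
      rw [not_le] at hlt
      have hi : ((Fin.rev k : Fin n) : ℕ) < j := by
        have h2 : Fin.rev k < J := by
          have := Fin.rev_lt_rev.2 hlt
          rwa [Fin.rev_rev] at this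
        exact Fin.lt_def.1 h2
      refine hk0 ?_
      have h1 : v k = antiH q v (bv (Fin.rev k)) := by rw [antiH_bv_right hF, Fin.rev_rev]
      rw [h1, hv, ← av_av_inv g (bv (Fin.rev k)), av_herm, antiH_bv_left hF, av_bv,
        mem_par_cut.1 (inv_mem hflag) _ _ hi ?_, zero_pow_q hF]
      refine Fin.lt_def.2 (lt_of_lt_of_le hi ?_)
      rw [Anti.rev_val]
      show j ≤ n - 1 - j
      omega
    -- move the column to a basis vector
    set w : Fin n → F := (v k)⁻¹ • v - bv k with hw
    have hw0 : ∀ r, k ≤ r → w r = 0 := by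
      intro r hr
      rcases eq_or_lt_of_le hr with rfl | hr'
      · simp [hw, hk0]
      · simp [hw, habove r hr', bv_ne hr'.ne']
    have hvv : antiH q v v = 0 := by rw [hv, av_herm, iso_bv hF (hrev J)]
    obtain ⟨u, hu, huk⟩ : ∃ u ∈ (uni : Subgroup ↥(SUJ n F q)), av u (bv k) = bv k + w := by
      rcases lt_or_gt_of_ne (hrev k) with hrk | hrk
      · -- bottom half
        set t := Fin.rev k with ht
        set a := w t
        set w1 := w - a • bv t with hw1
        have hw1t : w1 t = 0 := by simp [hw1, a]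
        have hw1k : ∀ r, k ≤ r → w1 r = 0 := fun r hr => by
          have : r ≠ t := (lt_of_lt_of_le hrk hr).ne'
          simp [hw1, hw0 r hr, bv_ne this]
        have htt : Fin.rev t = k := Fin.rev_rev k
        have ec : antiH q (bv t) w1 = 0 := by
          rw [antiH_bv_left hF, htt, hw1k k le_rfl, zero_pow_q hF]
        have ecc : antiH q w1 (bv t) = 0 := by rw [antiH_conj hF, ec, zero_pow_q hF]
        have ek : antiH q (bv k) w1 = 0 := by rw [antiH_bv_left hF, ← ht, hw1t, zero_pow_q hF]
        have ekk : antiH q w1 (bv k) = 0 := by rw [antiH_conj hF, ek, zero_pow_q hF]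
        have htrace : a + a ^ q + antiH q w1 w1 = 0 := by
          have h0 : antiH q (bv k + w) (bv k + w) = 0 := by
            rw [show bv k + w = (v k)⁻¹ • v by rw [hw]; abel, antiH_smul_left, antiH_smul_right, hvv]
            simp
          have hwe : w = a • bv t + w1 := by rw [hw1]; abel
          rw [hwe] at h0
          simp only [antiH_add_left, antiH_add_right hF, antiH_smul_left, antiH_smul_right, iso_bv hF (hrev k),
            iso_bv hF (hrev t), ec, ecc, ek, ekk, antiH_bv_bv hF, htt, ← ht, if_pos, mul_zero, mul_one,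
            add_zero, zero_add] at h0
          linear_combination h0
        have hE : IsEich q (bv t) (-w1) a := ⟨iso_bv hF (hrev t), by rw [antiH_neg_right hF, ec, neg_zero], by
          rw [antiH_neg_left, antiH_neg_right hF, neg_neg, htrace]⟩
        refine ⟨eich hF (bv t) (-w1) a hE, ?_, ?_⟩
        · refine mem_rad_of_bv fun s r hsr => ?_
          have hsr' : s ≤ r := Fin.le_def.2 hsr
          rw [av_eich, antiH_neg_right hF, antiH_bv_left hF, antiH_bv_left hF]
          simp only [Pi.add_apply, Pi.sub_apply, Pi.smul_apply, Pi.neg_apply, smul_eq_mul, bv_apply]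
          by_cases hsk : s = k
          · subst hsk
            simp [hw1k r hsr', (lt_of_lt_of_le hrk hsr').ne']
          · have h1 : ¬ t = Fin.rev s := fun e => hsk (by rw [← htt, e, Fin.rev_rev])
            have h1' : ¬ Fin.rev s = t := fun e => h1 e.symm
            simp [h1, h1', hw1k, zero_pow_q hF, eq_comm (a := t)]
            by_cases hw1s : w1 (Fin.rev s) = 0
            · simp [hw1s, h1', hq0, zero_pow_q hF]
            · have h2 : Fin.rev s < k := lt_of_not_ge fun h => hw1s (hw1k _ h)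
              have h3 : t < r := by
                have := Fin.rev_lt_rev.2 h2
                rw [Fin.rev_rev] at this
                exact lt_of_lt_of_le this hsr'
              simp [h1', h3.ne']
        · rw [av_eich, antiH_neg_right hF, ek, antiH_bv_bv hF, htt, if_pos rfl, hw1]
          module
      · -- top half
        have hwiso : antiH q w w = 0 := by
          refine Finset.sum_eq_zero fun s _ => ?_
          by_cases hs : w s = 0
          · rw [hs, zero_mul]
          have h1 : s < k := lt_of_not_ge fun h => hs (hw0 s h)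
          rw [hw0 (Fin.rev s) ?_, zero_pow_q hF, mul_zero]
          exact (lt_trans hrk (Fin.rev_lt_rev.2 h1)).le
        have hwp : antiH q w (bv (Fin.rev k)) = 0 := by
          rw [antiH_bv_right hF, Fin.rev_rev, hw0 k le_rfl]
        have hwk : antiH q (bv k) w = 0 := by
          rw [antiH_bv_left hF, hw0 (Fin.rev k) hrk.le, zero_pow_q hF]
        have hE : IsEich q w (bv (Fin.rev k)) (0 : F) := ⟨hwiso, hwp, by
          rw [iso_bv hF (hrev _), zero_pow_q hF]; simp⟩
        refine ⟨eich hF w (bv (Fin.rev k)) 0 hE, ?_, ?_⟩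
        · refine mem_rad_of_bv fun s r hsr => ?_
          have hsr' : s ≤ r := Fin.le_def.2 hsr
          rw [av_eich, antiH_bv_bv hF, Fin.rev_rev, antiH_bv_left hF]
          simp only [Pi.add_apply, Pi.sub_apply, Pi.smul_apply, smul_eq_mul, bv_apply, zero_mul, add_zero]
          by_cases hsk : k = s
          · subst hsk
            have : r ≠ Fin.rev k ∨ w (Fin.rev k) = 0 := Or.inr (hw0 _ hrk.le)
            simp [hw0 r hsr', hw0 _ hrk.le, zero_pow_q hF]
          · simp [hsk]
            by_cases hws : w (Fin.rev s) = 0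
            · simp [hws, hq0, zero_pow_q hF]
            · have h2 : Fin.rev s < k := lt_of_not_ge fun h => hws (hw0 _ h)
              have h3 : Fin.rev k < r := by
                have := Fin.rev_lt_rev.2 h2
                rw [Fin.rev_rev] at this
                exact lt_of_lt_of_le this hsr'
              simp [h3.ne']
        · rw [av_eich, hwk, antiH_bv_bv hF, Fin.rev_rev, if_pos rfl]
          simp
    set g' := u⁻¹ * g with hg'
    have hg'H : g' ∈ H := H.mul_mem (H.inv_mem (hU hu)) hg
    have hflag' : g' ∈ par (cut j) := mul_mem (inv_mem (uni_le_par (cut_mono j) hu)) hflag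
    have hcol : av g' (bv J) = v k • bv k := by
      have e1 : v = v k • (bv k + w) := by
        rw [hw, add_sub_cancel, smul_smul, mul_inv_cancel₀ hk0, one_smul]
      rw [hg', av_mul, ← hv]
      conv_lhs => rw [e1]
      rw [← huk, ← av_smul, av_inv_av]
    -- the lower root group
    have hlow : ∀ a, X hF (hrev k) (hrev J) hJk'.ne' a ∈ H := by
      intro a
      set E := X hF (hrev k) (hrev J) hJk'.ne' a
      set z := av g'⁻¹ (bv (Fin.rev J)) with hz
      have hzsupp : ∀ r, Fin.rev J ≤ r → z r = 0 := by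
        intro r hr
        have h1 : z r = antiH q z (bv (Fin.rev r)) := by rw [antiH_bv_right hF, Fin.rev_rev]
        rw [h1, ← av_inv_av g' (bv (Fin.rev r)), hz, av_herm, antiH_bv_left hF, Fin.rev_rev]
        rcases eq_or_lt_of_le hr with rfl | hr'
        · rw [Fin.rev_rev, hcol, Pi.smul_apply, bv_ne hJk'.ne, smul_zero, zero_pow_q hF]
        · have h2 : Fin.rev r < J := by
            have := Fin.rev_lt_rev.2 hr'
            rwa [Fin.rev_rev] at this
          rw [av_bv, mem_par_cut.1 hflag' J (Fin.rev r) (Fin.lt_def.1 h2) h2, zero_pow_q hF]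
      have he : av g'⁻¹ (a • bv k) = (a * (v k)⁻¹) • bv J := by
        have : bv k = (v k)⁻¹ • av g' (bv J) := by
          rw [hcol, smul_smul, inv_mul_cancel₀ hk0, one_smul]
        rw [this, av_smul, av_smul, av_inv_av, smul_smul]
      have hmem : g'⁻¹ * E * g'⁻¹⁻¹ ∈ (uni : Subgroup ↥(SUJ n F q)) := by
        simp only [E, X, conj_eich hF]
        refine mem_rad_of_bv fun s r hsr => ?_
        have hsr' : s ≤ r := Fin.le_def.2 hsr
        rw [av_eich, ← hz, he, antiH_smul_right, antiH_bv_left hF, antiH_bv_left hF]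
        simp only [Pi.add_apply, Pi.sub_apply, Pi.smul_apply, smul_eq_mul, bv_apply, zero_mul, add_zero]
        by_cases hs : J = Fin.rev s
        · have h0 : z (Fin.rev s) = 0 ∨ r ≠ J := by
            refine Or.inr fun e => ?_
            have h1 : Fin.rev J ≤ J := by
              rw [hs, Fin.rev_rev]; exact hsr'.trans (e.trans hs).le
            have := Fin.le_def.1 h1
            rw [Anti.rev_val] at this
            omega
          have hzr : z r = 0 := hzsupp r (by rw [hs, Fin.rev_rev]; exact hsr')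
          rcases h0 with h0 | h0 <;> simp [hzr, h0, zero_pow_q hF]
        · simp [eq_comm (a := Fin.rev s), hs]
          by_cases hzs : z (Fin.rev s) = 0
          · simp [hzs, hq0, zero_pow_q hF]
          · have h2 : Fin.rev s < Fin.rev J := lt_of_not_ge fun h => hzs (hzsupp _ h)
            have h3 : J < r := lt_of_lt_of_le (Fin.rev_lt_rev.1 h2) hsr'
            simp [h3.ne', hq0]
      have := H.mul_mem (H.mul_mem hg'H (hU hmem)) (H.inv_mem hg'H)
      simpa [mul_assoc] using this
    have hup : ∀ a, X hF (hrev J) (hrev k) hJk'.ne a ∈ core H := fun a =>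
      X_mem_core hF H _ _ _ (fun b => hU (X_mem_uni hF _ _ _ hJk' b)) a
    have hlowc : ∀ a, X hF (hrev k) (hrev J) hJk'.ne' a ∈ core H := X_mem_core hF H _ _ _ hlow
    obtain ⟨s, hsc, hsfix, c, hsk⟩ : ∃ s ∈ core H,
        (∀ i : Fin n, (i : ℕ) < j → av s (bv i) = bv i) ∧ ∃ c : F, av s (bv J) = c • bv k ∧ c ≠ 0 := by
      have hne : ∀ i : Fin n, (i : ℕ) < j → i ≠ J ∧ i ≠ k ∧ i ≠ Fin.rev J ∧ i ≠ Fin.rev k := by
        intro i hi
        have h1 := Fin.lt_def.1 hJk'
        have h2 := Fin.le_def.1 hkrj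
        rw [Anti.rev_val] at h2
        refine ⟨?_, ?_, ?_, ?_⟩ <;> intro e <;> subst e
        · exact lt_irrefl _ hi
        · simp [J] at h1; omega
        · rw [Anti.rev_val] at hi; simp [J] at hi; omega
        · rw [Anti.rev_val] at hi; simp [J] at h2; omega
      by_cases hkr : k = Fin.rev J
      · obtain ⟨a, ha⟩ := exists_not_fixed hF
        set δ := a - a ^ q with hδ
        have hδ0 : δ ≠ 0 := sub_ne_zero.2 (Ne.symm ha)
        have hδt : δ + δ ^ q = 0 := by rw [hδ, sub_pow_q hF, pow_q_q hF]; ring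
        have hδq : δ ^ q = -δ := eq_neg_of_add_eq_zero_right hδt
        set c := (δ ^ q)⁻¹ with hc
        have hc0 : c ≠ 0 := inv_ne_zero (pow_ne_zero _ hδ0)
        have hcq : c ^ q = δ⁻¹ := by rw [hc, inv_pow, pow_q_q hF]
        have hct : c + c ^ q + (0 : F) ^ (q + 1) * μ n F q = 0 := by
          rw [hcq, hc, hδq, inv_neg]; simp
        refine ⟨sl hF (hrev J) 0 c hc0 hct, ?_, fun i hi => ?_, (c ^ q)⁻¹, ?_,
          inv_ne_zero (pow_ne_zero _ hc0)⟩
        · have hmid : (midV : Fin n → F) = 0 := midV_eq_zero hrev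
          have hlowW : ∀ x hx, x = 0 → W hF (Anti.rev_ne_rev (hrev J)) x (c ^ q)⁻¹ hx ∈ core H := by
            intro x hx hx0
            have e : W hF (Anti.rev_ne_rev (hrev J)) x (c ^ q)⁻¹ hx = X hF (hrev k) (hrev J) hJk'.ne' a := by
              refine av_ext fun y => ?_
              rw [av_W hF, av_X hF, hmid, hkr, Fin.rev_rev, hcq, inv_inv, hδ, antiH_zero_right hF]
              module
            rw [e]; exact hlowc a
          exact (core H).mul_mem ((core H).mul_mem (hlowW _ _ (by simp))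
            (hUc (W_mem_uni hF _ (lt_of_lt_of_le hJk' hkrj) _ _ _))) (hlowW _ _ (by simp))
        · obtain ⟨h1, -, h3, -⟩ := hne i hi
          exact sl_other hF (hrev J) hc0 hct h1 h3 (Or.inr rfl)
        · rw [hkr]; exact sl_fst hF (hrev J) hc0 hct
      · refine ⟨sw hF (hrev J) (hrev k) hJk'.ne 1,
          (core H).mul_mem ((core H).mul_mem (hup 1) (hlowc _)) (hup 1), fun i hi => ?_, -(1 : F)⁻¹,
          sw_fst hF (hrev J) (hrev k) hJk'.ne hkr one_ne_zero, by simp⟩
        obtain ⟨h1, h2, h3, h4⟩ := hne i hi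
        rw [av_sw hF (hrev J) (hrev k) hJk'.ne hkr one_ne_zero, bv_ne h1.symm, bv_ne h2.symm, bv_ne h3.symm,
          bv_ne h4.symm]
        simp
    obtain ⟨hsk, hc0⟩ := hsk
    have hspar : s ∈ par (cut j) := mem_par_cut.2 fun x y hy hyx => by
      rw [← av_bv, hsfix y hy, bv_ne hyx.ne']
    have hnext : s⁻¹ * g' ∈ core H := by
      refine ih (j + 1) (by omega) _ (H.mul_mem (H.inv_mem hsc.1) hg'H) (mem_par_cut.2 fun x y hy hyx => ?_)
      rcases Nat.lt_succ_iff_lt_or_eq.1 hy with hy | hy
      · exact mem_par_cut.1 (mul_mem (inv_mem hspar) hflag') x y hy hyx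
      · obtain rfl : y = J := Fin.ext hy
        have : bv k = c⁻¹ • av s (bv J) := by rw [hsk, smul_smul, inv_mul_cancel₀ hc0, one_smul]
        rw [← av_bv, av_mul, hcol, this, av_smul, av_smul, av_inv_av, Pi.smul_apply, Pi.smul_apply,
          bv_ne hyx.ne', smul_zero, smul_zero]
    rw [show g = u * (s * (s⁻¹ * g')) by rw [hg']; group]
    exact (core H).mul_mem (hUc hu) ((core H).mul_mem hsc hnext)

/-- The normalizer of the unitriangular group normalizes its overgroups. -/
theorem normalizer_uni_le {m : ℕ} (hn : n = m + m) (hU : (uni : Subgroup ↥(SUJ n F q)) ≤ H) :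
    Subgroup.normalizer ((uni : Subgroup ↥(SUJ n F q)) : Set ↥(SUJ n F q)) ≤
      Subgroup.normalizer (H : Set ↥(SUJ n F q)) := by
  have key : ∀ g ∈ Subgroup.normalizer ((uni : Subgroup ↥(SUJ n F q)) : Set ↥(SUJ n F q)),
      ∀ h ∈ H, g * h * g⁻¹ ∈ H := by
    intro g hg h hh
    obtain ⟨d, hd, hu⟩ := exists_diag_part hF (g := g) (mem_borel_of_normalizing hF fun u hu => by
      exact (Subgroup.mem_normalizer_iff''.1 hg u).1 hu)
    have h1 : (d⁻¹ * g) * h * (d⁻¹ * g)⁻¹ ∈ H := H.mul_mem (H.mul_mem (hU hu) hh) (H.inv_mem (hU hu))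
    have h2 := (mem_core hF H hn hU h1).2 d hd
    rwa [show d * ((d⁻¹ * g) * h * (d⁻¹ * g)⁻¹) * d⁻¹ = g * h * g⁻¹ by group] at h2
  intro g hg
  rw [Subgroup.mem_normalizer_iff]
  exact fun h => ⟨key g hg h, fun hh => by
    have := key g⁻¹ (inv_mem hg) _ hh
    simpa [mul_assoc] using this⟩

end CfsgLib.SymSylow.UnitFlag

namespace CfsgLib.SymSylow

open CfsgLib.Unitary CfsgLib.Unitary.Anti

/-- In `SU_{2m}(q)` the normalizer of a Sylow subgroup at the characteristic normalizes all overgroups. -/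
theorem unitary_flag_normalizer_le {F : Type*} [Field F] [Fintype F] {n m q p : ℕ} [Fact p.Prime]
    [CharP F p] (hF : Fintype.card F = q ^ 2) (hn : n = m + m) (K : Subgroup ↥(Cfsg.SU n F q))
    (S : Sylow p ↥(Cfsg.SU n F q)) (hS : (S : Subgroup ↥(Cfsg.SU n F q)) ≤ K) :
    Subgroup.normalizer ((S : Subgroup ↥(Cfsg.SU n F q)) : Set ↥(Cfsg.SU n F q)) ≤
      Subgroup.normalizer (K : Set ↥(Cfsg.SU n F q)) := by
  classical
  obtain ⟨e⟩ := exists_equiv_SU (n := n) hF
  let T : Sylow p ↥(SUJ n F q) := S.comapOfInjective e.toMonoidHom e.injective (by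
    intro x _; exact ⟨e.symm x, e.apply_symm_apply x⟩)
  obtain ⟨x, hx⟩ := MulAction.exists_smul_eq ↥(SUJ n F q) (uniSylow p hF) T
  have hU : (uni : Subgroup ↥(SUJ n F q)) ≤ (K.comap e.toMonoidHom).comap (MulAut.conj x).toMonoidHom := by
    intro u hu
    have : MulAut.conj x u ∈ (T : Subgroup ↥(SUJ n F q)) := by rw [← hx]; exact ⟨u, hu, rfl⟩
    exact hS this
  intro g hg
  have hgT : e.symm g ∈ Subgroup.normalizer ((T : Subgroup ↥(SUJ n F q)) : Set ↥(SUJ n F q)) := by
    rw [Subgroup.mem_normalizer_iff] at hg ⊢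
    intro y
    have := hg (e y)
    show e y ∈ (S : Subgroup ↥(Cfsg.SU n F q)) ↔
      e (e.symm g * y * (e.symm g)⁻¹) ∈ (S : Subgroup ↥(Cfsg.SU n F q))
    simpa using this
  have hg' : x⁻¹ * e.symm g * x ∈ Subgroup.normalizer
      ((uni : Subgroup ↥(SUJ n F q)) : Set ↥(SUJ n F q)) := by
    refine (Sylow.smul_eq_iff_mem_normalizer (P := uniSylow p hF)).1 ?_
    rw [mul_smul, mul_smul, hx, Sylow.smul_eq_iff_mem_normalizer.2 hgT, ← hx, inv_smul_smul]
  have h2 := Subgroup.mem_normalizer_iff.1 (UnitFlag.normalizer_uni_le hF _ hn hU hg')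
  rw [Subgroup.mem_normalizer_iff]
  intro h
  have := h2 (x⁻¹ * e.symm h * x)
  simpa [mul_assoc] using this

end CfsgLib.SymSylow
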