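import Mathlib
import Cfsg.Agent.SymSylow.WreathBase
import Cfsg.Agent.SymSylow.WreathSylow
import Cfsg.Agent.Classical.Unitary.Order
import Cfsg.Agent.SylowGLTwo.Card

/-!
Sylow 2-subgroups of `SU_{2^w}(q)`, `q` odd, `w ≥ 2`, are self-normalizing.
-/

set_option autoImplicit false
set_option linter.unusedSectionVars false

namespace CfsgLib.SymSylow.WreathNorm

open Matrix Cfsg CfsgLib.Unitary CfsgLib.SymSylow.GLTwo

variable {F : Type*} [Field F] [Fintype F] {q : ℕ} (hF : Fintype.card F = q ^ 2)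

theorem reindex_mem_GU {n : ℕ} (M : GL (Fin n ⊕ Fin n) F)
    (h : ∀ u v : Fin n ⊕ Fin n → F, ∑ i, ((M : Matrix (Fin n ⊕ Fin n) (Fin n ⊕ Fin n) F) *ᵥ u) i *
      ((M : Matrix (Fin n ⊕ Fin n) (Fin n ⊕ Fin n) F) *ᵥ v) i ^ q =
      ∑ i, u i * v i ^ q) :
    reindexGL (F := F) finSumFinEquiv M ∈ GU (n + n) F q := by
  rw [mem_GU]
  intro u v
  have e : ∀ z : Fin (n + n) → F,
      ((reindexGL (F := F) finSumFinEquiv M : GL (Fin (n + n)) F) : Matrix (Fin (n + n)) (Fin (n + n)) F) *ᵥ z =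
        ((M : Matrix (Fin n ⊕ Fin n) (Fin n ⊕ Fin n) F) *ᵥ (z ∘ finSumFinEquiv)) ∘ finSumFinEquiv.symm := fun z => by
    show ((M : Matrix (Fin n ⊕ Fin n) (Fin n ⊕ Fin n) F).submatrix finSumFinEquiv.symm finSumFinEquiv.symm) *ᵥ z = _
    rw [Matrix.submatrix_mulVec_equiv, Equiv.symm_symm]
  rw [hermForm, hermForm, e, e]
  have h' := h (u ∘ finSumFinEquiv) (v ∘ finSumFinEquiv)
  rw [← Equiv.sum_comp finSumFinEquiv.symm, ← Equiv.sum_comp finSumFinEquiv.symm] at h'
  simpa using h'

theorem J_mem_GU {n : ℕ} (x : GL (Fin n) F) (hx : x ∈ GU n F q) (y : GL (Fin n) F) (hy : y ∈ GU n F q) :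
    reindexGL (F := F) finSumFinEquiv (J x y) ∈ GU (n + n) F q := by
  refine reindex_mem_GU _ fun u v => ?_
  rw [J_val, fromBlocks_mulVec, fromBlocks_mulVec, Fintype.sum_sum_type, Fintype.sum_sum_type]
  simp only [Sum.elim_inl, Sum.elim_inr, Matrix.zero_mulVec, add_zero, zero_add]
  have h1 := mem_GU.1 hx (u ∘ Sum.inl) (v ∘ Sum.inl)
  have h2 := mem_GU.1 hy (u ∘ Sum.inr) (v ∘ Sum.inr)
  rw [hermForm, hermForm] at h1 h2
  rw [h1, h2]
  rfl

include hF in
theorem sw_mem_GU (n : ℕ) : reindexGL (F := F) finSumFinEquiv (sw : GL (Fin n ⊕ Fin n) F) ∈ GU (n + n) F q := by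
  refine reindex_mem_GU _ fun u v => ?_
  rw [sw_val, fromBlocks_mulVec, fromBlocks_mulVec, Fintype.sum_sum_type, Fintype.sum_sum_type]
  simp only [Sum.elim_inl, Sum.elim_inr, Matrix.zero_mulVec, add_zero, zero_add, Matrix.one_mulVec,
    Matrix.neg_mulVec, Pi.neg_apply, Function.comp_apply, neg_pow_q hF, neg_mul, mul_neg, neg_neg]
  rw [add_comm]

include hF in
theorem odd_q (hq : Odd (Fintype.card F)) : Odd q := by
  rw [hF] at hq
  exact (Nat.odd_mul.1 (pow_two q ▸ hq)).1

theorem factorization_sq_sub {q : ℕ} (h1 : 1 < q) : (q ^ 2 - 1).factorization 2 =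
    (q - 1).factorization 2 + (q + 1).factorization 2 := by
  rw [show q ^ 2 - 1 = (q + 1) * (q - 1) by rw [← one_pow 2, Nat.sq_sub_sq, one_pow],
    Nat.factorization_mul (by omega) (by omega), Finsupp.add_apply, add_comm]

theorem factorization_pow_add_one {q : ℕ} (hq : Odd q) (h1 : 1 < q) (j : ℕ) :
    (q ^ (2 * j + 1) + 1).factorization 2 = (q + 1).factorization 2 := by
  have e := factorization_sq_sub (Nat.one_lt_pow (n := 2 * j + 1) (by omega) h1)
  have ho : ((q ^ (2 * j + 1)) - 1).factorization 2 = (q - 1).factorization 2 := by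
    rw [Nat.factorization_def _ Nat.prime_two, Nat.factorization_def _ Nat.prime_two]
    exact CfsgLib.SylowGLTwo.padic_two_pow_sub_one_odd hq h1 (odd_two_mul_add_one j)
  have h4 : q ^ 2 % 4 = 1 := by
    obtain ⟨k, rfl⟩ := hq
    rw [show (2 * k + 1) ^ 2 = 4 * (k * k + k) + 1 by ring]
    omega
  rw [← pow_mul, mul_comm, pow_mul, GLTwo.factorization_pow_sub_one (Nat.one_lt_pow two_ne_zero h1) h4 (by omega),
    Nat.factorization_eq_zero_of_not_dvd (n := 2 * j + 1) (by omega), add_zero, factorization_sq_sub h1, ho] at e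
  omega

include hF in
theorem factorization_card_GU (hq : Odd (Fintype.card F)) (w : ℕ) :
    (Nat.card ↥(GU (2 ^ (w + 1)) F q)).factorization 2 =
      2 ^ w * ((q + 1).factorization 2 + (q ^ 2 - 1).factorization 2) + (2 ^ w - 1) := by
  have ho := odd_q hF hq
  have h1 : 1 < q := two_le_q hF
  have hn2 : ¬ 2 ∣ q := fun h => Nat.not_even_iff_odd.2 ho (even_iff_two_dvd.2 h)
  let g : ℕ → ℕ := fun k => if Odd k then (q ^ k + 1).factorization 2 else (q ^ k - 1).factorization 2
  have hne : ∀ i : ℕ, (if Even i then q ^ (i + 1) + 1 else q ^ (i + 1) - 1) ≠ 0 := fun i => by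
    split_ifs
    · omega
    · have := Nat.one_lt_pow (n := i + 1) (by omega) h1; omega
  rw [card_GU hF, Nat.factorization_mul (pow_ne_zero _ (by omega)) (Finset.prod_ne_zero_iff.2 fun i _ => hne i),
    Finsupp.add_apply, Nat.factorization_pow, Finsupp.smul_apply, Nat.factorization_eq_zero_of_not_dvd hn2,
    smul_zero, zero_add, Nat.factorization_prod (fun i _ => hne i), Finsupp.finset_sum_apply,
    Finset.sum_congr rfl (fun i _ => show (if Even i then q ^ (i + 1) + 1 else q ^ (i + 1) - 1).factorization 2 =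
      g (i + 1) by
        by_cases he : Even i
        · simp [g, he, he.add_one]
        · simp [g, he, Nat.not_odd_iff_even.2 (Nat.not_even_iff_odd.1 he).add_one]),
    sum_two_pow g ((q + 1).factorization 2) ((q ^ 2 - 1).factorization 2)]
  · intro j
    simp only [g, if_pos (odd_two_mul_add_one j)]
    exact factorization_pow_add_one ho h1 j
  · intro j
    simp only [g, if_neg (show ¬ Odd (2 * j + 2) by simp [Nat.odd_iff])]
    rw [show 2 * j + 2 = 2 * (j + 1) by ring, pow_mul]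
    refine GLTwo.factorization_pow_sub_one (Nat.one_lt_pow two_ne_zero h1) ?_ (by omega)
    obtain ⟨k, rfl⟩ := ho
    rw [show (2 * k + 1) ^ 2 = 4 * (k * k + k) + 1 by ring]
    omega

include hF in
theorem exists_order_pow {a : ℕ} (h : 2 ^ a ∣ (q - 1) * (q + 1)) : ∃ ζ : Fˣ, orderOf ζ = 2 ^ a := by
  obtain ⟨g, hg⟩ := IsCyclic.exists_ofOrder_eq_natCard (α := Fˣ)
  refine ⟨g ^ (orderOf g / 2 ^ a), orderOf_pow_orderOf_div (orderOf_pos g).ne' ?_⟩
  rw [hg, card_units_eq hF]
  exact h

include hF in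
theorem unitary_base (hq : Odd (Fintype.card F)) :
    ∃ W : Subgroup (GL (Fin 2) F), W ≤ GU 2 F q ∧
      Nat.card W = 2 ^ ((q + 1).factorization 2 + (q ^ 2 - 1).factorization 2) ∧ Good W := by
  have h1 : 1 < q := two_le_q hF
  have ho := Nat.odd_iff.1 (odd_q hF hq)
  have hsq := factorization_sq_sub h1
  have h2 : (2 : F) ≠ 0 := Ring.two_ne_zero fun h =>
    Nat.not_even_iff_odd.2 hq (Nat.even_iff.2 (FiniteField.even_card_iff_char_two.1 h))
  rcases (show q % 4 = 3 ∨ q % 4 = 1 by omega) with h4 | h4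
  · have hq1 : (q - 1).factorization 2 = 1 := GLTwo.factorization_two_of_mod_four (by omega)
    set a := (q + 1).factorization 2 with ha
    have ha2 : 2 ≤ a := (Nat.prime_two.pow_dvd_iff_le_factorization (by omega)).1 (Nat.dvd_of_mod_eq_zero (by omega))
    obtain ⟨ζ, hζ⟩ := exists_order_pow hF (a := a) (Dvd.dvd.mul_left (Nat.ordProj_dvd _ _) _)
    refine ⟨monoW (2 ^ a), fun g hg => ?_, ?_, good_mono hζ (pow_dvd_pow 2 ha2)⟩
    · obtain ⟨d, hd⟩ : 2 ^ a ∣ q + 1 := Nat.ordProj_dvd _ _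
      have hc : ∀ c : Fˣ, c ^ (2 ^ a) = 1 → (c : F) * (c : F) ^ q = 1 := fun c hc => by
        rw [← pow_succ', hd, ← Units.val_pow_eq_pow_val, pow_mul, hc, one_pow, Units.val_one]
      obtain ⟨s, t, hs, ht, rfl | rfl⟩ := mono_cases hg <;> rw [mem_GU] <;> intro u v <;>
        simp [hermForm, Matrix.mulVec, dotProduct, Fin.sum_univ_two, mul_pow]
      · linear_combination (u 0 * v 0 ^ q) * hc s hs + (u 1 * v 1 ^ q) * hc t ht
      · linear_combination (u 1 * v 1 ^ q) * hc s hs + (u 0 * v 0 ^ q) * hc t ht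
    · rw [card_monoW hζ, hsq, hq1, ← pow_mul, ← pow_succ']
      congr 1
      omega
  · have hq1' : (q + 1).factorization 2 = 1 := GLTwo.factorization_two_of_mod_four (by omega)
    set b := (q ^ 2 - 1).factorization 2 with hb
    have hs2 : 2 ≤ (q - 1).factorization 2 :=
      (Nat.prime_two.pow_dvd_iff_le_factorization (by omega)).1 (Nat.dvd_of_mod_eq_zero (by omega))
    obtain ⟨l, hl⟩ := exists_order_pow hF (a := b) (by
      rw [mul_comm, show (q + 1) * (q - 1) = q ^ 2 - 1 by rw [← one_pow 2, Nat.sq_sub_sq, one_pow]]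
      exact Nat.ordProj_dvd _ _)
    have hlq : (l : F) ^ q = -(l : F) := by
      have hne : (l : F) ^ (q - 1) ≠ 1 := fun e => by
        have hd := orderOf_dvd_of_pow_eq_one (Units.ext (by rw [Units.val_pow_eq_pow_val, e]; rfl) : l ^ (q - 1) = 1)
        rw [hl] at hd
        have := (Nat.prime_two.pow_dvd_iff_le_factorization (by omega)).1 hd
        omega
      have hsq1 : (l : F) ^ (q - 1) * (l : F) ^ (q - 1) = 1 := by
        have hd : 2 ^ b ∣ (q - 1) * 2 := by
          rw [show b = (q - 1).factorization 2 + 1 by omega, pow_succ]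
          exact Nat.mul_dvd_mul_right (Nat.ordProj_dvd _ _) 2
        rw [← pow_add, ← mul_two, ← Units.val_pow_eq_pow_val, orderOf_dvd_iff_pow_eq_one.1 (hl ▸ hd), Units.val_one]
      have hm1 := (mul_self_eq_one_iff.1 hsq1).resolve_left hne
      calc (l : F) ^ q = (l : F) ^ (q - 1) * l := by rw [← pow_succ, Nat.sub_add_cancel h1.le]
        _ = -(l : F) := by rw [hm1]; ring
    obtain ⟨α, hα⟩ := exists_norm_eq hF (a := (-1 : F)) (by rw [neg_pow_q hF, one_pow])
    have hα0 : α ≠ 0 := fun e => by rw [e, zero_pow (by omega)] at hα; simp at hα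
    let P : GL (Fin 2) F := GeneralLinearGroup.mkOfDetNeZero !![1, 1; α, -α] (by
      rw [Matrix.det_fin_two_of]
      intro e
      exact mul_ne_zero h2 hα0 (by linear_combination -e))
    let D : GL (Fin 2) F := diagD l (-l⁻¹)
    let x : GL (Fin 2) F := P * D * P⁻¹
    let y : GL (Fin 2) F := diagD 1 (-1)
    have hPval : (P : Matrix (Fin 2) (Fin 2) F) = !![1, 1; α, -α] := rfl
    have hDpow : ∀ k : ℕ, D ^ k = diagD (l ^ k) ((-l⁻¹) ^ k) := fun k => by
      induction k with
      | zero => exact Units.ext (by ext i j; fin_cases i <;> fin_cases j <;> simp)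
      | succ k ih =>
        rw [pow_succ, ih]
        refine Units.ext ?_
        ext i j; fin_cases i <;> fin_cases j <;> simp [D, Matrix.mul_apply, Fin.sum_univ_two, pow_succ]
    have hb3 : 3 ≤ b := by omega
    have hhalfl : l ^ (2 ^ (b - 1)) = -1 := by
      have hsq' : l ^ (2 ^ (b - 1)) * l ^ (2 ^ (b - 1)) = 1 := by
        rw [← pow_add, ← mul_two, ← pow_succ, Nat.sub_add_cancel (by omega), ← hl, pow_orderOf_eq_one]
      have hne : l ^ (2 ^ (b - 1)) ≠ 1 := fun e => by
        have := Nat.le_of_dvd (by positivity) (hl ▸ orderOf_dvd_of_pow_eq_one e)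
        have := Nat.pow_lt_pow_right (show 1 < 2 by norm_num) (show b - 1 < b by omega)
        omega
      refine Units.ext ?_
      have := congrArg Units.val hsq'
      rw [Units.val_mul, Units.val_one, mul_self_eq_one_iff] at this
      rcases this with e | e
      · exact absurd (Units.ext e) hne
      · rw [e]; simp
    have hev : Even (2 ^ (b - 1)) := (Nat.even_pow).2 ⟨even_two, by omega⟩
    have hDhalf : D ^ (2 ^ (b - 1)) = -1 := by
      rw [hDpow, hev.neg_pow, inv_pow, hhalfl, show ((-1 : Fˣ))⁻¹ = -1 from inv_eq_of_mul_eq_one_right (by simp)]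
      refine Units.ext ?_
      ext i j; fin_cases i <;> fin_cases j <;> simp
    have hn1 : (-1 : GL (Fin 2) F) ≠ 1 := neg_one_ne_one h2
    have hordD : orderOf D = 2 ^ b := by
      rw [show b = b - 1 + 1 by omega]
      refine orderOf_eq_prime_pow (p := 2) (n := b - 1) (by rw [hDhalf]; exact hn1) ?_
      rw [pow_succ, pow_mul, hDhalf, neg_one_sq]
    have hyP : y * P = P * antiD 1 1 := by
      refine Units.ext ?_
      ext i j; fin_cases i <;> fin_cases j <;>
        simp [y, hPval, Matrix.mul_apply, Fin.sum_univ_two]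
    have hyy : y * y = 1 := by
      refine Units.ext ?_
      ext i j; fin_cases i <;> fin_cases j <;> simp [y, Matrix.mul_apply, Fin.sum_univ_two]
    have hconj : antiD 1 1 * D * antiD 1 1 = -D⁻¹ := by
      have hDinv : D⁻¹ = diagD l⁻¹ (-l) := by
        refine inv_eq_of_mul_eq_one_right (Units.ext ?_)
        ext i j; fin_cases i <;> fin_cases j <;> simp [D, Matrix.mul_apply, Fin.sum_univ_two]
      rw [hDinv]
      refine Units.ext ?_
      ext i j; fin_cases i <;> fin_cases j <;> simp [D, Matrix.mul_apply, Fin.sum_univ_two]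
    have hsd : SDPair (K := F) x y (2 ^ b) := by
      refine ⟨h2, pow_dvd_pow 2 hb3, ?_, hyy, ?_, ?_, ?_, ?_⟩
      · rw [← hordD]
        exact orderOf_injective (MulAut.conj P).toMonoidHom (MulAut.conj P).injective D
      · have e1 : y * P = P * antiD 1 1 := hyP
        have e2 : P⁻¹ * y = antiD 1 1 * P⁻¹ := by
          rw [eq_mul_inv_iff_mul_eq, mul_assoc, hyP, inv_mul_cancel_left]
        show y * (P * D * P⁻¹) * y = -(P * D * P⁻¹)⁻¹
        rw [← mul_assoc, ← mul_assoc, e1, mul_assoc (P * antiD 1 1 * D), e2,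
          show P * antiD 1 1 * D * (antiD 1 1 * P⁻¹) = P * (antiD 1 1 * D * antiD 1 1) * P⁻¹ by
            simp only [mul_assoc], hconj, mul_neg, neg_mul]
        congr 1
        simp [mul_assoc]
      · show ((P * D * P⁻¹ : GL (Fin 2) F) : Matrix (Fin 2) (Fin 2) F).det = -1
        rw [Units.val_mul, Units.val_mul, Matrix.det_units_conj]
        simp [D, Matrix.det_fin_two_of]
      · simp [y, Matrix.det_fin_two_of]
      · show (P * D * P⁻¹) ^ (2 ^ b / 2) = -1
        rw [conj_pow, show 2 ^ b / 2 = 2 ^ (b - 1) by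
          rw [show b = b - 1 + 1 by omega, pow_succ, Nat.mul_div_cancel _ two_pos]; simp, hDhalf]
        simp
    refine ⟨hsd.grp, ?_, ?_, hsd.good⟩
    · have hy : y ∈ GU 2 F q := by
        rw [mem_GU]; intro u v
        simp [y, hermForm, Matrix.mulVec, dotProduct, Fin.sum_univ_two, neg_pow_q hF]
      have hx : x ∈ GU 2 F q := by
        rw [mem_GU]
        intro u v
        have hform : ∀ z z' : Fin 2 → F, hermForm 2 F q ((P : Matrix (Fin 2) (Fin 2) F) *ᵥ z)
            ((P : Matrix (Fin 2) (Fin 2) F) *ᵥ z') = 2 * (z 0 * z' 1 ^ q + z 1 * z' 0 ^ q) := fun z z' => by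
          simp [hermForm, hPval, Matrix.mulVec, dotProduct, Fin.sum_univ_two, add_pow_q hF, neg_pow_q hF, mul_pow]
          rw [pow_succ] at hα
          linear_combination (z 0 - z 1) * (z' 0 ^ q - z' 1 ^ q) * hα
        have hu : ∀ z : Fin 2 → F, (x : Matrix (Fin 2) (Fin 2) F) *ᵥ z = (P : Matrix (Fin 2) (Fin 2) F) *ᵥ
            ((D : Matrix (Fin 2) (Fin 2) F) *ᵥ ((P⁻¹ : GL (Fin 2) F) : Matrix (Fin 2) (Fin 2) F) *ᵥ z) := fun z => by
          rw [Matrix.mulVec_mulVec, Matrix.mulVec_mulVec]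
          simp [x, mul_assoc]
        have hid : ∀ z : Fin 2 → F, z = (P : Matrix (Fin 2) (Fin 2) F) *ᵥ
            (((P⁻¹ : GL (Fin 2) F) : Matrix (Fin 2) (Fin 2) F) *ᵥ z) := fun z => by
          rw [Matrix.mulVec_mulVec, Units.mul_inv, Matrix.one_mulVec]
        rw [hu, hu, hform]
        conv_rhs => rw [hid u, hid v, hform]
        generalize ((P⁻¹ : GL (Fin 2) F) : Matrix (Fin 2) (Fin 2) F) *ᵥ u = z
        generalize ((P⁻¹ : GL (Fin 2) F) : Matrix (Fin 2) (Fin 2) F) *ᵥ v = z'
        have hl0 := l.ne_zero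
        simp [D, Matrix.mulVec, dotProduct, Fin.sum_univ_two, mul_pow, neg_pow_q hF, inv_pow, hlq]
        field_simp
        simp
      rintro g ⟨i, rfl | rfl⟩
      · exact pow_mem hx i
      · exact mul_mem (pow_mem hx i) hy
    · rw [hsd.card_grp, hq1', ← pow_succ']
      congr 1
      omega

include hF in
/-- Self-normalizing Sylow 2-subgroups of `SU_{2^w}(q)`, `w ≥ 2`. -/
theorem unitary_normalizer_le (hq : Odd (Fintype.card F)) {w n : ℕ} (hn : n = 2 ^ (w + 1)) (hw : 1 ≤ w)
    (S : Sylow 2 ↥(SU n F q)) :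
    Subgroup.normalizer ((S : Subgroup ↥(SU n F q)) : Set ↥(SU n F q)) ≤ S := by
  have h2 : (2 : F) ≠ 0 := Ring.two_ne_zero fun h =>
    Nat.not_even_iff_odd.2 hq (Nat.even_iff.2 (FiniteField.even_card_iff_char_two.1 h))
  obtain ⟨W₁, hle, hc, hg⟩ := unitary_base hF hq
  obtain ⟨W, hWle, hWc, -, hWN⟩ := exists_good (G := fun n => GU n F q) h2
    (fun _ x hx y hy => J_mem_GU x hx y hy) (sw_mem_GU hF) W₁ hle hc hg w n hn
  subst hn
  exact normalizer_le rfl (GU (2 ^ (w + 1)) F q) W hWle (by rw [hWc, factorization_card_GU hF hq]) (hWN hw)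
    (SU (2 ^ (w + 1)) F q) (fun _ => mem_SU_iff_toGL_mem) S

end CfsgLib.SymSylow.WreathNorm
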