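import Mathlib

/-!
The orders of nilpotent permutation groups are bounded by those of Sylow 2-subgroups.
-/

set_option autoImplicit false

namespace CfsgLib.SymSylow.Nilp

open Equiv

/-- The order of a Sylow 2-subgroup of `Sym n`. -/
def sVal (n : ℕ) : ℕ := 2 ^ padicValNat 2 n.factorial

/-- The largest order of a nilpotent subgroup of `Sym n`. -/
def gVal (n : ℕ) : ℕ := if n % 4 = 3 then 3 * sVal (n - 3) else sVal n

/-- Twice a bound for nilpotent subgroups of `Alt n`. -/
def hVal (n : ℕ) : ℕ :=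
  if n = 1 then 2 else if n = 3 then 6 else if n = 5 then 10 else if n = 6 then 18
  else if n = 9 then 162 else gVal n

theorem sVal_pos (n : ℕ) : 0 < sVal n := Nat.two_pow_pos _

theorem sVal_mul_le (a b : ℕ) : sVal a * sVal b ≤ sVal (a + b) := by
  rw [sVal, sVal, sVal, ← pow_add]
  refine Nat.pow_le_pow_right two_pos ?_
  rw [← padicValNat.mul (Nat.factorial_ne_zero a) (Nat.factorial_ne_zero b),
    ← padicValNat_dvd_iff_le (Nat.factorial_ne_zero _)]
  exact pow_padicValNat_dvd.trans (Nat.factorial_mul_factorial_dvd_factorial_add a b)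

theorem sVal_mono {a b : ℕ} (h : a ≤ b) : sVal a ≤ sVal b := by
  obtain ⟨c, rfl⟩ := Nat.exists_eq_add_of_le h
  exact le_trans (Nat.le_mul_of_pos_right _ (sVal_pos c)) (sVal_mul_le a c)

theorem sVal_four_mul_add (k : ℕ) :
    sVal (4 * k + 1) = sVal (4 * k) ∧ sVal (4 * k + 2) = 2 * sVal (4 * k) ∧
      sVal (4 * k + 3) = 2 * sVal (4 * k) := by
  have h0 : padicValNat 2 (4 * k).factorial = padicValNat 2 (2 * k).factorial + 2 * k := by
    rw [show 4 * k = 2 * (2 * k) by ring, padicValNat_factorial_mul]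
  have h1 : padicValNat 2 (4 * k + 1).factorial = padicValNat 2 (4 * k).factorial := by
    rw [show 4 * k = 2 * (2 * k) by ring]
    exact padicValNat_factorial_mul_add _ one_lt_two
  have h2 : padicValNat 2 (4 * k + 2).factorial = padicValNat 2 (4 * k).factorial + 1 := by
    rw [h0, show 4 * k + 2 = 2 * (2 * k + 1) by ring, padicValNat_factorial_mul,
      padicValNat_factorial_mul_add k one_lt_two]
    ring
  have h3 : padicValNat 2 (4 * k + 3).factorial = padicValNat 2 (4 * k + 2).factorial := by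
    rw [show 4 * k + 3 = 2 * (2 * k + 1) + 1 by ring, show 4 * k + 2 = 2 * (2 * k + 1) by ring]
    exact padicValNat_factorial_mul_add _ one_lt_two
  simp only [sVal]
  rw [h1, h3, h2, pow_succ']
  exact ⟨rfl, rfl, rfl⟩

/-- The four coefficients of `gVal`. -/
def coef : ℕ → ℕ
  | 0 => 1
  | 1 => 1
  | 2 => 2
  | _ => 3

theorem gVal_eq (k r : ℕ) (hr : r < 4) : gVal (4 * k + r) = coef r * sVal (4 * k) := by
  obtain ⟨h1, h2, h3⟩ := sVal_four_mul_add k
  unfold gVal
  interval_cases r
  · rw [if_neg (by omega), add_zero]; simp [coef]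
  · rw [if_neg (by omega), h1]; simp [coef]
  · rw [if_neg (by omega), h2]; simp [coef]
  · rw [if_pos (by omega), Nat.add_sub_cancel]; simp [coef]

theorem gVal_mul_le (a b : ℕ) : gVal a * gVal b ≤ gVal (a + b) := by
  obtain ⟨i, r, hr, rfl⟩ : ∃ i r, r < 4 ∧ a = 4 * i + r :=
    ⟨a / 4, a % 4, Nat.mod_lt _ (by norm_num), (Nat.div_add_mod a 4).symm⟩
  obtain ⟨j, t, ht, rfl⟩ : ∃ j t, t < 4 ∧ b = 4 * j + t :=
    ⟨b / 4, b % 4, Nat.mod_lt _ (by norm_num), (Nat.div_add_mod b 4).symm⟩
  rw [gVal_eq i r hr, gVal_eq j t ht]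
  have hij : sVal (4 * i) * sVal (4 * j) ≤ sVal (4 * (i + j)) := by
    rw [mul_add]; exact sVal_mul_le _ _
  have h8 : 8 * sVal (4 * (i + j)) ≤ sVal (4 * (i + j + 1)) := by
    have h := sVal_mul_le 4 (4 * (i + j))
    rwa [show sVal 4 = 8 by decide +kernel, show 4 + 4 * (i + j) = 4 * (i + j + 1) by ring] at h
  rcases lt_or_ge (r + t) 4 with hrt | hrt
  · rw [show 4 * i + r + (4 * j + t) = 4 * (i + j) + (r + t) by ring, gVal_eq _ _ hrt]
    have hc : coef r * coef t ≤ coef (r + t) := by
      interval_cases r <;> interval_cases t <;> first | omega | decide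
    calc coef r * sVal (4 * i) * (coef t * sVal (4 * j))
        = (coef r * coef t) * (sVal (4 * i) * sVal (4 * j)) := by ring
      _ ≤ coef (r + t) * sVal (4 * (i + j)) := Nat.mul_le_mul hc hij
  · rw [show 4 * i + r + (4 * j + t) = 4 * (i + j + 1) + (r + t - 4) by omega,
      gVal_eq _ _ (by omega)]
    have hc : coef r * coef t ≤ 8 * coef (r + t - 4) := by
      interval_cases r <;> interval_cases t <;> first | omega | decide
    calc coef r * sVal (4 * i) * (coef t * sVal (4 * j))
        = (coef r * coef t) * (sVal (4 * i) * sVal (4 * j)) := by ring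
      _ ≤ (8 * coef (r + t - 4)) * sVal (4 * (i + j)) := Nat.mul_le_mul hc hij
      _ = coef (r + t - 4) * (8 * sVal (4 * (i + j))) := by ring
      _ ≤ _ := Nat.mul_le_mul_left _ h8

theorem sVal_le_gVal (n : ℕ) : sVal n ≤ gVal n := by
  obtain ⟨k, r, hr, rfl⟩ : ∃ i r, r < 4 ∧ n = 4 * i + r :=
    ⟨n / 4, n % 4, Nat.mod_lt _ (by norm_num), (Nat.div_add_mod n 4).symm⟩
  obtain ⟨h1, h2, h3⟩ := sVal_four_mul_add k
  rw [gVal_eq k r hr]
  interval_cases r <;> simp [coef, h1, h2, h3]
  omega

theorem gVal_pos (n : ℕ) : 0 < gVal n := lt_of_lt_of_le (sVal_pos n) (sVal_le_gVal n)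

theorem gVal_mono {a b : ℕ} (h : a ≤ b) : gVal a ≤ gVal b := by
  obtain ⟨c, rfl⟩ := Nat.exists_eq_add_of_le h
  exact le_trans (Nat.le_mul_of_pos_right _ (gVal_pos c)) (gVal_mul_le a c)

theorem two_mul_gVal_le {a b : ℕ} (h : a + 2 ≤ b) : 2 * gVal a ≤ gVal b := by
  refine le_trans (le_trans ?_ (gVal_mul_le a 2)) (gVal_mono h)
  rw [show gVal 2 = 2 by decide +kernel, mul_comm]

theorem self_le_gVal (n : ℕ) : n ≤ gVal n ∧ (7 ≤ n → 2 * n ≤ gVal n) := by
  induction n using Nat.strong_induction_on with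
  | _ n ih =>
    rcases lt_or_ge n 9 with h | h
    · interval_cases n <;> decide +kernel
    · obtain ⟨-, h2⟩ := ih (n - 2) (by omega)
      have h3 := two_mul_gVal_le (a := n - 2) (b := n) (by omega)
      have h4 := h2 (by omega)
      exact ⟨by omega, fun _ => by omega⟩

theorem three_pow_le_gVal : ∀ j, 12 ≤ j → 2 * 3 ^ j ≤ gVal (2 * j + 1) := by
  intro j hj
  induction j using Nat.strong_induction_on with
  | _ j ih =>
    rcases lt_or_ge j 16 with h | h
    · interval_cases j <;> decide +kernel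
    · have h1 := ih (j - 4) (by omega) (by omega)
      have h2 := gVal_mul_le 8 (2 * (j - 4) + 1)
      rw [show gVal 8 = 128 by decide +kernel, show 8 + (2 * (j - 4) + 1) = 2 * j + 1 by omega] at h2
      have h3 : 3 ^ j = 81 * 3 ^ (j - 4) := by
        rw [show (81 : ℕ) = 3 ^ 4 by norm_num, ← pow_add]
        congr 1
        omega
      omega

theorem gVal_le_hVal (n : ℕ) : gVal n ≤ hVal n := by
  unfold hVal
  split_ifs <;> first | (subst_vars; decide +kernel) | exact le_rfl

theorem hVal_mul_le {a b : ℕ} : hVal a * hVal b ≤ 2 * hVal (a + b) := by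
  have key : ∀ x, hVal x = gVal x ∨ x = 1 ∨ x = 3 ∨ x = 5 ∨ x = 6 ∨ x = 9 := by
    intro x
    unfold hVal
    split_ifs <;> simp [*]
  have one : ∀ e b, (e = 1 ∨ e = 3 ∨ e = 5 ∨ e = 6 ∨ e = 9) →
      hVal e * gVal b ≤ 2 * gVal (e + b) := by
    rintro e b (rfl | rfl | rfl | rfl | rfl)
    all_goals
      refine le_trans ?_ (Nat.mul_le_mul_left 2 (gVal_mul_le _ b))
      rw [← mul_assoc]
      refine Nat.mul_le_mul_right _ ?_
      decide +kernel
  rcases key a with ha | ha <;> rcases key b with hb | hb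
  · rw [ha, hb]
    have := gVal_mul_le a b
    have := gVal_le_hVal (a + b)
    omega
  · rw [ha, mul_comm, add_comm]
    exact le_trans (one b a hb) (Nat.mul_le_mul_left 2 (gVal_le_hVal _))
  · rw [hb]
    exact le_trans (one a b ha) (Nat.mul_le_mul_left 2 (gVal_le_hVal _))
  · rcases ha with rfl | rfl | rfl | rfl | rfl <;> rcases hb with rfl | rfl | rfl | rfl | rfl <;>
      decide +kernel

/-- `q`-groups, `q` odd, of degree a power of `q`. -/
theorem prime_pow_bound {q k n : ℕ} [Fact q.Prime] (hq : q ≠ 2) (hk : 1 ≤ k) (hn : n = q ^ k) :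
    q ^ padicValNat q n.factorial ≤ gVal n ∧ 2 * q ^ padicValNat q n.factorial ≤ hVal n := by
  have hp : q.Prime := Fact.out
  have hq3 : 3 ≤ q := lt_of_le_of_ne hp.two_le (Ne.symm hq)
  rcases Nat.eq_or_lt_of_le hk with rfl | hk2
  · rw [pow_one] at hn
    subst hn
    have hv : padicValNat n n.factorial = 1 := by
      nth_rewrite 2 [← mul_one n]
      rw [padicValNat_factorial_mul]
      simp
    rw [hv, pow_one]
    refine ⟨(self_le_gVal n).1, ?_⟩
    rcases lt_or_ge n 7 with h | h
    · interval_cases n <;> decide +kernel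
    · exact le_trans ((self_le_gVal n).2 h) (gVal_le_hVal n)
  · have hn9 : n = 9 ∨ 25 ≤ n := by
      subst hn
      rcases lt_or_ge q 5 with h5 | h5
      · obtain rfl : q = 3 := by
          interval_cases q
          · rfl
          · exact absurd hp (by norm_num)
        rcases Nat.eq_or_lt_of_le hk2 with h | h
        · left; subst h; norm_num
        · right
          exact le_trans (by norm_num) (Nat.pow_le_pow_right (by norm_num : 1 ≤ 3) (show 3 ≤ k from h))
      · right
        calc 25 = 5 ^ 2 := by norm_num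
          _ ≤ q ^ 2 := Nat.pow_le_pow_left h5 2
          _ ≤ q ^ k := Nat.pow_le_pow_right hp.pos hk2
    have hodd : Odd n := hn ▸ (hp.odd_of_ne_two hq).pow
    obtain ⟨j, rfl⟩ := hodd
    have hv := sub_one_mul_padicValNat_factorial_lt_of_ne_zero q (n := 2 * j + 1) (by omega)
    have hq2 : q ^ 2 ≤ 3 ^ (q - 1) := by
      have hind : ∀ i, 2 ≤ i → (i + 1) ^ 2 ≤ 3 ^ i := by
        intro i hi
        induction i, hi using Nat.le_induction with
        | base => norm_num
        | succ i hi ih =>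
          rw [pow_succ 3 i]
          nlinarith
      have := hind (q - 1) (by omega)
      rwa [Nat.sub_add_cancel hp.one_le] at this
    have h3 : q ^ padicValNat q (2 * j + 1).factorial ≤ 3 ^ j := by
      refine (Nat.pow_le_pow_iff_left two_ne_zero).1 ?_
      rw [← pow_mul, mul_comm _ 2, pow_mul]
      refine le_trans (Nat.pow_le_pow_left hq2 _) ?_
      rw [← pow_mul, ← pow_mul]
      exact Nat.pow_le_pow_right (by norm_num) (by omega)
    rcases hn9 with h | h
    · obtain rfl : j = 4 := by omega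
      constructor
      · exact le_trans h3 (by decide +kernel)
      · exact le_trans (Nat.mul_le_mul_left 2 h3) (by decide +kernel)
    · have h4 := three_pow_le_gVal j (by omega)
      exact ⟨by omega, le_trans (by omega) (gVal_le_hVal _)⟩

/-! ### The bound -/

section Split

variable {Ω : Type*} [Fintype Ω] [DecidableEq Ω] (s : Finset Ω)

/-- Restriction to an invariant set and to its complement. -/
def splitHom (N : Subgroup (Perm Ω)) (hs : ∀ g ∈ N, ∀ x, g x ∈ s ↔ x ∈ s) :
    N →* Perm {x // x ∈ s} × Perm {x // x ∉ s} where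
  toFun g := ((g : Perm Ω).subtypePerm (hs g g.2),
    (g : Perm Ω).subtypePerm fun x => not_congr (hs g g.2 x))
  map_one' := by ext <;> rfl
  map_mul' a b := by ext <;> rfl

omit [Fintype Ω] in
theorem splitHom_injective (N : Subgroup (Perm Ω)) (hs : ∀ g ∈ N, ∀ x, g x ∈ s ↔ x ∈ s) :
    Function.Injective (splitHom s N hs) := by
  intro a b h
  refine Subtype.ext (Equiv.ext fun x => ?_)
  by_cases hx : x ∈ s
  · exact congrArg Subtype.val (Equiv.ext_iff.1 (congrArg Prod.fst h) ⟨x, hx⟩)
  · exact congrArg Subtype.val (Equiv.ext_iff.1 (congrArg Prod.snd h) ⟨x, hx⟩)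

theorem sign_splitHom (N : Subgroup (Perm Ω)) (hs : ∀ g ∈ N, ∀ x, g x ∈ s ↔ x ∈ s) (g : N) :
    Perm.sign (g : Perm Ω) =
      Perm.sign (splitHom s N hs g).1 * Perm.sign (splitHom s N hs g).2 := by
  have e : (Equiv.sumCompl (· ∈ s)).permCongr
      (Perm.sumCongr (splitHom s N hs g).1 (splitHom s N hs g).2) = (g : Perm Ω) := by
    refine Equiv.ext fun x => ?_
    by_cases hx : x ∈ s <;> simp [Equiv.permCongr_apply, hx, splitHom]
  rw [← Perm.sign_sumCongr, ← Perm.sign_permCongr (Equiv.sumCompl (· ∈ s)), e]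

end Split

/-- The statement proved by induction on the degree. -/
theorem bound (n : ℕ) : ∀ (Ω : Type) [Fintype Ω] [DecidableEq Ω], Fintype.card Ω = n →
    ∀ N : Subgroup (Perm Ω), Group.IsNilpotent N →
      Nat.card N ≤ gVal n ∧
      (1 ≤ n → (∀ x ∈ N, Perm.sign x = 1) → 2 * Nat.card N ≤ hVal n) := by
  induction n using Nat.strong_induction_on with
  | _ n ih =>
  intro Ω _ _ hn N hN
  classical
  -- small degree
  rcases le_or_gt n 1 with hn1 | hn1
  · have : Subsingleton Ω := Fintype.card_le_one_iff_subsingleton.1 (hn ▸ hn1)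
    rw [Nat.card_of_subsingleton (1 : N)]
    refine ⟨gVal_pos n, fun h1 _ => ?_⟩
    obtain rfl : n = 1 := by omega
    decide +kernel
  by_cases hsplit : ∃ s : Finset Ω, s.Nonempty ∧ s ≠ Finset.univ ∧ ∀ g ∈ N, ∀ x, g x ∈ s ↔ x ∈ s
  · -- intransitive case
    obtain ⟨s, hs0, hs1, hs⟩ := hsplit
    set a := Fintype.card {x // x ∈ s} with ha
    set b := Fintype.card {x // x ∉ s} with hb
    have hab : a + b = n := by
      rw [ha, hb, ← Fintype.card_sum, Fintype.card_congr (Equiv.sumCompl (· ∈ s)), hn]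
    have ha1 : 1 ≤ a := by rw [ha, Fintype.card_coe]; exact Finset.card_pos.2 hs0
    have hb1 : 1 ≤ b := by
      obtain ⟨x, -, hx⟩ := Finset.exists_of_ssubset (lt_of_le_of_ne (Finset.subset_univ s) hs1)
      exact Fintype.card_pos_iff.2 ⟨⟨x, hx⟩⟩
    set f := splitHom s N hs with hf
    let N₁ : Subgroup (Perm {x // x ∈ s}) := ((MonoidHom.fst _ _).comp f).range
    let N₂ : Subgroup (Perm {x // x ∉ s}) := ((MonoidHom.snd _ _).comp f).range
    have h1 := ih a (by omega) _ ha.symm N₁
      (Group.nilpotent_of_surjective _ ((MonoidHom.fst _ _).comp f).rangeRestrict_surjective)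
    have h2 := ih b (by omega) _ hb.symm N₂
      (Group.nilpotent_of_surjective _ ((MonoidHom.snd _ _).comp f).rangeRestrict_surjective)
    let ι : N → N₁ × N₂ := fun g => (⟨(f g).1, g, rfl⟩, ⟨(f g).2, g, rfl⟩)
    have hι : Function.Injective ι := fun u v h => splitHom_injective s N hs
      (Prod.ext (congrArg (fun z => (z.1 : Perm {x // x ∈ s})) h)
        (congrArg (fun z => (z.2 : Perm {x // x ∉ s})) h))
    have hcard : Nat.card N ≤ Nat.card N₁ * Nat.card N₂ := by
      rw [← Nat.card_prod]; exact Nat.card_le_card_of_injective ι hι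
    have hg := gVal_mul_le a b
    rw [hab] at hg
    refine ⟨le_trans hcard (le_trans (Nat.mul_le_mul h1.1 h2.1) hg), fun _ heven => ?_⟩
    by_cases hodd : ∃ x ∈ N₁, Perm.sign x = -1
    · obtain ⟨x₀, hx₀, hs₀⟩ := hodd
      have h2N : 2 * Nat.card N ≤ Nat.card N₁ * Nat.card N₂ := by
        rw [← Nat.card_prod, show 2 = Nat.card Bool by simp, ← Nat.card_prod]
        refine Nat.card_le_card_of_injective
          (fun z : Bool × N => (((ι z.2).1 * if z.1 then ⟨x₀, hx₀⟩ else 1), (ι z.2).2)) ?_
        rintro ⟨t, g⟩ ⟨t', g'⟩ h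
        have h₁ := congrArg (fun z : N₁ × N₂ => (z.1 : Perm {x // x ∈ s})) h
        have h₂ := congrArg (fun z : N₁ × N₂ => (z.2 : Perm {x // x ∉ s})) h
        have e : Perm.sign (f g).2 = Perm.sign (f g').2 := congrArg Perm.sign h₂
        have e' : Perm.sign (f g).1 = Perm.sign (f g').1 := by
          have u := (sign_splitHom s N hs g).symm.trans (heven _ g.2)
          have u' := (sign_splitHom s N hs g').symm.trans (heven _ g'.2)
          rw [← hf] at u u'
          exact mul_right_cancel (u.trans (by rw [e, u']))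
        have htt : t = t' := by
          have h₁' := congrArg Perm.sign h₁
          cases t <;> cases t' <;> simp [ι, hs₀, e'] at h₁' ⊢
        subst htt
        refine Prod.ext rfl (hι (Prod.ext ?_ (Subtype.ext h₂)))
        exact mul_right_cancel (Subtype.ext h₁ :
          (ι g).1 * (if t then ⟨x₀, hx₀⟩ else 1) = (ι g').1 * if t then ⟨x₀, hx₀⟩ else 1)
      exact le_trans h2N (le_trans (Nat.mul_le_mul h1.1 h2.1) (le_trans hg (gVal_le_hVal n)))
    · push Not at hodd
      have he1 : ∀ x ∈ N₁, Perm.sign x = 1 := fun x hx =>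
        (Int.units_eq_one_or _).resolve_right (hodd x hx)
      have he2 : ∀ x ∈ N₂, Perm.sign x = 1 := by
        rintro _ ⟨g, rfl⟩
        have u := (sign_splitHom s N hs g).symm.trans (heven _ g.2)
        rw [he1 (splitHom s N hs g).1 ⟨g, rfl⟩, one_mul] at u
        exact u
      have k1 := h1.2 ha1 he1
      have k2 := h2.2 hb1 he2
      have k3 := hab ▸ hVal_mul_le (a := a) (b := b)
      have k4 := Nat.mul_le_mul k1 k2
      have : 4 * Nat.card N ≤ 2 * hVal n := by nlinarith
      omega
  -- transitive case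
  have htrans : ∀ x y : Ω, ∃ g ∈ N, g x = y := by
    intro x y
    by_contra hxy
    push Not at hxy
    refine hsplit ⟨Finset.univ.filter (fun z => ∃ g ∈ N, g x = z), ⟨x, by simp; exact ⟨1, N.one_mem, rfl⟩⟩,
      fun h => ?_, fun g hg z => ?_⟩
    · have := Finset.mem_univ y
      rw [← h] at this
      obtain ⟨g, hg, e⟩ := (Finset.mem_filter.1 this).2
      exact hxy g hg e
    · simp only [Finset.mem_filter, Finset.mem_univ, true_and]
      constructor
      · rintro ⟨u, hu, e⟩
        exact ⟨g⁻¹ * u, N.mul_mem (N.inv_mem hg) hu, by simp [Perm.mul_apply, e]⟩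
      · rintro ⟨u, hu, e⟩
        exact ⟨g * u, N.mul_mem hg hu, by simp [Perm.mul_apply, e]⟩
  obtain ⟨x⟩ : Nonempty Ω := Fintype.card_pos_iff.1 (by omega)
  have hNnt : 1 < Nat.card N := by
    obtain ⟨y, hy⟩ := Fintype.exists_ne_of_one_lt_card (hn ▸ hn1) x
    obtain ⟨g, hg, e⟩ := htrans x y
    refine Finite.one_lt_card_iff_nontrivial.2 ⟨⟨⟨g, hg⟩, 1, fun h => hy ?_⟩⟩
    rw [← e, show g = 1 from congrArg Subtype.val h]; rfl
  obtain ⟨q, hq, hqdvd⟩ := Nat.exists_prime_and_dvd hNnt.ne'
  have : Fact q.Prime := ⟨hq⟩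
  obtain ⟨A⟩ := (inferInstance : Nonempty (Sylow q N))
  have hAn : (A : Subgroup N).Normal :=
    Sylow.normal_of_normalizerCondition Group.normalizerCondition_of_isNilpotent A
  obtain ⟨B, hB⟩ := Subgroup.exists_right_complement'_of_coprime A.card_coprime_index
  have hcop : Nat.Coprime (Nat.card A) (Nat.card B) := hB.symm.index_eq_card ▸ A.card_coprime_index
  -- `B` centralizes `A`
  have hcomm : ∀ u ∈ (A : Subgroup N), ∀ v ∈ B, u * v = v * u := by
    intro u hu v hv
    set C := Subgroup.centralizer ((A : Subgroup N) : Set N) with hC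
    have hCn : C.Normal := by have := hAn; exact inferInstance
    have hidx : ∀ r : ℕ, r.Prime → r ≠ q → ¬ r ∣ C.index := by
      intro r hr hrq
      have : Fact r.Prime := ⟨hr⟩
      obtain ⟨Rr⟩ := (inferInstance : Nonempty (Sylow r N))
      have hRn : (Rr : Subgroup N).Normal :=
        Sylow.normal_of_normalizerCondition Group.normalizerCondition_of_isNilpotent Rr
      have hdis : Disjoint (A : Subgroup N) (Rr : Subgroup N) :=
        IsPGroup.disjoint_of_ne q r (Ne.symm hrq) _ _ A.isPGroup' Rr.isPGroup'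
      have hle : (Rr : Subgroup N) ≤ C := fun w hw => fun a ha =>
        Subgroup.commute_of_normal_of_disjoint _ _ hAn hRn hdis a w ha hw
      exact fun h => Rr.not_dvd_index (h.trans (Subgroup.index_dvd_of_le hle))
    have hord : (orderOf (QuotientGroup.mk' C v)) = 1 := by
      by_contra h
      obtain ⟨r, hr, hrd⟩ := Nat.exists_prime_and_dvd h
      have h1 : r ∣ C.index := by
        rw [Subgroup.index_eq_card]; exact hrd.trans (orderOf_dvd_natCard _)
      have h2 : r ∣ Nat.card B := by
        refine hrd.trans ((orderOf_map_dvd _ v).trans ?_)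
        rw [← Subgroup.orderOf_mk v hv]
        exact orderOf_dvd_natCard _
      have hrq : r = q := by_contra fun hne => hidx r hr hne h1
      subst hrq
      obtain ⟨k, hk⟩ := IsPGroup.iff_card.1 A.isPGroup'
      have h3 : r ∣ Nat.card A := by
        have h0 : r ∣ Nat.card A * (A : Subgroup N).index := by
          rw [Subgroup.card_mul_index]; exact hqdvd
        rcases (Nat.Prime.dvd_mul hq).1 h0 with h0 | h0
        · exact h0
        · exact absurd h0 A.not_dvd_index
      exact hr.not_dvd_one (hcop ▸ Nat.dvd_gcd h3 h2)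
    rw [orderOf_eq_one_iff, QuotientGroup.mk'_apply, QuotientGroup.eq_one_iff] at hord
    exact hord u hu
  have hprod : ∀ g : N, ∃ u ∈ (A : Subgroup N), ∃ v ∈ B, g = u * v := fun g =>
    ⟨_, (hB.equiv g).1.2, _, (hB.equiv g).2.2, (hB.equiv.symm_apply_apply g).symm⟩
  -- the two orbits
  let OA : Finset Ω := Finset.univ.filter fun y => ∃ u ∈ (A : Subgroup N), (u : Perm Ω) x = y
  let OB : Finset Ω := Finset.univ.filter fun y => ∃ v ∈ B, (v : Perm Ω) x = y
  have hcardN : Nat.card N = Nat.card A * Nat.card B := hB.card_mul_card.symm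
  have hn_eq : OA.card * OB.card = n := by
    rw [← hn, ← Finset.card_product]
    have hch : ∀ y ∈ OA, ∃ u : N, u ∈ (A : Subgroup N) ∧ (u : Perm Ω) x = y := fun y hy =>
      (Finset.mem_filter.1 hy).2
    choose! uf huf using hch
    refine Finset.card_bij (fun z _ => ((uf z.1 : N) : Perm Ω) z.2) (fun _ _ => Finset.mem_univ _) ?_ ?_
    · rintro ⟨y, w⟩ h₁ ⟨y', w'⟩ h₂ e
      obtain ⟨hu, hy⟩ := huf y (Finset.mem_product.1 h₁).1
      obtain ⟨hu', hy'⟩ := huf y' (Finset.mem_product.1 h₂).1
      set u := uf y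
      set u' := uf y'
      obtain ⟨v, hv, rfl⟩ := (Finset.mem_filter.1 (Finset.mem_product.1 h₁).2).2
      obtain ⟨v', hv', rfl⟩ := (Finset.mem_filter.1 (Finset.mem_product.1 h₂).2).2
      dsimp only at hy hy' e
      -- `d * c` fixes `x`
      set d := u'⁻¹ * u
      set c := v'⁻¹ * v
      have hd : d ∈ (A : Subgroup N) := mul_mem (inv_mem hu') hu
      have hc : c ∈ B := mul_mem (inv_mem hv') hv
      have hdc : ((d * c : N) : Perm Ω) x = x := by
        have e1 : d * c = v'⁻¹ * (u'⁻¹ * u) * v := by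
          rw [show v'⁻¹ * (u'⁻¹ * u) = (u'⁻¹ * u) * v'⁻¹ from (hcomm _ hd _ (inv_mem hv')).symm]
          simp [d, c, mul_assoc]
        rw [e1]
        simp only [Subgroup.coe_mul, InvMemClass.coe_inv, Perm.mul_apply]
        rw [show (u : Perm Ω) ((v : Perm Ω) x) = (u' : Perm Ω) ((v' : Perm Ω) x) from e]
        simp
      have hfix : ∀ k : ℕ, (((d * c) ^ k : N) : Perm Ω) x = x := by
        intro k
        induction k with
        | zero => rfl
        | succ k ihk => rw [pow_succ, Subgroup.coe_mul, Perm.mul_apply, hdc, ihk]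
      have hcm : Commute d c := hcomm d hd c hc
      obtain ⟨mA, hmA1, hmA2⟩ := Nat.chineseRemainder hcop 1 0
      have hdx : (d : Perm Ω) x = x := by
        have h1 := hfix mA
        have ed : d ^ mA = d := by
          conv_rhs => rw [← pow_one d]
          rw [pow_eq_pow_iff_modEq]
          exact hmA1.of_dvd (by rw [← Subgroup.orderOf_mk d hd]; exact orderOf_dvd_natCard _)
        have ec : c ^ mA = 1 := orderOf_dvd_iff_pow_eq_one.1
          ((by rw [← Subgroup.orderOf_mk c hc]; exact orderOf_dvd_natCard _ :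
            orderOf c ∣ Nat.card B).trans (Nat.modEq_zero_iff_dvd.1 hmA2))
        rwa [hcm.mul_pow, ed, ec, mul_one] at h1
      have hcx : (c : Perm Ω) x = x := by
        have := hdc
        rw [hcm.eq, Subgroup.coe_mul, Perm.mul_apply, hdx] at this
        exact this
      refine Prod.ext ?_ ?_
      · show y = y'
        rw [← hy, ← hy']
        have e2 := congrArg (u' : Perm Ω) hdx
        simpa [d, Perm.mul_apply] using e2
      · have e2 := congrArg (v' : Perm Ω) hcx
        simpa [c, Perm.mul_apply] using e2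
    · intro w _
      obtain ⟨g, hg, e⟩ := htrans x w
      obtain ⟨u, hu, v, hv, e'⟩ := hprod ⟨g, hg⟩
      have hy : (u : Perm Ω) x ∈ OA := Finset.mem_filter.2 ⟨Finset.mem_univ _, u, hu, rfl⟩
      refine ⟨((u : Perm Ω) x, (v : Perm Ω) x), Finset.mem_product.2 ⟨hy,
        Finset.mem_filter.2 ⟨Finset.mem_univ _, v, hv, rfl⟩⟩, ?_⟩
      obtain ⟨hu₁, hy₁⟩ := huf _ hy
      show ((uf ((u : Perm Ω) x) : N) : Perm Ω) ((v : Perm Ω) x) = w
      rw [← e, show g = ((u * v : N) : Perm Ω) from congrArg Subtype.val e', hcomm u hu v hv,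
        Subgroup.coe_mul, Perm.mul_apply]
      have := Equiv.ext_iff.1 (congrArg Subtype.val (hcomm _ hu₁ v hv)) x
      simp only [Subgroup.coe_mul, Perm.mul_apply] at this
      rw [this, hy₁]
  have hxA : x ∈ OA := Finset.mem_filter.2 ⟨Finset.mem_univ _, 1, one_mem _, rfl⟩
  have hxB : x ∈ OB := Finset.mem_filter.2 ⟨Finset.mem_univ _, 1, one_mem _, rfl⟩
  -- actions on the orbits are faithful
  have hfaith : ∀ (H K : Subgroup N), (∀ h ∈ H, ∀ k ∈ K, h * k = k * h) →
      (∀ g : N, ∃ h ∈ H, ∃ k ∈ K, g = h * k) →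
      let O := Finset.univ.filter fun y => ∃ h ∈ H, (h : Perm Ω) x = y
      ∃ M : Subgroup (Perm {y // y ∈ O}), Group.IsNilpotent M ∧ Nat.card M = Nat.card H := by
    intro H K hHK hgen O
    have hinv : ∀ g ∈ H.map N.subtype, ∀ y, g y ∈ O ↔ y ∈ O := by
      rintro _ ⟨h, hh, rfl⟩ y
      simp only [O, Finset.mem_filter, Finset.mem_univ, true_and]
      constructor
      · rintro ⟨w, hw, e⟩
        exact ⟨h⁻¹ * w, mul_mem (inv_mem hh) hw, by simp [Perm.mul_apply, e]⟩
      · rintro ⟨w, hw, e⟩
        exact ⟨h * w, mul_mem hh hw, by simp [Perm.mul_apply, e]⟩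
    let φ : H →* Perm {y // y ∈ O} :=
      { toFun := fun h => ((h : N) : Perm Ω).subtypePerm (hinv _ ⟨h, h.2, rfl⟩)
        map_one' := by ext; rfl
        map_mul' := fun _ _ => by ext; rfl }
    have hφ : Function.Injective φ := by
      rw [injective_iff_map_eq_one]
      intro h hh
      refine Subtype.ext (Subtype.ext (Equiv.ext fun y => ?_))
      obtain ⟨g, hg, e⟩ := htrans x y
      obtain ⟨h', hh', k, hk, e'⟩ := hgen ⟨g, hg⟩
      have e2 : g = ((h' * k : N) : Perm Ω) := congrArg Subtype.val e'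
      have hfix : ((h : N) : Perm Ω) ((h' : Perm Ω) x) = (h' : Perm Ω) x :=
        congrArg Subtype.val (Equiv.ext_iff.1 hh ⟨(h' : Perm Ω) x,
          Finset.mem_filter.2 ⟨Finset.mem_univ _, h', hh', rfl⟩⟩)
      rw [← e, e2, hHK h' hh' k hk]
      show ((h : N) : Perm Ω) ((k : Perm Ω) ((h' : Perm Ω) x)) = (k : Perm Ω) ((h' : Perm Ω) x)
      have e3 : ((h : N) : Perm Ω) * (k : Perm Ω) = (k : Perm Ω) * ((h : N) : Perm Ω) :=
        congrArg Subtype.val (hHK h h.2 k hk)
      rw [← Perm.mul_apply, e3, Perm.mul_apply, hfix]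
    have hHnil : Group.IsNilpotent H := inferInstance
    exact ⟨φ.range, Group.nilpotent_of_surjective _ φ.rangeRestrict_surjective,
      Nat.card_congr (MonoidHom.ofInjective hφ).toEquiv.symm⟩
  rcases Nat.lt_or_ge OB.card 2 with hb | hb
  · -- `N` is a `q`-group
    have hB1 : Nat.card B = 1 := by
      obtain ⟨M, -, hM⟩ := hfaith B (A : Subgroup N) (fun h hh k hk => (hcomm k hk h hh).symm)
        (fun g => by
          obtain ⟨u, hu, v, hv, e⟩ := hprod g
          exact ⟨v, hv, u, hu, e.trans (hcomm u hu v hv)⟩)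
      have : Subsingleton {y // y ∈ OB} := by
        rw [← Fintype.card_le_one_iff_subsingleton, Fintype.card_coe]; omega
      rw [← hM]
      exact Nat.card_of_subsingleton (1 : M)
    rw [hB1, mul_one] at hcardN
    obtain ⟨j, hj⟩ := IsPGroup.iff_card.1 A.isPGroup'
    have hdvd : q ^ j ∣ n.factorial := by
      rw [← hj, ← hcardN, ← hn, ← Nat.card_eq_fintype_card, ← Nat.card_perm]
      exact N.card_subgroup_dvd_card
    have hjv : j ≤ padicValNat q n.factorial :=
      (padicValNat_dvd_iff_le (Nat.factorial_ne_zero n)).1 hdvd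
    rw [hcardN, hj]
    rcases eq_or_ne q 2 with rfl | hq2
    · refine ⟨le_trans (Nat.pow_le_pow_right two_pos hjv) (sVal_le_gVal n), fun _ heven => ?_⟩
      refine le_trans ?_ (le_trans (sVal_le_gVal n) (gVal_le_hVal n))
      have : Nontrivial Ω := Fintype.one_lt_card_iff_nontrivial.1 (hn ▸ hn1)
      have h2dvd : 2 * 2 ^ j ∣ n.factorial := by
        rw [← hj, ← hcardN, ← hn, ← Nat.card_eq_fintype_card, ← Nat.card_perm,
          ← two_mul_nat_card_alternatingGroup]
        exact mul_dvd_mul_left 2 (Subgroup.card_dvd_of_le fun g hg => heven g hg)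
      rw [← pow_succ'] at h2dvd ⊢
      exact Nat.pow_le_pow_right two_pos ((padicValNat_dvd_iff_le (Nat.factorial_ne_zero n)).1 h2dvd)
    · have hdvd2 : n ∣ Nat.card N := by
        have e : MulAction.orbit N x = Set.univ := Set.eq_univ_of_forall fun y => by
          obtain ⟨g, hg, e⟩ := htrans x y
          exact ⟨⟨g, hg⟩, e⟩
        have h := MulAction.card_orbit_mul_card_stabilizer_eq_card_group N x
        rw [← Nat.card_eq_fintype_card, ← Nat.card_eq_fintype_card, ← Nat.card_eq_fintype_card, e,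
          Nat.card_coe_set_eq, Set.ncard_univ, Nat.card_eq_fintype_card (α := Ω), hn] at h
        exact Dvd.intro _ h
      rw [hcardN, hj] at hdvd2
      obtain ⟨k, -, hk⟩ := (Nat.dvd_prime_pow hq).1 hdvd2
      have hk1 : 1 ≤ k := by
        rcases Nat.eq_zero_or_pos k with rfl | h
        · rw [pow_zero] at hk; omega
        · exact h
      obtain ⟨hg, hh⟩ := prime_pow_bound hq2 hk1 hk
      have hpow := Nat.pow_le_pow_right hq.pos hjv
      exact ⟨le_trans hpow hg, fun _ _ => le_trans (Nat.mul_le_mul_left 2 hpow) hh⟩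
  · -- two proper orbits
    have ha : 2 ≤ OA.card := by
      by_contra ha
      obtain ⟨M, -, hM⟩ := hfaith (A : Subgroup N) B hcomm hprod
      have : Subsingleton {y // y ∈ OA} := by
        rw [← Fintype.card_le_one_iff_subsingleton, Fintype.card_coe]; omega
      have hA1 : Nat.card A = 1 := hM ▸ Nat.card_of_subsingleton (1 : M)
      have h0 : q ∣ Nat.card A * (A : Subgroup N).index := by rw [Subgroup.card_mul_index]; exact hqdvd
      rw [hA1, one_mul] at h0
      exact A.not_dvd_index h0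
    obtain ⟨MA, hMAn, hMA⟩ := hfaith (A : Subgroup N) B hcomm hprod
    obtain ⟨MB, hMBn, hMB⟩ := hfaith B (A : Subgroup N) (fun h hh k hk => (hcomm k hk h hh).symm)
        (fun g => by
          obtain ⟨u, hu, v, hv, e⟩ := hprod g
          exact ⟨v, hv, u, hu, e.trans (hcomm u hu v hv)⟩)
    have hA' := (ih OA.card (by nlinarith) _ (Fintype.card_coe OA) MA hMAn).1
    have hB' := (ih OB.card (by nlinarith) _ (Fintype.card_coe OB) MB hMBn).1
    rw [hMA] at hA'
    rw [hMB] at hB'
    have hprod' : Nat.card N ≤ gVal OA.card * gVal OB.card := hcardN ▸ Nat.mul_le_mul hA' hB'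
    have hsum : OA.card + OB.card ≤ n := by nlinarith
    have hle : Nat.card N ≤ gVal (OA.card + OB.card) := le_trans hprod' (gVal_mul_le _ _)
    refine ⟨le_trans hle (gVal_mono hsum), fun _ _ => le_trans ?_ (gVal_le_hVal n)⟩
    rcases le_or_gt (OA.card + OB.card + 2) n with h | h
    · exact le_trans (Nat.mul_le_mul_left 2 hle) (two_mul_gVal_le h)
    · -- the degrees are 2 and 3, or 2 and 2
      have ha3 : OA.card ≤ 3 := by nlinarith
      have hb3 : OB.card ≤ 3 := by nlinarith
      rcases (by omega : OA.card = 2 ∨ OA.card = 3) with ea | ea <;>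
        rcases (by omega : OB.card = 2 ∨ OB.card = 3) with eb | eb <;>
        rw [ea, eb] at hn_eq hprod' h <;>
        first
        | omega
        | (subst hn_eq; exact le_trans (Nat.mul_le_mul_left 2 hprod') (by decide +kernel))

end CfsgLib.SymSylow.Nilp
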