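import Mathlib

/-!
Nilpotent subgroups of order `3 * 2 ^ j` of `Sym n`, `Alt n` for `n ≡ 3 (mod 4)` and large `j`.
-/

set_option autoImplicit false
set_option linter.style.haveILetI false

open Equiv

namespace CfsgLib.SymSylow.Largest

open scoped Pointwise

/-- A nilpotent group of order `3 * 2 ^ j` is generated by commuting parts. -/
theorem decompose {Γ : Type*} [Group Γ] [Finite Γ] (N : Subgroup Γ) (hN : Group.IsNilpotent N)
    (j : ℕ) (hcard : Nat.card N = 3 * 2 ^ j) :
    ∃ (c : Γ) (B : Subgroup Γ), orderOf c = 3 ∧ Nat.card B = 2 ^ j ∧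
      B ≤ Subgroup.centralizer {c} ∧ N = Subgroup.zpowers c ⊔ B := by
  classical
  haveI : Fact (Nat.Prime 2) := ⟨Nat.prime_two⟩
  haveI : Fact (Nat.Prime 3) := ⟨Nat.prime_three⟩
  obtain ⟨A⟩ := (inferInstance : Nonempty (Sylow 3 N))
  obtain ⟨B⟩ := (inferInstance : Nonempty (Sylow 2 N))
  have hAn : (A : Subgroup N).Normal :=
    Sylow.normal_of_normalizerCondition Group.normalizerCondition_of_isNilpotent A
  have hBn : (B : Subgroup N).Normal :=
    Sylow.normal_of_normalizerCondition Group.normalizerCondition_of_isNilpotent B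
  have h2 : (2 ^ j).factorization 3 = 0 := by
    refine Nat.factorization_eq_zero_of_not_dvd fun h => ?_
    exact absurd ((Nat.prime_dvd_prime_iff_eq Nat.prime_three Nat.prime_two).1
      (Nat.prime_three.dvd_of_dvd_pow h)) (by norm_num)
  have hA : Nat.card (A : Subgroup N) = 3 := by
    rw [A.card_eq_multiplicity, hcard, Nat.factorization_mul (by norm_num) (by positivity),
      Finsupp.add_apply, Nat.prime_three.factorization_self, h2, add_zero, pow_one]
  have hB : Nat.card (B : Subgroup N) = 2 ^ j := by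
    rw [B.card_eq_multiplicity, hcard, Nat.factorization_mul (by norm_num) (by positivity),
      Finsupp.add_apply, Nat.factorization_eq_zero_of_not_dvd (by norm_num : ¬ 2 ∣ 3), zero_add,
      Nat.prime_two.factorization_pow, Finsupp.single_eq_same]
  have hdis : Disjoint (A : Subgroup N) (B : Subgroup N) :=
    IsPGroup.disjoint_of_ne 3 2 (by norm_num) _ _ A.isPGroup' B.isPGroup'
  haveI : IsCyclic (A : Subgroup N) := isCyclic_of_prime_card hA
  obtain ⟨c, hc⟩ := IsCyclic.exists_generator (α := (A : Subgroup N))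
  have hco : orderOf c = 3 := by rw [orderOf_eq_card_of_forall_mem_zpowers hc, hA]
  refine ⟨((c : N) : Γ), (B : Subgroup N).map N.subtype, ?_, ?_, ?_, ?_⟩
  · rw [Subgroup.orderOf_coe, Subgroup.orderOf_coe, hco]
  · rw [Subgroup.card_map_of_injective N.subtype_injective, hB]
  · rintro _ ⟨b, hb, rfl⟩
    rw [Subgroup.mem_centralizer_singleton_iff]
    have h := (Subgroup.commute_of_normal_of_disjoint _ _ hAn hBn hdis (c : N) b c.2 hb).symm.eq
    exact congrArg Subtype.val h
  · have hsup : (A : Subgroup N) ⊔ (B : Subgroup N) = ⊤ := by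
      refine Subgroup.eq_top_of_le_card _ ?_
      have h3 : 3 ∣ Nat.card ((A : Subgroup N) ⊔ (B : Subgroup N) : Subgroup N) :=
        (dvd_of_eq hA.symm).trans (Subgroup.card_dvd_of_le le_sup_left)
      have h4 : 2 ^ j ∣ Nat.card ((A : Subgroup N) ⊔ (B : Subgroup N) : Subgroup N) :=
        (dvd_of_eq hB.symm).trans (Subgroup.card_dvd_of_le le_sup_right)
      rw [hcard]
      exact Nat.le_of_dvd Nat.card_pos
        ((Nat.Coprime.pow_right j (by norm_num)).mul_dvd_of_dvd_of_dvd h3 h4)
    have hz : (A : Subgroup N) = Subgroup.zpowers (c : N) := by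
      refine le_antisymm (fun a ha => ?_) (Subgroup.zpowers_le.2 c.2)
      obtain ⟨i, hi⟩ := Subgroup.mem_zpowers_iff.1 (hc ⟨a, ha⟩)
      exact Subgroup.mem_zpowers_iff.2 ⟨i, by simpa using congrArg Subtype.val hi⟩
    have := congrArg (Subgroup.map N.subtype) hsup
    rw [Subgroup.map_sup, hz, MonoidHom.map_zpowers, ← MonoidHom.range_eq_map,
      Subgroup.range_subtype] at this
    exact this.symm

/-- Two subgroups of `C(c)` of full `p`-power order are conjugate in it. -/
theorem conj_in_centralizer {Γ : Type*} [Group Γ] [Finite Γ] {p : ℕ} [Fact p.Prime] (c : Γ)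
    (B₁ B₂ : Subgroup Γ) (h₁ : B₁ ≤ Subgroup.centralizer {c}) (h₂ : B₂ ≤ Subgroup.centralizer {c})
    (hc₁ : Nat.card B₁ = p ^ (Nat.card (Subgroup.centralizer {c})).factorization p)
    (hc₂ : Nat.card B₂ = p ^ (Nat.card (Subgroup.centralizer {c})).factorization p) :
    ∃ k ∈ Subgroup.centralizer {c}, B₂ = B₁.map (MulAut.conj k).toMonoidHom := by
  let T₁ : Sylow p (Subgroup.centralizer {c}) := Sylow.ofCard (B₁.subgroupOf _)
    (by rw [← hc₁]; exact Nat.card_congr (Subgroup.subgroupOfEquivOfLe h₁).toEquiv)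
  let T₂ : Sylow p (Subgroup.centralizer {c}) := Sylow.ofCard (B₂.subgroupOf _)
    (by rw [← hc₂]; exact Nat.card_congr (Subgroup.subgroupOfEquivOfLe h₂).toEquiv)
  obtain ⟨k, hk⟩ := MulAction.exists_smul_eq (Subgroup.centralizer ({c} : Set Γ)) T₁ T₂
  refine ⟨k, k.2, ?_⟩
  have hk' : MulAut.conj k • (B₁.subgroupOf (Subgroup.centralizer {c})) =
      B₂.subgroupOf (Subgroup.centralizer {c}) := congrArg (fun T : Sylow p (Subgroup.centralizer ({c} : Set Γ)) => (T : Subgroup (Subgroup.centralizer ({c} : Set Γ)))) hk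
  ext x
  constructor
  · intro hx
    have : (⟨x, h₂ hx⟩ : Subgroup.centralizer ({c} : Set Γ)) ∈
        MulAut.conj k • B₁.subgroupOf (Subgroup.centralizer {c}) := by rw [hk']; exact hx
    obtain ⟨y, hy, hyx⟩ := this
    exact ⟨y, hy, congrArg Subtype.val hyx⟩
  · rintro ⟨y, hy, rfl⟩
    have : MulAut.conj k ⟨y, h₁ hy⟩ ∈ B₂.subgroupOf (Subgroup.centralizer {c}) := by
      rw [← hk']; exact ⟨_, hy, rfl⟩
    exact this

/-- The conjugacy statement, given that all candidates for `c` are conjugate. -/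
theorem conj_of_class {Γ : Type*} [Group Γ] [Finite Γ] (j : ℕ)
    (hcl : ∀ (c : Γ) (B : Subgroup Γ), orderOf c = 3 → Nat.card B = 2 ^ j →
      B ≤ Subgroup.centralizer {c} → (Nat.card (Subgroup.centralizer {c})).factorization 2 = j)
    (hconj : ∀ (c c' : Γ) (B B' : Subgroup Γ), orderOf c = 3 → Nat.card B = 2 ^ j →
      B ≤ Subgroup.centralizer {c} → orderOf c' = 3 → Nat.card B' = 2 ^ j →
      B' ≤ Subgroup.centralizer {c'} → IsConj c c')
    (N₁ N₂ : Subgroup Γ) (h₁ : Group.IsNilpotent N₁) (h₂ : Group.IsNilpotent N₂)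
    (e₁ : Nat.card N₁ = 3 * 2 ^ j) (e₂ : Nat.card N₂ = 3 * 2 ^ j) :
    ∃ g : Γ, N₂ = N₁.map (MulAut.conj g).toMonoidHom := by
  haveI : Fact (Nat.Prime 2) := ⟨Nat.prime_two⟩
  obtain ⟨c₁, B₁, a₁, b₁, d₁, rfl⟩ := decompose N₁ h₁ j e₁
  obtain ⟨c₂, B₂, a₂, b₂, d₂, rfl⟩ := decompose N₂ h₂ j e₂
  obtain ⟨g, hg⟩ := isConj_iff.1 (hconj c₁ c₂ B₁ B₂ a₁ b₁ d₁ a₂ b₂ d₂)
  have d₁' : B₁.map (MulAut.conj g).toMonoidHom ≤ Subgroup.centralizer {c₂} := by
    rintro _ ⟨b, hb, rfl⟩
    rw [Subgroup.mem_centralizer_singleton_iff, ← hg]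
    have h := Subgroup.mem_centralizer_singleton_iff.1 (d₁ hb)
    show MulAut.conj g b * MulAut.conj g c₁ = MulAut.conj g c₁ * MulAut.conj g b
    rw [← map_mul, ← map_mul, h]
  have hj := hcl c₂ B₂ a₂ b₂ d₂
  obtain ⟨k, hk, hB⟩ := conj_in_centralizer (p := 2) c₂ _ B₂ d₁' d₂
    (by rw [Subgroup.card_map_of_injective (MulAut.conj g).injective, b₁, hj]) (by rw [b₂, hj])
  refine ⟨k * g, ?_⟩
  have hcomp : (MulAut.conj (k * g)).toMonoidHom =
      (MulAut.conj k).toMonoidHom.comp (MulAut.conj g).toMonoidHom := by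
    ext x; simp [mul_assoc]
  rw [hcomp, ← Subgroup.map_map, Subgroup.map_sup, Subgroup.map_sup, MonoidHom.map_zpowers,
    MonoidHom.map_zpowers, hB]
  have hk' := Subgroup.mem_centralizer_singleton_iff.1 hk
  simp [hg, hk']

/-- In degree `4k+3`, an element of order 3 centralized by a large 2-group is a 3-cycle. -/
theorem isThreeCycle_of_centralizes {k : ℕ} (hk : 1 ≤ k) {α : Type*} [Fintype α] [DecidableEq α]
    (hα : Fintype.card α = 4 * k + 3) (c : Perm α) (hc : orderOf c = 3)
    (hdvd : 2 ^ (padicValNat 2 (4 * k).factorial - 1) ∣ Nat.card (Subgroup.centralizer {c})) :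
    c.IsThreeCycle := by
  haveI : Fact (Nat.Prime 2) := ⟨Nat.prime_two⟩
  obtain ⟨m, hm⟩ := Perm.cycleType_prime_order (σ := c) (by rw [hc]; exact Nat.prime_three)
  rw [hc] at hm
  rcases Nat.eq_zero_or_pos m with rfl | hm1
  · rw [Perm.IsThreeCycle, hm]; rfl
  exfalso
  have hsum : (m + 1) * 3 ≤ 4 * k + 3 := by
    have := Perm.sum_cycleType c ▸ Finset.card_le_univ c.support
    rw [hm, Multiset.sum_replicate, hα, smul_eq_mul] at this
    exact this
  rw [Perm.nat_card_centralizer, hm, hα, Multiset.sum_replicate, Multiset.prod_replicate,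
    Multiset.toFinset_replicate, if_neg (Nat.succ_ne_zero _), Finset.prod_singleton,
    Multiset.count_replicate_self, smul_eq_mul] at hdvd
  set a := 4 * k + 3 - (m + 1) * 3
  have hd : 2 ^ (padicValNat 2 (4 * k).factorial - 1) ∣ (a + (m + 1)).factorial := by
    have h3 : Nat.Coprime (2 ^ (padicValNat 2 (4 * k).factorial - 1)) (3 ^ (m + 1)) :=
      Nat.Coprime.pow _ _ (by norm_num)
    rw [show a.factorial * 3 ^ (m + 1) * (m + 1).factorial =
      3 ^ (m + 1) * (a.factorial * (m + 1).factorial) by ring] at hdvd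
    exact (h3.dvd_of_dvd_mul_left hdvd).trans (Nat.factorial_mul_factorial_dvd_factorial_add _ _)
  have hd' : 2 ^ (padicValNat 2 (4 * k).factorial - 1) ∣ (4 * k - 1).factorial :=
    hd.trans (Nat.factorial_dvd_factorial (by omega))
  rw [padicValNat_dvd_iff_le (Nat.factorial_ne_zero _)] at hd'
  have hval : padicValNat 2 (4 * k).factorial =
      padicValNat 2 (4 * k) + padicValNat 2 (4 * k - 1).factorial := by
    rw [← Nat.mul_factorial_pred (by omega : 4 * k ≠ 0),
      padicValNat.mul (by omega) (Nat.factorial_ne_zero _)]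
  have h4 : 2 ≤ padicValNat 2 (4 * k) :=
    (padicValNat_dvd_iff_le (by omega)).1 (Dvd.intro k rfl)
  omega

/-- centralizer of a 3-cycle -/
theorem factorization_centralizer {α : Type*} [Fintype α] [DecidableEq α] (c : Perm α)
    (hc : c.IsThreeCycle) :
    (Nat.card (Subgroup.centralizer {c})).factorization 2 =
      padicValNat 2 (Fintype.card α - 3).factorial := by
  haveI : Fact (Nat.Prime 2) := ⟨Nat.prime_two⟩
  rw [Perm.nat_card_centralizer, hc.cycleType, Nat.factorization_def _ Nat.prime_two]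
  simp only [Multiset.sum_singleton, Multiset.prod_singleton, Multiset.toFinset_singleton,
    Finset.prod_singleton, Multiset.count_singleton_self, Nat.factorial_one, mul_one]
  rw [padicValNat.mul (Nat.factorial_ne_zero _) (by norm_num),
    padicValNat.eq_zero_of_not_dvd (by norm_num : ¬ 2 ∣ 3), add_zero]

/-- centralizer in the alternating group -/
theorem factorization_centralizer_alt {α : Type*} [Fintype α] [DecidableEq α]
    (h5 : 5 ≤ Fintype.card α) (c : alternatingGroup α) (hc : (c : Perm α).IsThreeCycle) :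
    (Nat.card (Subgroup.centralizer {c})).factorization 2 =
      padicValNat 2 (Fintype.card α - 3).factorial - 1 := by
  classical
  set C := Subgroup.centralizer ({(c : Perm α)} : Set (Perm α)) with hC
  have heq : Subgroup.centralizer {c} = C.subgroupOf (alternatingGroup α) := by
    ext x
    rw [Subgroup.mem_subgroupOf, hC, Subgroup.mem_centralizer_singleton_iff,
      Subgroup.mem_centralizer_singleton_iff, Subtype.ext_iff]
    rfl
  obtain ⟨a, b, hab, ha, hb⟩ : ∃ a b, a ≠ b ∧ a ∉ (c : Perm α).support ∧ b ∉ (c : Perm α).support := by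
    have h2 : 1 < ((c : Perm α).support)ᶜ.card := by
      rw [Finset.card_compl, hc.card_support]; omega
    obtain ⟨a, ha, b, hb, hab⟩ := Finset.one_lt_card.1 h2
    exact ⟨a, b, hab, Finset.mem_compl.1 ha, Finset.mem_compl.1 hb⟩
  have hsw : Equiv.swap a b ∈ C := by
    rw [hC, Subgroup.mem_centralizer_singleton_iff]
    refine (Perm.Disjoint.commute ?_).eq
    intro x
    by_cases hx : x = a ∨ x = b
    · right
      rcases hx with rfl | rfl
      · exact Perm.notMem_support.1 ha
      · exact Perm.notMem_support.1 hb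
    · left
      push Not at hx
      exact Equiv.swap_apply_of_ne_of_ne hx.1 hx.2
  have hsurj : Function.Surjective (Perm.sign.comp C.subtype) := by
    intro u
    rcases Int.units_eq_one_or u with rfl | rfl
    · exact ⟨1, map_one _⟩
    · exact ⟨⟨_, hsw⟩, Perm.sign_swap hab⟩
  have hker : (Perm.sign.comp C.subtype).ker = (alternatingGroup α).subgroupOf C := by
    ext x; simp [Subgroup.mem_subgroupOf]
  have hidx : (Perm.sign.comp C.subtype).ker.index = 2 := by
    rw [Subgroup.index_ker, MonoidHom.range_eq_top.2 hsurj, Subgroup.card_top, Nat.card_eq_fintype_card,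
      Fintype.card_units_int]
  have hmul : Nat.card (Subgroup.centralizer {c}) * 2 = Nat.card C := by
    rw [← Subgroup.card_mul_index (Perm.sign.comp C.subtype).ker, hidx]
    congr 1
    rw [heq, hker]
    exact Nat.card_congr
      { toFun := fun x => ⟨⟨x.1.1, x.2⟩, x.1.2⟩
        invFun := fun x => ⟨⟨x.1.1, x.2⟩, x.1.2⟩
        left_inv := fun _ => rfl
        right_inv := fun _ => rfl }
  have h := factorization_centralizer (c : Perm α) hc
  rw [← hC, ← hmul, Nat.factorization_mul Nat.card_pos.ne' two_ne_zero, Finsupp.add_apply,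
    Nat.prime_two.factorization_self] at h
  omega

/-- `Q × C₃ → Sym n` -/
noncomputable def prodEmb {Q : Type*} [Group Q] {n : ℕ} (h3 : 3 ≤ n) (ι : Q →* Perm (Fin (n - 3)))
    (z : Multiplicative (ZMod 3) →* Perm (Fin 3)) : Q × Multiplicative (ZMod 3) →* Perm (Fin n) :=
  ((Equiv.permCongrHom (finSumFinEquiv.trans (finCongr (Nat.sub_add_cancel h3)))).toMonoidHom.comp
    (Perm.sumCongrHom (Fin (n - 3)) (Fin 3))).comp (ι.prodMap z)

theorem prodEmb_injective {Q : Type*} [Group Q] {n : ℕ} (h3 : 3 ≤ n) (ι : Q →* Perm (Fin (n - 3)))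
    (z : Multiplicative (ZMod 3) →* Perm (Fin 3)) (hι : Function.Injective ι)
    (hz : Function.Injective z) : Function.Injective (prodEmb h3 ι z) :=
  fun _ _ h => (hι.prodMap hz) (Perm.sumCongrHom_injective (MulEquiv.injective
    (Equiv.permCongrHom (finSumFinEquiv.trans (finCongr (Nat.sub_add_cancel h3)))) h))

theorem sign_prodEmb {Q : Type*} [Group Q] {n : ℕ} (h3 : 3 ≤ n) (ι : Q →* Perm (Fin (n - 3)))
    (z : Multiplicative (ZMod 3) →* Perm (Fin 3)) (x : Q × Multiplicative (ZMod 3)) :
    Perm.sign (prodEmb h3 ι z x) = Perm.sign (ι x.1) := by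
  have hz : Perm.sign (z x.2) = 1 := by
    have h : (Perm.sign (z x.2)) ^ 3 = 1 := by
      have e : x.2 ^ 3 = 1 := by
        have := pow_card_eq_one' (x := x.2)
        simpa using this
      rw [← map_pow, ← map_pow, e, map_one, map_one]
    rcases Int.units_eq_one_or (Perm.sign (z x.2)) with h' | h'
    · exact h'
    · rw [h'] at h; exact absurd h (by decide)
  unfold prodEmb
  show Perm.sign ((finSumFinEquiv.trans (finCongr (Nat.sub_add_cancel h3))).permCongr
    (Perm.sumCongr (ι x.1) (z x.2))) = _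
  rw [Perm.sign_permCongr, Perm.sign_sumCongr, hz, mul_one]

theorem exists_z : ∃ z : Multiplicative (ZMod 3) →* Perm (Fin 3), Function.Injective z := by
  haveI : Fact (Nat.Prime 3) := ⟨Nat.prime_three⟩
  have h : Nat.card (alternatingGroup (Fin 3)) = 3 := by
    have := two_mul_nat_card_alternatingGroup (α := Fin 3)
    rw [Nat.card_perm, Nat.card_fin] at this
    rw [show (Nat.factorial 3) = 2 * 3 from rfl] at this
    omega
  have e : Multiplicative (ZMod 3) ≃* alternatingGroup (Fin 3) :=
    mulEquivOfPrimeCardEq (p := 3) (by simp) h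
  exact ⟨(alternatingGroup (Fin 3)).subtype.comp e.toMonoidHom,
    Subtype.val_injective.comp e.injective⟩

theorem nilpotent_prod {Q : Type*} [Group Q] [Finite Q] (hQ : IsPGroup 2 Q) :
    Group.IsNilpotent (Q × Multiplicative (ZMod 3)) := by
  haveI : Fact (Nat.Prime 2) := ⟨Nat.prime_two⟩
  haveI := hQ.isNilpotent
  infer_instance

end CfsgLib.SymSylow.Largest
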