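import Mathlib
import Cfsg.Agent.Classical.Linear.SylowP
import Cfsg.Agent.Fus.LinearSimple

/-!
Opposite Sylow subgroups in `SL_n(2)`: a conjugate of the unitriangular group meeting it trivially is
conjugate to the lower one under it.
-/

set_option autoImplicit false

namespace CfsgLib.SymSylow.Opposite

open Matrix Module CfsgLib.Fus.LinearSimple
open scoped Pointwise

variable {n : ℕ}

local notation "SL" => Matrix.SpecialLinearGroup (Fin n) (ZMod 2)
local notation "Mat" => Matrix (Fin n) (Fin n) (ZMod 2)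
local notation "Vec" => Fin n → ZMod 2

/-- Vectors supported before `k`. -/
def below (n k : ℕ) : Submodule (ZMod 2) (Fin n → ZMod 2) where
  carrier := {v | ∀ i : Fin n, k ≤ (i : ℕ) → v i = 0}
  add_mem' := fun {a b} ha hb i hi => by simp [ha i hi, hb i hi]
  zero_mem' := fun _ _ => rfl
  smul_mem' := fun c {a} ha i hi => by simp [ha i hi]

theorem mem_below {k : ℕ} {v : Vec} : v ∈ below n k ↔ ∀ i : Fin n, k ≤ (i : ℕ) → v i = 0 := Iff.rfl

theorem finrank_below {k : ℕ} (hk : k ≤ n) : finrank (ZMod 2) (below n k) = k := by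
  let e : below n k ≃ₗ[ZMod 2] (Fin k → ZMod 2) :=
    { toFun := fun v j => v.1 (Fin.castLE hk j)
      invFun := fun w => ⟨fun i => if h : (i : ℕ) < k then w ⟨i, h⟩ else 0, fun i hi => by
        simp only [dif_neg (not_lt.2 hi)]⟩
      map_add' := fun _ _ => rfl
      map_smul' := fun _ _ => rfl
      left_inv := fun v => by
        refine Subtype.ext (funext fun i => ?_)
        by_cases h : (i : ℕ) < k
        · simp only [dif_pos h]; rfl
        · simp only [dif_neg h]; exact (v.2 i (not_lt.1 h)).symm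
      right_inv := fun w => funext fun j => by simp }
  rw [e.finrank_eq, finrank_fin_fun]

theorem eq_one_of_ne_zero {x : ZMod 2} (h : x ≠ 0) : x = 1 := by revert x; decide

theorem mem_uni_of_upper {g : SL} (hg : IsUpper g) : g ∈ uniSL := by
  refine ⟨hg, fun i => eq_one_of_ne_zero fun h => ?_⟩
  have hd := g.2
  rw [Matrix.det_of_upperTriangular (fun a b hab => hg a b hab)] at hd
  exact zero_ne_one ((Finset.prod_eq_zero (f := fun a => ent g a a) (Finset.mem_univ i) h).symm.trans hd)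

/-- The unitriangular group is self-normalizing. -/
theorem mem_uni_of_normalizing {g : SL} (h : ∀ u ∈ (uniSL : Subgroup SL), g * u * g⁻¹ ∈ uniSL) :
    g ∈ (uniSL : Subgroup SL) :=
  mem_uni_of_upper (isUpper_of_normalizing h)

/-- An element strictly decreasing the standard flag is unitriangular. -/
theorem mem_uni_of_flag {g : SL}
    (h : ∀ j : Fin n, ((g : Mat) - 1) *ᵥ Pi.single j 1 ∈ below n (j : ℕ)) : g ∈ uniSL := by
  have key : ∀ i j : Fin n, (j : ℕ) ≤ i → (g : Mat) i j = (1 : Mat) i j := fun i j hij => by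
    have := h j i hij
    rwa [Matrix.mulVec_single_one, Matrix.col_apply, Matrix.sub_apply, sub_eq_zero] at this
  exact ⟨fun i j hij => (key i j (Fin.le_def.1 hij.le)).trans (Matrix.one_apply_ne hij.ne'),
    fun i => (key i i le_rfl).trans (Matrix.one_apply_eq i)⟩

/-- If `g U g⁻¹` meets `U` trivially, the two flags are opposite. -/
theorem disjoint_flag {g : SL}
    (hg : ∀ u ∈ (uniSL : Subgroup SL), g * u * g⁻¹ ∈ (uniSL : Subgroup SL) → u = 1) {k : ℕ}
    (hk : k ≤ n) {v : Vec} (h1 : v ∈ below n (n - k))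
    (h2 : v ∈ (below n k).map (Matrix.toLin' (g : Mat))) : v = 0 := by
  by_contra hv
  set F := (below n k).map (Matrix.toLin' (g : Mat))
  have hinj : Function.Injective (Matrix.toLin' (g : Mat)) :=
    (Function.LeftInverse.injective (g := Matrix.toLin' ((g⁻¹ : SL) : Mat)) fun x => by
      rw [Matrix.toLin'_apply, Matrix.toLin'_apply, Matrix.mulVec_mulVec,
        ← Matrix.SpecialLinearGroup.coe_mul, inv_mul_cancel, Matrix.SpecialLinearGroup.coe_one,
        Matrix.one_mulVec])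
  have hF : finrank (ZMod 2) F = k := by
    rw [← (Submodule.equivMapOfInjective _ hinj _).finrank_eq, finrank_below hk]
  have hlt : below n (n - k) ⊔ F < ⊤ := by
    refine Submodule.lt_top_of_finrank_lt_finrank ?_
    have hsum := Submodule.finrank_sup_add_finrank_inf_eq (below n (n - k)) F
    rw [finrank_below (Nat.sub_le _ _), hF] at hsum
    have hpos : 0 < finrank (ZMod 2) ↥(below n (n - k) ⊓ F) :=
      Module.finrank_pos_iff_exists_ne_zero.2 ⟨⟨v, h1, h2⟩, fun e => hv (congrArg Subtype.val e)⟩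
    rw [finrank_fintype_fun_eq_card, Fintype.card_fin]
    omega
  obtain ⟨φ, hφ0, hφ⟩ := Submodule.exists_le_ker_of_lt_top _ hlt
  -- the transvection `1 + φ ⊗ v`
  let D : Mat := LinearMap.toMatrix' (φ.smulRight v)
  have hD : ∀ x, D *ᵥ x = φ x • v := fun x => by simp [D, LinearMap.toMatrix'_mulVec]
  have hφv : φ v = 0 := hφ (Submodule.mem_sup_left h1)
  have hD2 : D * D = 0 := Matrix.ext_of_mulVec_single fun i => by
    rw [← Matrix.mulVec_mulVec, hD, hD, Matrix.zero_mulVec]
    simp [hφv]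
  have hdet : (1 + D).det = 1 := eq_one_of_ne_zero fun h0 => by
    have hh : (1 + D) * (1 + D) = 1 := by
      have h' : D + D = 0 := by
        ext i j
        exact CharTwo.add_self_eq_zero _
      calc (1 + D) * (1 + D) = 1 + (D + D) + D * D := by noncomm_ring
        _ = 1 := by rw [h', hD2, add_zero, add_zero]
    have := congrArg Matrix.det hh
    rw [Matrix.det_mul, h0, zero_mul, Matrix.det_one] at this
    exact zero_ne_one this
  let t : SL := ⟨1 + D, hdet⟩
  let u : SL := g⁻¹ * t * g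
  have ht : t ∈ (uniSL : Subgroup SL) := mem_uni_of_flag fun j => by
    show (1 + D - 1) *ᵥ Pi.single j 1 ∈ below n (j : ℕ)
    rw [add_sub_cancel_left, hD]
    by_cases hj : n - k ≤ (j : ℕ)
    · exact fun i hi => by
        have := h1 i (hj.trans hi)
        simp [this]
    · have : φ (Pi.single j 1) = 0 := hφ (Submodule.mem_sup_left fun i hi => by
        rw [Pi.single_eq_of_ne]
        rintro rfl
        omega)
      rw [this, zero_smul]
      exact Submodule.zero_mem _
  obtain ⟨w, hw, hwv⟩ := h2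
  have hu : u ∈ (uniSL : Subgroup SL) := mem_uni_of_flag fun j => by
    have e : ((u : Mat) - 1) *ᵥ Pi.single j 1 = φ ((g : Mat) *ᵥ Pi.single j 1) • w := by
      rw [Matrix.sub_mulVec, Matrix.one_mulVec]
      show (((g⁻¹ : SL) : Mat) * (1 + D) * (g : Mat)) *ᵥ _ - _ = _
      rw [← Matrix.mulVec_mulVec, ← Matrix.mulVec_mulVec, Matrix.add_mulVec, Matrix.one_mulVec, hD,
        Matrix.mulVec_add, Matrix.mulVec_smul, ← hwv, Matrix.toLin'_apply, Matrix.mulVec_mulVec,
        Matrix.mulVec_mulVec, ← Matrix.SpecialLinearGroup.coe_mul, inv_mul_cancel,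
        Matrix.SpecialLinearGroup.coe_one, Matrix.one_mulVec, Matrix.one_mulVec, add_sub_cancel_left]
    rw [e]
    by_cases hj : k ≤ (j : ℕ)
    · exact fun i hi => by
        have := hw i (hj.trans hi)
        simp [this]
    · have : φ ((g : Mat) *ᵥ Pi.single j 1) = 0 := hφ (Submodule.mem_sup_right
        ⟨_, fun i hi => by
          rw [Pi.single_eq_of_ne]
          rintro rfl
          omega, Matrix.toLin'_apply _ _⟩)
      rw [this, zero_smul]
      exact Submodule.zero_mem _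
  have hu1 : u = 1 := hg u hu (by simpa [u, mul_assoc] using ht)
  have ht1 : t = 1 := by
    have : t = g * u * g⁻¹ := by simp [u, mul_assoc]
    rw [this, hu1]; simp
  have hD0 : D = 0 := by
    have := congrArg Subtype.val ht1
    simpa [t] using this
  apply hφ0
  refine LinearMap.ext fun x => ?_
  have := hD x
  rw [hD0, Matrix.zero_mulVec] at this
  exact (smul_eq_zero.1 this.symm).resolve_right hv

/-- The reversing permutation matrix. -/
def revSL (n : ℕ) : Matrix.SpecialLinearGroup (Fin n) (ZMod 2) :=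
  ⟨Fin.revPerm.permMatrix (ZMod 2), by
    rw [Matrix.det_permutation]
    rcases Int.units_eq_one_or (Equiv.Perm.sign (Fin.revPerm : Equiv.Perm (Fin n))) with h | h <;>
      rw [h] <;> decide⟩

/-- The big cell: `g ∈ U w U`. -/
theorem exists_mem_cell {g : SL}
    (hg : ∀ u ∈ (uniSL : Subgroup SL), g * u * g⁻¹ ∈ (uniSL : Subgroup SL) → u = 1) :
    ∃ u ∈ (uniSL : Subgroup SL), ∃ u' ∈ (uniSL : Subgroup SL), g = u * revSL n * u' := by
  classical
  have hinj : Function.Injective (Matrix.toLin' (g : Mat)) :=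
    (Function.LeftInverse.injective (g := Matrix.toLin' ((g⁻¹ : SL) : Mat)) fun x => by
      rw [Matrix.toLin'_apply, Matrix.toLin'_apply, Matrix.mulVec_mulVec,
        ← Matrix.SpecialLinearGroup.coe_mul, inv_mul_cancel, Matrix.SpecialLinearGroup.coe_one,
        Matrix.one_mulVec])
  have hex : ∀ j : Fin n, ∃ v : Vec, v ∈ below n ((j : ℕ) + 1) ∧
      v ∈ (below n (n - j)).map (Matrix.toLin' (g : Mat)) ∧ v j = 1 := by
    intro j
    set F := (below n (n - j)).map (Matrix.toLin' (g : Mat))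
    have hF : finrank (ZMod 2) F = n - j := by
      rw [← (Submodule.equivMapOfInjective _ hinj _).finrank_eq, finrank_below (Nat.sub_le _ _)]
    have hsum := Submodule.finrank_sup_add_finrank_inf_eq (below n ((j : ℕ) + 1)) F
    rw [finrank_below (by omega), hF] at hsum
    have hle : finrank (ZMod 2) ↥(below n ((j : ℕ) + 1) ⊔ F) ≤ n := by
      refine (Submodule.finrank_le _).trans ?_
      rw [finrank_fintype_fun_eq_card, Fintype.card_fin]
    obtain ⟨⟨v, hv1, hv2⟩, hv0⟩ := Module.finrank_pos_iff_exists_ne_zero.1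
      (show 0 < finrank (ZMod 2) ↥(below n ((j : ℕ) + 1) ⊓ F) by omega)
    refine ⟨v, hv1, hv2, eq_one_of_ne_zero fun h0 => hv0 (Subtype.ext ?_)⟩
    refine disjoint_flag hg (k := n - j) (Nat.sub_le _ _) (fun i hi => ?_) hv2
    rcases eq_or_ne i j with rfl | hij
    · exact h0
    · exact hv1 i (by have := Fin.val_ne_iff.2 hij; omega)
  choose v hv1 hv2 hv3 using hex
  let M : Mat := Matrix.of fun i j => v j i
  have hM : ∀ i j : Fin n, j < i → M i j = 0 := fun i j hij => hv1 j i (by omega)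
  have hdet : M.det = 1 := by
    rw [Matrix.det_of_upperTriangular (fun a b hab => hM a b hab)]
    exact Finset.prod_eq_one fun i _ => hv3 i
  let u : SL := ⟨M, hdet⟩
  have hu : u ∈ (uniSL : Subgroup SL) := ⟨fun i j hij => hM i j hij, fun i => hv3 i⟩
  refine ⟨u, hu, (revSL n)⁻¹ * (u⁻¹ * g), mem_uni_of_upper ?_, by simp [mul_assoc]⟩
  -- `(u⁻¹ g)⁻¹ revSL` is upper triangular
  have hA : IsUpper ((u⁻¹ * g)⁻¹ * revSL n) := by
    intro i j hij
    have hcol : ((g⁻¹ : SL) : Mat) *ᵥ v (Fin.revPerm.symm j) ∈ below n ((j : ℕ) + 1) := by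
      obtain ⟨w, hw, hwv⟩ := hv2 (Fin.revPerm.symm j)
      rw [← hwv, Matrix.toLin'_apply, Matrix.mulVec_mulVec, ← Matrix.SpecialLinearGroup.coe_mul,
        inv_mul_cancel, Matrix.SpecialLinearGroup.coe_one, Matrix.one_mulVec]
      intro l hl
      refine hw l ?_
      simp [Fin.revPerm, Fin.val_rev]
      omega
    have := hcol i (by omega)
    show ((((u⁻¹ * g)⁻¹ * revSL n : SL) : Mat)) i j = 0
    rw [_root_.mul_inv_rev, inv_inv, Matrix.SpecialLinearGroup.coe_mul, Matrix.SpecialLinearGroup.coe_mul]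
    show ((((g⁻¹ : SL) : Mat) * M) * (Fin.revPerm.permMatrix (ZMod 2) : Mat) : Mat) i j = 0
    rw [PEquiv.mul_toMatrix_toPEquiv, Matrix.submatrix_apply, id_eq, ← this]
    simp [Matrix.mul_apply, Matrix.mulVec, dotProduct, M]
  have : ((revSL n)⁻¹ * (u⁻¹ * g)) = ((u⁻¹ * g)⁻¹ * revSL n)⁻¹ := by simp [mul_assoc]
  rw [this]
  exact ((uniSL : Subgroup SL).inv_mem (mem_uni_of_upper hA)).1

/-- Conjugates of `U` meeting `U` trivially form one orbit under `U`. -/
theorem exists_conj_eq {g g' : SL}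
    (hg : ∀ u ∈ (uniSL : Subgroup SL), g * u * g⁻¹ ∈ (uniSL : Subgroup SL) → u = 1)
    (hg' : ∀ u ∈ (uniSL : Subgroup SL), g' * u * g'⁻¹ ∈ (uniSL : Subgroup SL) → u = 1) :
    ∃ u ∈ (uniSL : Subgroup SL), g'⁻¹ * u * g ∈ (uniSL : Subgroup SL) := by
  obtain ⟨a, ha, b, hb, rfl⟩ := exists_mem_cell hg
  obtain ⟨a', ha', b', hb', rfl⟩ := exists_mem_cell hg'
  refine ⟨a' * a⁻¹, mul_mem ha' (inv_mem ha), ?_⟩
  have e : (a' * revSL n * b')⁻¹ * (a' * a⁻¹) * (a * revSL n * b) = b'⁻¹ * b := by simp [mul_assoc]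
  rw [e]
  exact mul_mem (inv_mem hb') hb

theorem odd_index_uni : ¬ 2 ∣ (uniSL : Subgroup SL).index := by
  haveI : Fact (Nat.Prime 2) := ⟨Nat.prime_two⟩
  have hle : CfsgLib.Classical.Linear.upperUnitriSL n (ZMod 2) ≤ uniSL := fun g hg =>
    let hg' := CfsgLib.Classical.Linear.mem_upperUnitri.1 (Subgroup.mem_comap.1 hg)
    ⟨fun i j h => hg'.1 i j h, fun i => hg'.2 i⟩
  exact fun h => CfsgLib.Classical.Linear.not_dvd_index_upperUnitriSL (p := 2) (n := n) (F := ZMod 2)
    (h.trans (Subgroup.index_dvd_of_le hle))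

/-- In a group with a normal subgroup `SL_n(2)` of index two, two Sylow 2-subgroups never meet
trivially. -/
theorem inf_ne_bot {G : Type*} [Group G] [Finite G] (N : Subgroup G) [N.Normal]
    (e : N ≃* SL) (hidx : N.index = 2) (H : Sylow 2 G) (x : G) :
    (H : Subgroup G) ⊓ MulAut.conj x • (H : Subgroup G) ≠ ⊥ := by
  haveI : Fact (Nat.Prime 2) := ⟨Nat.prime_two⟩
  intro hbot
  set K : Sylow 2 G := x • H with hK
  have hKc : (K : Subgroup G) = MulAut.conj x • (H : Subgroup G) := Sylow.coe_subgroup_smul ..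
  rw [← hKc] at hbot
  have hUP : IsPGroup 2 ((uniSL : Subgroup SL).comap e.toMonoidHom) :=
    (isPGroup_uniSL 2).comap_of_injective _ e.injective
  have hUI : ¬ 2 ∣ ((uniSL : Subgroup SL).comap e.toMonoidHom).index := by
    rw [Subgroup.index_comap_of_surjective _ e.surjective]
    exact odd_index_uni
  let U : Sylow 2 N := hUP.toSylow hUI
  have hint : ∀ S : Sylow 2 G, ∃ a : N, ∀ y : N,
      (y : G) ∈ (S : Subgroup G) ↔ e (a⁻¹ * y * a) ∈ (uniSL : Subgroup SL) := by
    intro S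
    have hp : IsPGroup 2 ((S : Subgroup G).comap N.subtype) :=
      S.isPGroup'.comap_of_injective _ N.subtype_injective
    have hi : ¬ 2 ∣ ((S : Subgroup G).comap N.subtype).index := by
      rw [Subgroup.index_comap, Subgroup.range_subtype]
      intro h
      have e1 := Subgroup.relIndex_mul_index (inf_le_right : (S : Subgroup G) ⊓ N ≤ N)
      have e2 := Subgroup.relIndex_mul_index (inf_le_left : (S : Subgroup G) ⊓ N ≤ (S : Subgroup G))
      rw [Subgroup.inf_relIndex_right, hidx, ← e2, Subgroup.inf_relIndex_left] at e1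
      have h4 : 2 * 2 ∣ N.relIndex (S : Subgroup G) * (S : Subgroup G).index := by
        rw [← e1]; exact Nat.mul_dvd_mul h dvd_rfl
      have h2 : N.relIndex (S : Subgroup G) ∣ 2 := by
        have h' := N.relIndex_dvd_index_of_normal (S : Subgroup G)
        rwa [hidx] at h'
      refine S.not_dvd_index ?_
      exact Nat.dvd_of_mul_dvd_mul_left two_pos (h4.trans (Nat.mul_dvd_mul_right h2 _))
    obtain ⟨a, ha⟩ := MulAction.exists_smul_eq N U (hp.toSylow hi)
    refine ⟨a, fun y => ?_⟩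
    have h1 : y ∈ ((hp.toSylow hi : Sylow 2 N) : Subgroup N) ↔ (y : G) ∈ (S : Subgroup G) := Iff.rfl
    rw [← h1, ← ha, Sylow.coe_subgroup_smul, Subgroup.mem_pointwise_smul_iff_inv_smul_mem]
    simp only [MulAut.smul_def, MulAut.conj_inv_apply]
    rfl
  obtain ⟨a, ha⟩ := hint H
  obtain ⟨b, hb⟩ := hint K
  -- an element of `H` outside `N`
  obtain ⟨t₀, ht₀, ht₀N⟩ : ∃ t ∈ (H : Subgroup G), t ∉ N := by
    by_contra hne
    push Not at hne
    have := Subgroup.index_dvd_of_le (show (H : Subgroup G) ≤ N from hne)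
    rw [hidx] at this
    exact H.not_dvd_index this
  -- a conjugate of `K ∩ N` by `t₀` is again opposite to `H ∩ N`
  have hopp : ∀ (S : Sylow 2 G) (c : N), (∀ y : N, (y : G) ∈ (S : Subgroup G) ↔
      e (c⁻¹ * y * c) ∈ (uniSL : Subgroup SL)) → (∀ y : N, (y : G) ∈ (H : Subgroup G) →
      (y : G) ∈ (S : Subgroup G) → y = 1) → ∀ u ∈ (uniSL : Subgroup SL),
      e (a⁻¹ * c) * u * (e (a⁻¹ * c))⁻¹ ∈ (uniSL : Subgroup SL) → u = 1 := by
    intro S c hc hd u hu hu'
    have h1 : c * e.symm u * c⁻¹ = 1 := by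
      refine hd _ ((ha _).2 ?_) ((hc _).2 ?_)
      · simpa [mul_assoc] using hu'
      · simpa [mul_assoc] using hu
    have : e.symm u = 1 := by simpa using h1
    simpa using congrArg e this
  let t' : N → N := fun y => ⟨t₀ * y * t₀⁻¹, Subgroup.Normal.conj_mem inferInstance _ y.2 t₀⟩
  have hK' : ∀ y : N, (y : G) ∈ ((t₀ • K : Sylow 2 G) : Subgroup G) ↔ t₀⁻¹ * y * t₀ ∈ (K : Subgroup G) := by
    intro y
    rw [Sylow.coe_subgroup_smul, Subgroup.mem_pointwise_smul_iff_inv_smul_mem]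
    simp [MulAut.smul_def, MulAut.conj_inv_apply]
  obtain ⟨c, hc⟩ := hint (t₀ • K)
  have hdK : ∀ y : N, (y : G) ∈ (H : Subgroup G) → (y : G) ∈ (K : Subgroup G) → y = 1 := fun y h1 h2 =>
    Subtype.ext (Subgroup.mem_bot.1 (hbot.le ⟨h1, h2⟩))
  have hdK' : ∀ y : N, (y : G) ∈ (H : Subgroup G) →
      (y : G) ∈ ((t₀ • K : Sylow 2 G) : Subgroup G) → y = 1 := by
    intro y h1 h2
    have h0 : t₀⁻¹ * y * t₀ ∈ (H : Subgroup G) := mul_mem (mul_mem (inv_mem ht₀) h1) ht₀
    have : t₀⁻¹ * y * t₀ = 1 := Subgroup.mem_bot.1 (hbot.le ⟨h0, (hK' y).1 h2⟩)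
    refine Subtype.ext ?_
    have h' := congrArg (fun z => t₀ * z * t₀⁻¹) this
    simpa [mul_assoc] using h'
  obtain ⟨u, hu, hu'⟩ := exists_conj_eq (hopp K b hb hdK) (hopp _ c hc hdK')
  let w : N := a * e.symm u * a⁻¹
  have hw : (w : G) ∈ (H : Subgroup G) := (ha w).2 (by simpa [w, mul_assoc] using hu)
  -- `t := w⁻¹ t₀ ∈ H` normalizes `K ∩ N`
  set t : G := (w : G)⁻¹ * t₀
  have hv : e (c⁻¹ * w * b) ∈ (uniSL : Subgroup SL) := by
    have e1 : e (c⁻¹ * w * b) = (e (a⁻¹ * c))⁻¹ * u * e (a⁻¹ * b) := by simp [w, mul_assoc]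
    rw [e1]; exact hu'
  have hnorm : ∀ y : N, (y : G) ∈ (K : Subgroup G) → t * y * t⁻¹ ∈ (K : Subgroup G) := by
    intro y hy
    let y' : N := w⁻¹ * t' y * w
    have hy' : (y' : G) = t * y * t⁻¹ := by
      show (w : G)⁻¹ * (t₀ * y * t₀⁻¹) * w = _
      simp [t, mul_assoc]
    rw [← hy']
    refine (hb y').2 ?_
    have h1 : (t' y : G) ∈ ((t₀ • K : Sylow 2 G) : Subgroup G) := (hK' _).2 (by
      show t₀⁻¹ * (t₀ * y * t₀⁻¹) * t₀ ∈ _
      simpa [mul_assoc] using hy)
    have h2 := (hc _).1 h1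
    have e2 : e (b⁻¹ * y' * b) = (e (c⁻¹ * w * b))⁻¹ * e (c⁻¹ * t' y * c) * e (c⁻¹ * w * b) := by
      simp [y', mul_assoc]
    rw [e2]
    exact mul_mem (mul_mem (inv_mem hv) h2) hv
  let A : Subgroup G := (K : Subgroup G) ⊓ N
  have htH : t ∈ (H : Subgroup G) := mul_mem (inv_mem hw) ht₀
  have htA : t ∈ Subgroup.normalizer (A : Set G) := by
    rw [Subgroup.mem_normalizer_iff]
    intro z
    have hfwd : ∀ z, z ∈ A → t * z * t⁻¹ ∈ A := fun z hz =>
      ⟨hnorm ⟨z, hz.2⟩ hz.1, Subgroup.Normal.conj_mem inferInstance _ hz.2 t⟩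
    refine ⟨hfwd z, fun hz => ?_⟩
    -- `A` is finite
    have hmap : A.map (MulAut.conj t).toMonoidHom = A := by
      refine Subgroup.eq_of_le_of_card_ge ?_ ?_
      · rintro _ ⟨y, hy, rfl⟩; exact hfwd y hy
      · rw [Subgroup.card_map_of_injective (MulAut.conj t).injective]
    rw [← hmap] at hz
    obtain ⟨y, hy, hyz⟩ := hz
    have : y = z := (MulAut.conj t).injective hyz
    exact this ▸ hy
  have hKA : (K : Subgroup G) ≤ Subgroup.normalizer (A : Set G) := by
    intro z hz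
    rw [Subgroup.mem_normalizer_iff]
    intro y
    refine ⟨fun hy => ?_, fun hy => ?_⟩
    · have h1 : z * y * z⁻¹ ∈ (K : Subgroup G) := mul_mem (mul_mem hz hy.1) (inv_mem hz)
      exact ⟨h1, Subgroup.Normal.conj_mem inferInstance _ hy.2 z⟩
    have h1 := mul_mem (mul_mem (inv_mem hz) hy.1) hz
    have h2 := Subgroup.Normal.conj_mem inferInstance _ hy.2 z⁻¹
    simp only [inv_inv] at h2
    have e3 : z⁻¹ * (z * y * z⁻¹) * z = y := by simp [mul_assoc]
    rw [e3] at h1 h2
    exact ⟨h1, h2⟩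
  have hNA : Subgroup.normalizer (A : Set G) ⊓ N ≤ A := by
    rintro z ⟨hz, hzN⟩
    refine ⟨?_, hzN⟩
    show ((⟨z, hzN⟩ : N) : G) ∈ (K : Subgroup G)
    refine (hb ⟨z, hzN⟩).2 (mem_uni_of_normalizing fun u hu => ?_)
    let y : N := b * e.symm u * b⁻¹
    have hy : (y : G) ∈ (K : Subgroup G) := (hb y).2 (by simpa [y, mul_assoc] using hu)
    have h1 : z * y * z⁻¹ ∈ A := (Subgroup.mem_normalizer_iff.1 hz _).1 ⟨hy, y.2⟩
    have h2 := (hb (⟨z, hzN⟩ * y * ⟨z, hzN⟩⁻¹)).1 h1.1
    simpa [y, mul_assoc] using h2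
  obtain ⟨k, hk, hkN⟩ : ∃ t ∈ (K : Subgroup G), t ∉ N := by
    by_contra hne
    push Not at hne
    have := Subgroup.index_dvd_of_le (show (K : Subgroup G) ≤ N from hne)
    rw [hidx] at this
    exact K.not_dvd_index this
  have htN : t ∉ N := fun h => ht₀N (by
    have := mul_mem w.2 h
    simpa [t] using this)
  have hmem : k⁻¹ * t ∈ Subgroup.normalizer (A : Set G) ⊓ N := by
    refine Subgroup.mem_inf.2 ⟨mul_mem (inv_mem (hKA hk)) htA, ?_⟩
    rw [Subgroup.mul_mem_iff_of_index_two hidx, inv_mem_iff]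
    exact iff_of_false hkN htN
  have htK : t ∈ (K : Subgroup G) := by
    have := mul_mem hk (hNA hmem).1
    simpa using this
  have ht1 : t = 1 := Subgroup.mem_bot.1 (hbot.le ⟨htH, htK⟩)
  exact htN (ht1 ▸ one_mem N)

end CfsgLib.SymSylow.Opposite
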