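import Mathlib
import Cfsg.Agent.SymSylow.NormalRank
import Cfsg.Agent.SymSylow.BlockMonomial

/-!
Derived length of monomial groups and of Sylow subgroups of symmetric groups.
-/

set_option autoImplicit false

universe u v

namespace CfsgLib.SymSylow.DLen

open Equiv CfsgLib.SymSylow.SqDer CfsgLib.SymSylow.NRank

section Generic

variable {G : Type*} [Group G]

theorem derived_map_le_of_le_one {K : Subgroup G} (hK : K ≤ derivedSeries G 1) :
    ∀ k, (derivedSeries K k).map K.subtype ≤ derivedSeries G (k + 1)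
  | 0 => (Subgroup.map_subtype_le _).trans hK
  | k + 1 => by
    rw [derivedSeries_succ, derivedSeries_succ G (k + 1), Subgroup.map_commutator]
    exact Subgroup.commutator_mono (derived_map_le_of_le_one hK k) (derived_map_le_of_le_one hK k)

theorem derived_add_le {K : Subgroup G} {j : ℕ} (hK : derivedSeries G j ≤ K) :
    ∀ i, derivedSeries G (j + i) ≤ (derivedSeries K i).map K.subtype
  | 0 => by
    rw [add_zero, derivedSeries_zero, ← MonoidHom.range_eq_map, Subgroup.range_subtype]
    exact hK
  | i + 1 => by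
    rw [← add_assoc, derivedSeries_succ, derivedSeries_succ K i, Subgroup.map_commutator]
    exact Subgroup.commutator_mono (derived_add_le hK i) (derived_add_le hK i)

theorem derived_eq_bot_of_injective {H : Type*} [Group H] (f : G →* H) (hf : Function.Injective f)
    {i : ℕ} (h : derivedSeries H i = ⊥) : derivedSeries G i = ⊥ :=
  Subgroup.map_eq_bot_iff_of_injective _ hf |>.1
    (le_bot_iff.1 ((map_derivedSeries_le_derivedSeries f i).trans h.le))

theorem derived_ne_bot_of_injective {H : Type*} [Group H] (f : G →* H) (hf : Function.Injective f)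
    {i : ℕ} (h : derivedSeries G i ≠ ⊥) : derivedSeries H i ≠ ⊥ :=
  fun e => h (derived_eq_bot_of_injective f hf e)

theorem derived_eq_bot_of_surjective {H : Type*} [Group H] (f : G →* H)
    (hf : Function.Surjective f) {i : ℕ} (h : derivedSeries G i = ⊥) : derivedSeries H i = ⊥ := by
  rw [← map_derivedSeries_eq hf i, h, Subgroup.map_bot]

theorem derived_pi_eq_bot {ι : Type*} {A : Type*} [Group A] (W : Subgroup A) {i : ℕ}
    (h : derivedSeries W i = ⊥) :
    derivedSeries (Subgroup.pi Set.univ fun _ : ι => W) i = ⊥ := by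
  refine eq_bot_iff.2 fun x hx => Subgroup.mem_bot.2 (Subtype.ext (funext fun l => ?_))
  let ev : (Subgroup.pi Set.univ fun _ : ι => W) →* W :=
    MonoidHom.codRestrict ((Pi.evalMonoidHom (fun _ => A) l).comp (Subgroup.subtype _)) _
      (fun a => a.2 l trivial)
  have h' := map_derivedSeries_le_derivedSeries ev i (Subgroup.mem_map_of_mem ev hx)
  rw [h, Subgroup.mem_bot] at h'
  exact congrArg Subtype.val h'

/-- Derived length grows by one in a regular wreath product. -/
theorem derived_wreath_ne_bot {A C : Type*} [Group A] [Group C] [Nontrivial C] {k : ℕ}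
    (h : derivedSeries A k ≠ ⊥) : derivedSeries (A ≀ᵣ C) (k + 1) ≠ ⊥ := by
  classical
  let K : Subgroup (A ≀ᵣ C) := derivedSeries (A ≀ᵣ C) 1 ⊓ RegularWreathProduct.rightHom.ker
  obtain ⟨c, hc⟩ := exists_ne (1 : C)
  let ev : K →* A :=
    { toFun := fun x => x.1.left 1
      map_one' := rfl
      map_mul' := fun x y => by
        have hx : x.1.right = 1 := x.2.2
        simp [hx] }
  have hev : Function.Surjective ev := by
    intro a
    let s : A ≀ᵣ C := ⟨Pi.mulSingle 1 a, 1⟩
    let t : A ≀ᵣ C := RegularWreathProduct.inl c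
    have hmem : s * t * s⁻¹ * t⁻¹ ∈ K := by
      refine ⟨?_, ?_⟩
      · rw [derivedSeries_one, commutator_def, ← commutatorElement_def]
        exact Subgroup.commutator_mem_commutator (Subgroup.mem_top _) (Subgroup.mem_top _)
      · show (s * t * s⁻¹ * t⁻¹).right = 1
        simp [s, t]
    refine ⟨⟨_, hmem⟩, ?_⟩
    show (s * t * s⁻¹ * t⁻¹).left 1 = a
    simp [s, t, Pi.mulSingle_eq_of_ne hc, Pi.mulSingle_eq_of_ne (inv_ne_one.2 hc)]
  intro hbot
  apply h
  have h1 : derivedSeries K k = ⊥ := by
    refine (Subgroup.map_eq_bot_iff_of_injective _ K.subtype_injective).1 (le_bot_iff.1 ?_)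
    exact (derived_map_le_of_le_one inf_le_left k).trans hbot.le
  exact derived_eq_bot_of_surjective ev hev h1

end Generic

/-- In a monomial group the derived length adds up. -/
theorem derived_monoSub_eq_bot {G : Type*} [Group G] {ι : Type*} {A : Type*} [Group A]
    {φ : (ι → A) →* G} {ψ : Perm ι →* G} (hc : Compat φ ψ)
    (hinj : ∀ a σ, φ a * ψ σ = 1 → a = 1 ∧ σ = 1) {W : Subgroup A} {C : Subgroup (Perm ι)}
    {i j : ℕ} (hW : derivedSeries W i = ⊥) (hC : derivedSeries C j = ⊥) :
    derivedSeries (monoSub φ ψ hc (stable_pi W C)) (j + i) = ⊥ := by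
  let M := monoSub φ ψ hc (stable_pi W C)
  have hex : ∀ g : M, ∃ σ : C, ∃ a ∈ Subgroup.pi Set.univ (fun _ : ι => W),
      (g : G) = φ a * ψ (σ : Perm ι) := by
    rintro ⟨g, a, ha, σ, hσ, rfl⟩
    exact ⟨⟨σ, hσ⟩, a, ha, rfl⟩
  have huniq : ∀ a b σ τ, φ a * ψ σ = φ b * ψ τ → a = b ∧ σ = τ := by
    intro a b σ τ h
    have h1 : φ (b⁻¹ * a) * ψ (σ * τ⁻¹) = 1 := by
      rw [map_mul, map_mul, map_inv, map_inv, mul_assoc, ← mul_assoc (φ a), h]
      simp
    obtain ⟨e1, e2⟩ := hinj _ _ h1
    exact ⟨(inv_mul_eq_one.1 e1).symm, mul_inv_eq_one.1 e2⟩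
  choose π α hα hπ using hex
  let f : M →* C :=
    MonoidHom.mk' π fun g h => by
      have e : φ (α (g * h)) * ψ (π (g * h) : Perm ι) =
          φ (α g * fun l => α h ((π g : Perm ι).symm l)) * ψ ((π g : Perm ι) * (π h : Perm ι)) := by
        rw [← hπ, Subgroup.coe_mul, hπ g, hπ h, map_mul, map_mul, mul_assoc,
          ← mul_assoc (ψ (π g : Perm ι)), hc]
        simp [mul_assoc]
      exact Subtype.ext (huniq _ _ _ _ e).2
  let bas : (Subgroup.pi Set.univ fun _ : ι => W) →* M :=
    MonoidHom.codRestrict (φ.comp (Subgroup.subtype _)) _ fun a => base_mem hc _ a.2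
  have hj : derivedSeries M j ≤ bas.range := by
    intro g hg
    have h1 := map_derivedSeries_le_derivedSeries f j (Subgroup.mem_map_of_mem f hg)
    rw [hC, Subgroup.mem_bot] at h1
    refine ⟨⟨α g, hα g⟩, Subtype.ext ?_⟩
    show φ (α g) = g
    rw [hπ g, show (π g : Perm ι) = 1 from congrArg Subtype.val h1, map_one, mul_one]
  refine le_bot_iff.1 ((derived_add_le hj i).trans ?_)
  rw [derived_eq_bot_of_surjective bas.rangeRestrict bas.rangeRestrict_surjective
    (derived_pi_eq_bot W hW), Subgroup.map_bot]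

section Perm

open CfsgLib.SymSylow.Mono

variable {p : ℕ} [hp : Fact p.Prime] {I R : Type*}

theorem wr_derived_eq_bot (P : Subgroup (Perm I)) {j : ℕ} (hP : derivedSeries P j = ⊥) :
    derivedSeries (wr (R := R) (p := p) P) (j + 1) = ⊥ := by
  let φ : (I → Multiplicative (ZMod p)) →* Perm (I × ZMod p ⊕ R) :=
    MonoidHom.mk' (fun a => mo 1 1 (fun i => (a i).toAdd)) fun a b => (mo_trans_mul _ _).symm
  have hc : Compat φ (permHom (R := R) (p := p)) := by
    intro σ a
    show mo σ 1 0 * mo 1 1 (fun i => (a i).toAdd) =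
      mo 1 1 (fun i => (a (σ.symm i)).toAdd) * mo σ 1 0
    rw [mo_one_one_mul, mo_one_one_mul]
    refine ext_inl (fun i y => ?_) fun r => rfl
    simp
  have hinj : ∀ a σ, φ a * permHom (R := R) (p := p) σ = 1 → a = 1 ∧ σ = 1 := by
    intro a σ h
    change mo 1 1 (fun i => (a i).toAdd) * mo σ 1 0 = 1 at h
    rw [mo_one_one_mul, ← mo_one (I := I) (R := R) (p := p)] at h
    obtain ⟨h1, h2⟩ := mo_inj h
    rw [one_mul] at h1
    subst h1
    refine ⟨funext fun i => Multiplicative.toAdd.injective ?_, rfl⟩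
    simpa using congrFun h2 i
  have hle : wr (R := R) (p := p) P ≤
      monoSub φ (permHom (R := R) (p := p)) hc (stable_pi ⊤ P) := by
    intro g hg
    obtain ⟨π, hπ, b, rfl⟩ := mem_wr.1 hg
    refine ⟨fun i => Multiplicative.ofAdd (b (π⁻¹ i)), fun i _ => Subgroup.mem_top _, π, hπ, ?_⟩
    show mo π 1 b = mo 1 1 (fun i => (Multiplicative.ofAdd (b (π⁻¹ i))).toAdd) * mo π 1 0
    rw [mo_one_one_mul]
    refine ext_inl (fun i y => ?_) fun r => rfl
    simp
  have htop : derivedSeries (⊤ : Subgroup (Multiplicative (ZMod p))) 1 = ⊥ := by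
    rw [derivedSeries_one, commutator_eq_bot_iff]
    exact ⟨⟨fun a b => mul_comm a b⟩⟩
  exact derived_eq_bot_of_injective (Subgroup.inclusion hle) (Subgroup.inclusion_injective hle)
    (derived_monoSub_eq_bot hc hinj htop hP)

theorem derived_sylow_perm (p : ℕ) [Fact p.Prime] :
    ∀ {Ω : Type} [Fintype Ω] [DecidableEq Ω] (Q : Sylow p (Perm Ω)),
      derivedSeries (Q : Subgroup (Perm Ω)) (Nat.log p (Fintype.card Ω)) = ⊥ := by
  intro Ω _ _
  induction hn : Fintype.card Ω using Nat.strong_induction_on generalizing Ω with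
  | _ n ih =>
    intro Q
    have hp : p.Prime := Fact.out
    rcases Nat.lt_or_ge n p with hlt | hge
    · have hcard : Nat.card (Q : Subgroup (Perm Ω)) = 1 := by
        rw [Q.card_eq_multiplicity, Nat.card_perm, Nat.card_eq_fintype_card, hn,
          Nat.factorization_eq_zero_of_not_dvd (fun h => by
            have := hp.dvd_factorial.1 h
            omega), pow_zero]
      rw [Nat.log_of_lt hlt, derivedSeries_zero]
      have := (Nat.card_eq_one_iff_unique.1 hcard).1
      exact Subsingleton.elim _ _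
    · obtain ⟨e⟩ := exists_equiv_model p Ω
      have hlt' : Fintype.card (Fin (Nat.card Ω / p)) < n := by
        rw [Fintype.card_fin, Nat.card_eq_fintype_card, hn]
        exact Nat.div_lt_self (by have := hp.pos; omega) hp.one_lt
      obtain ⟨P⟩ := (inferInstance : Nonempty (Sylow p (Perm (Fin (Nat.card Ω / p)))))
      obtain ⟨e', he'⟩ := exists_equiv_wr
        (by rw [Fintype.card_fin]; exact Nat.mod_lt _ hp.pos) e P Q
      have hP : derivedSeries (P : Subgroup (Perm (Fin (Nat.card Ω / p)))) (Nat.log p (n / p)) = ⊥ := by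
        convert ih _ hlt' rfl P using 3
        rw [Fintype.card_fin, Nat.card_eq_fintype_card, hn]
      rw [he', Nat.log_of_one_lt_of_le hp.one_lt hge]
      refine derived_eq_bot_of_surjective (MonoidHom.subgroupMap _ _)
        (MonoidHom.subgroupMap_surjective _ _) (wr_derived_eq_bot _ hP)

end Perm

section Lower

variable (p : ℕ) [hp : Fact p.Prime]

/-- A monomial group over `A` on at least `p ^ j` points contains a `p`-subgroup of derived length
exceeding `k + j`. -/
theorem exists_pgroup_derived_ne_bot :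
    ∀ (j : ℕ) {A : Type u} [Group A] [Finite A], IsPGroup p A → ∀ {k : ℕ}, derivedSeries A k ≠ ⊥ →
      ∀ {ι : Type} [Fintype ι] [DecidableEq ι] {G : Type v} [Group G] (φ : (ι → A) →* G)
        (ψ : Perm ι →* G), Compat φ ψ → (∀ a σ, φ a * ψ σ = 1 → a = 1 ∧ σ = 1) →
        p ^ j ≤ Fintype.card ι → ∃ H : Subgroup G, IsPGroup p H ∧ derivedSeries H (k + j) ≠ ⊥ := by
  intro j
  induction j with
  | zero =>
    intro A _ _ hA k hk ι _ _ G _ φ ψ hc hinj hι
    obtain ⟨i⟩ : Nonempty ι := Fintype.card_pos_iff.1 (lt_of_lt_of_le (pow_pos hp.out.pos 0) hι)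
    let f : A →* G := φ.comp (MonoidHom.mulSingle (fun _ : ι => A) i)
    have hf : Function.Injective f := by
      intro x y h
      have h' : φ ((Pi.mulSingle i y : ι → A)⁻¹ * Pi.mulSingle i x) * ψ 1 = 1 := by
        rw [map_one, mul_one, map_mul, map_inv]
        exact inv_mul_eq_one.2 h.symm
      have := inv_mul_eq_one.1 (hinj _ _ h').1
      exact (Pi.mulSingle_injective i this).symm
    exact ⟨f.range, hA.of_equiv (MonoidHom.ofInjective hf),
      derived_ne_bot_of_injective (MonoidHom.ofInjective hf).toMonoidHom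
        (MonoidHom.ofInjective hf).injective (by rwa [add_zero])⟩
  | succ j ih =>
    intro A _ _ hA k hk ι _ _ G _ φ ψ hc hinj hι
    have hp' : p.Prime := hp.out
    haveI : NeZero p := ⟨hp'.ne_zero⟩
    haveI : Fact (1 < p) := ⟨hp'.one_lt⟩
    let C : Type := Multiplicative (ZMod p)
    let ι' : Type := Fin (p ^ j)
    have hcard : Fintype.card (ι' × C) ≤ Fintype.card ι := by
      rw [Fintype.card_prod, Fintype.card_fin, Fintype.card_multiplicative, ZMod.card, ← pow_succ]
      exact hι
    obtain ⟨e⟩ := Function.Embedding.nonempty_of_card_le hcard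
    have hA' : IsPGroup p (A ≀ᵣ C) := by
      obtain ⟨a, ha⟩ := IsPGroup.iff_card.1 hA
      refine IsPGroup.of_card (n := a * p + 1) ?_
      rw [RegularWreathProduct.card, ha, Nat.card_eq_fintype_card (α := C),
        Fintype.card_multiplicative, ZMod.card, ← pow_mul, pow_succ]
    let R : (ι' → A ≀ᵣ C) → Perm (ι' × C) := fun f =>
      Equiv.prodShear (Equiv.refl _) (fun i => Equiv.mulLeft (f i).right)
    let L : (ι' → A ≀ᵣ C) → ι → A := fun f =>
      Function.extend e (fun x => (f x.1).left x.2) 1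
    let E : Perm (ι' × C) →* Perm ι := Perm.viaEmbeddingHom e
    have hEe : ∀ (σ : Perm (ι' × C)) x, E σ (e x) = e (σ x) := fun σ x =>
      Perm.viaEmbedding_apply σ e x
    have hEn : ∀ (σ : Perm (ι' × C)) l, l ∉ Set.range e → E σ l = l := fun σ l hl =>
      Perm.viaEmbedding_apply_of_notMem σ e l hl
    have hLe : ∀ f x, L f (e x) = (f x.1).left x.2 := fun f x => e.injective.extend_apply _ _ x
    have hLn : ∀ f l, l ∉ Set.range e → L f l = 1 := fun f l hl =>
      Function.extend_apply' _ _ _ hl
    have hLshift : ∀ (σ : Perm (ι' × C)) f l, L f ((E σ).symm l) =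
        Function.extend e (fun x => (f (σ.symm x).1).left (σ.symm x).2) 1 l := by
      intro σ f l
      by_cases hl : l ∈ Set.range e
      · obtain ⟨x, rfl⟩ := hl
        rw [e.injective.extend_apply, show (E σ).symm (e x) = e (σ.symm x) from
          (E σ).symm_apply_eq.2 (by rw [hEe, Equiv.apply_symm_apply]), hLe]
      · rw [show (E σ).symm l = l from (E σ).symm_apply_eq.2 (hEn σ l hl).symm, hLn f l hl,
          Function.extend_apply' _ _ _ hl]
        rfl
    let φ' : (ι' → A ≀ᵣ C) →* G := MonoidHom.mk' (fun f => φ (L f) * ψ (E (R f))) fun f g => by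
      have h1 : E (R (f * g)) = E (R f) * E (R g) := by
        rw [← map_mul]
        congr 1
        refine Equiv.ext fun x => ?_
        simp [R, mul_assoc]
      have h2 : L (f * g) = L f * fun l => L g ((E (R f)).symm l) := by
        funext l
        rw [Pi.mul_apply, hLshift]
        by_cases hl : l ∈ Set.range e
        · obtain ⟨x, rfl⟩ := hl
          rw [hLe, hLe, e.injective.extend_apply]
          simp [R]
        · rw [hLn _ l hl, hLn _ l hl, Function.extend_apply' _ _ _ hl]
          simp
      rw [h1, h2, map_mul, map_mul, mul_assoc, mul_assoc, ← mul_assoc (ψ (E (R f))), hc]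
      simp [mul_assoc]
    let ψ' : Perm ι' →* G := (ψ.comp E).comp
      ((MonoidHom.mk' (fun σ => Equiv.prodCongr σ (Equiv.refl C)) fun σ τ => rfl :
        Perm ι' →* Perm (ι' × C)))
    have hc' : Compat φ' ψ' := by
      intro σ f
      show ψ (E (Equiv.prodCongr σ (Equiv.refl C))) * (φ (L f) * ψ (E (R f))) =
        φ (L fun i => f (σ.symm i)) * ψ (E (R fun i => f (σ.symm i))) *
          ψ (E (Equiv.prodCongr σ (Equiv.refl C)))
      rw [← mul_assoc, hc, mul_assoc, mul_assoc, ← map_mul, ← map_mul, ← map_mul, ← map_mul]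
      congr 1
      · congr 1
        funext l
        rw [hLshift]
        rfl
      · congr 2
        refine Equiv.ext fun x => ?_
        simp [R]
    have hinj' : ∀ f σ, φ' f * ψ' σ = 1 → f = 1 ∧ σ = 1 := by
      intro f σ h
      change φ (L f) * ψ (E (R f)) * ψ (E (Equiv.prodCongr σ (Equiv.refl C))) = 1 at h
      rw [mul_assoc, ← map_mul, ← map_mul] at h
      obtain ⟨h1, h2⟩ := hinj _ _ h
      have h2' : R f * Equiv.prodCongr σ (Equiv.refl C) = 1 :=
        Perm.viaEmbeddingHom_injective e (h2.trans (map_one E).symm)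
      have hσ : σ = 1 := Equiv.ext fun i => by
        have := congrArg Prod.fst (Equiv.ext_iff.1 h2' (i, 1))
        simpa [R] using this
      refine ⟨funext fun i => RegularWreathProduct.ext (funext fun c => ?_) ?_, hσ⟩
      · have := congrFun h1 (e (i, c))
        rw [hLe] at this
        exact this
      · subst hσ
        have := congrArg Prod.snd (Equiv.ext_iff.1 h2' (i, 1))
        simpa [R] using this
    have key := ih hA' (derived_wreath_ne_bot (C := C) hk) φ' ψ' hc' hinj'
      (by rw [Fintype.card_fin])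
    rwa [show k + 1 + j = k + (j + 1) from by omega] at key

end Lower

/-- Sylow subgroups of derived length exactly `k + j + 1`. -/
theorem sylow_derived_length {p : ℕ} [Fact p.Prime] {G : Type v} [Group G] [Finite G]
    {A : Type u} [Group A] [Finite A] {m : ℕ} {φ : (Fin m → A) →* G} {ψ : Perm (Fin m) →* G}
    (hc : Compat φ ψ) (hinj : ∀ a σ, φ a * ψ σ = 1 → a = 1 ∧ σ = 1) (hm : m ≠ 0) (W : Subgroup A)
    (hW : IsPGroup p W) {k : ℕ} (hk : derivedSeries W k ≠ ⊥) (hk' : derivedSeries W (k + 1) = ⊥)
    (C : Sylow p (Perm (Fin m)))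
    (hcard : Nat.card (monoSub φ ψ hc (stable_pi W (C : Subgroup (Perm (Fin m))))) =
      p ^ (Nat.card G).factorization p) (P : Sylow p G) :
    derivedSeries (P : Subgroup G) (Nat.log p m + k + 1) = ⊥ ∧
      derivedSeries (P : Subgroup G) (Nat.log p m + k) ≠ ⊥ := by
  constructor
  · refine derived_eq_bot_of_surjective (((Sylow.ofCard _ hcard).equiv P)).toMonoidHom
      ((Sylow.ofCard _ hcard).equiv P).surjective ?_
    show derivedSeries (monoSub φ ψ hc (stable_pi W (C : Subgroup (Perm (Fin m))))) _ = ⊥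
    rw [add_assoc]
    have := derived_sylow_perm p C
    rw [Fintype.card_fin] at this
    exact derived_monoSub_eq_bot hc hinj hk' this
  · have hinj' : ∀ (a : Fin m → W) σ, (φ.comp (W.subtype.compLeft (Fin m))) a * ψ σ = 1 →
        a = 1 ∧ σ = 1 := fun a σ h => by
      obtain ⟨h1, h2⟩ := hinj _ σ h
      exact ⟨funext fun i => Subtype.ext (congrFun h1 i), h2⟩
    obtain ⟨H, hH, hne⟩ := exists_pgroup_derived_ne_bot p (Nat.log p m) hW hk
      (φ.comp (W.subtype.compLeft (Fin m))) ψ (fun σ a => hc σ _) hinj'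
      (by rw [Fintype.card_fin]; exact Nat.pow_log_le_self p hm)
    obtain ⟨Q, hQ⟩ := hH.exists_le_sylow
    rw [add_comm]
    exact derived_ne_bot_of_injective
      (((Q.equiv P).toMonoidHom).comp (Subgroup.inclusion hQ))
      ((Q.equiv P).injective.comp (Subgroup.inclusion_injective hQ)) hne

end CfsgLib.SymSylow.DLen
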