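import Mathlib
import Cfsg.Agent.SymSylow.SympTwo
import Cfsg.Agent.SymSylow.DerivedLength

/-!
Derived length of a Sylow 2-subgroup of `Sp_{2n}(q)`, `q` odd.
-/

set_option autoImplicit false

namespace CfsgLib.SymSylow.SympTwo

open CfsgLib.SymSylow.SqDer CfsgLib.SymSylow.NRank CfsgLib.SymSylow.DLen CfsgLib.SymSylow.BlockMono

theorem quaternion_derived {k : ℕ} (hk : 1 ≤ k) :
    derivedSeries (QuaternionGroup (2 ^ k)) 1 ≠ ⊥ ∧ derivedSeries (QuaternionGroup (2 ^ k)) 2 = ⊥ := by
  haveI : NeZero (2 * 2 ^ k) := ⟨by positivity⟩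
  constructor
  · rw [derivedSeries_one, Ne, commutator_eq_bot_iff]
    intro h
    have h' := h.is_comm.comm (QuaternionGroup.a (1 : ZMod (2 * 2 ^ k))) (QuaternionGroup.xa 0)
    simp only [QuaternionGroup.a_mul_xa, QuaternionGroup.xa_mul_a, zero_sub, zero_add,
      QuaternionGroup.xa.injEq] at h'
    have h2 : ((2 : ℕ) : ZMod (2 * 2 ^ k)) = 0 := by
      push_cast
      linear_combination -h'
    rw [ZMod.natCast_eq_zero_iff] at h2
    have := Nat.le_of_dvd (by norm_num) h2
    have : 2 ^ 1 ≤ 2 ^ k := Nat.pow_le_pow_right (by norm_num) hk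
    omega
  · let f : QuaternionGroup (2 ^ k) →* Multiplicative (ZMod 2) :=
      MonoidHom.mk' (fun g => match g with
        | .a _ => Multiplicative.ofAdd 0
        | .xa _ => Multiplicative.ofAdd 1) (by
          rintro (i | i) (j | j) <;>
            simp only [QuaternionGroup.a_mul_a, QuaternionGroup.a_mul_xa, QuaternionGroup.xa_mul_a,
              QuaternionGroup.xa_mul_xa] <;> decide)
    let Z : Subgroup (QuaternionGroup (2 ^ k)) := Subgroup.zpowers (QuaternionGroup.a 1)
    have hle : derivedSeries (QuaternionGroup (2 ^ k)) 1 ≤ Z := by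
      refine fun g hg => ?_
      rw [derivedSeries_one] at hg
      have := Abelianization.commutator_subset_ker f hg
      cases g with
      | a i => exact ⟨(i.val : ℤ), by
        show QuaternionGroup.a (1 : ZMod (2 * 2 ^ k)) ^ ((i.val : ℕ) : ℤ) = _
        rw [zpow_natCast, QuaternionGroup.a_one_pow, ZMod.natCast_zmod_val]⟩
      | xa i => exact absurd this (by show Multiplicative.ofAdd (1 : ZMod 2) ≠ 1; decide)
    refine le_bot_iff.1 ((derived_add_le hle 1).trans ?_)
    rw [derivedSeries_one, (commutator_eq_bot_iff _).2 (inferInstanceAs (IsMulCommutative Z)), Subgroup.map_bot]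

variable {F : Type*} [Field F] [Fintype F]

theorem derived_length (hodd : Odd (Fintype.card F)) (n : ℕ) (hn : 1 ≤ n)
    (R : Sylow 2 (Matrix.symplecticGroup (Fin n) F)) :
    derivedSeries (R : Subgroup (Matrix.symplecticGroup (Fin n) F)) (Nat.log 2 (2 * n) + 1) = ⊥ ∧
      derivedSeries (R : Subgroup (Matrix.symplecticGroup (Fin n) F)) (Nat.log 2 (2 * n)) ≠ ⊥ := by
  classical
  haveI : Fact (Nat.Prime 2) := ⟨Nat.prime_two⟩
  have h2 : (2 : F) ≠ 0 := CfsgLib.SL2.two_ne_zero_iff_odd.2 hodd
  obtain ⟨W⟩ := (inferInstance : Nonempty (Sylow 2 (Matrix.SpecialLinearGroup (Fin 2) F)))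
  obtain ⟨C⟩ := (inferInstance : Nonempty (Sylow 2 (Equiv.Perm (Fin n))))
  obtain ⟨k, hk, ⟨e⟩⟩ := CfsgLib.SL2.sylow_two_quaternion h2 W
  obtain ⟨hq1, hq2⟩ := quaternion_derived hk
  rw [show Nat.log 2 (2 * n) = Nat.log 2 n + 1 from by
    rw [mul_comm, Nat.log_mul_base (by norm_num) (by omega)]]
  refine sylow_derived_length compat injective (by omega) (W : Subgroup _) W.isPGroup'
    (fun h => hq1 (derived_eq_bot_of_surjective e.toMonoidHom e.surjective h))
    (derived_eq_bot_of_injective e.toMonoidHom e.injective hq2) C ?_ R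
  rw [card_monoSub compat _ injective, card_pi, W.card_eq_multiplicity, card_sylow_perm, ← pow_mul,
    ← pow_add, factorization_card hodd, Nat.card_fin, mul_comm]

end CfsgLib.SymSylow.SympTwo
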