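import Cfsg.Agent.S2119

/-!
An automorphism of an alternating group which preserves the three-cycles is induced by a
permutation; in degree six this covers every automorphism of odd order.
-/

set_option autoImplicit false
open Equiv Equiv.Perm Cfsg.Agent.S2119

namespace CfsgLib.AutThreeCycles

variable {α : Type*} [Fintype α] [DecidableEq α]

theorem exists_conjNormal_eq (h4 : 4 ≤ Fintype.card α) (φ : MulAut (alternatingGroup α))
    (hpres : ∀ c : alternatingGroup α, (c : Perm α).IsThreeCycle → (φ c : Perm α).IsThreeCycle) :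
    ∃ σ : Perm α, (MulAut.conjNormal σ : MulAut (alternatingGroup α)) = φ := by
  obtain ⟨p, q, hpq⟩ : ∃ p q : α, p ≠ q := Fintype.exists_pair_of_one_lt_card (by omega)
  let C : {i : α // i ≠ p ∧ i ≠ q} → alternatingGroup α := fun i =>
    ⟨swap p q * swap q i.1,
      (cycle3_isThreeCycle hpq i.2.1.symm i.2.2.symm).mem_alternatingGroup⟩
  have hC : ∀ i, (C i : Perm α).IsThreeCycle := fun i =>
    cycle3_isThreeCycle hpq i.2.1.symm i.2.2.symm
  have hC1 : ∀ i, (C i : Perm α) p = q := fun i => (cycle3_apply hpq i.2.1.symm i.2.2.symm).1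
  have hC2 : ∀ i, (C i : Perm α) q = i.1 := fun i => (cycle3_apply hpq i.2.1.symm i.2.2.symm).2.1
  let X : {i : α // i ≠ p ∧ i ≠ q} → Perm α := fun i => φ (C i)
  have hX : ∀ i, (X i).IsThreeCycle := fun i => hpres _ (hC i)
  have hne : ∀ i j, i ≠ j → X j ≠ X i := by
    intro i j hij h
    have h' : C j = C i := φ.injective (Subtype.ext h)
    have := congrArg (fun g : alternatingGroup α => (g : Perm α) q) h'
    simp only [hC2] at this
    exact hij (Subtype.ext this.symm)
  have hpair : ∀ i j, i ≠ j → ∃ a, X i a ≠ a ∧ X j a = X i a := by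
    intro i j hij
    have e : ∀ i j : {i : α // i ≠ p ∧ i ≠ q}, i ≠ j → (C i * C j) * (C i * C j) = 1 ∧ C i * C j ≠ 1 := by
      intro i j hij
      have hij' : (i.1 : α) ≠ j.1 := fun h => hij (Subtype.ext h)
      obtain ⟨i1, i2, i3⟩ := cycle3_apply hpq i.2.1.symm i.2.2.symm
      obtain ⟨j1, j2, j3⟩ := cycle3_apply hpq j.2.1.symm j.2.2.symm
      have fi : ∀ z, z ≠ p → z ≠ q → z ≠ i.1 → (C i : Perm α) z = z := fun z a b c => by
        simp [C, swap_apply_of_ne_of_ne, a, b, c]
      have fj : ∀ z, z ≠ p → z ≠ q → z ≠ j.1 → (C j : Perm α) z = z := fun z a b c => by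
        simp [C, swap_apply_of_ne_of_ne, a, b, c]
      have i1' : (C i : Perm α) p = q := i1
      have i2' : (C i : Perm α) q = i.1 := i2
      have i3' : (C i : Perm α) i.1 = p := i3
      have j1' : (C j : Perm α) p = q := j1
      have j2' : (C j : Perm α) q = j.1 := j2
      have j3' : (C j : Perm α) j.1 = p := j3
      have fij := fi j.1 j.2.1 j.2.2 (Ne.symm hij')
      have fji := fj i.1 i.2.1 i.2.2 hij'
      refine ⟨?_, ?_⟩
      · ext z
        simp only [Subgroup.coe_mul, OneMemClass.coe_one, Perm.mul_apply, Perm.one_apply]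
        by_cases hz1 : z = p
        · subst hz1; rw [j1', i2', fji, i3']
        by_cases hz2 : z = q
        · subst hz2; rw [j2', fij, j3', i1']
        by_cases hz3 : z = i.1
        · subst hz3; rw [fji, i3', j1', i2']
        by_cases hz4 : z = j.1
        · subst hz4; rw [j3', i1', j2', fij]
        simp [fi, fj, hz1, hz2, hz3, hz4]
      · intro h
        have := congrArg (fun g : alternatingGroup α => (g : Perm α) p) h
        simp only [Subgroup.coe_mul, Perm.mul_apply, j1', i2', OneMemClass.coe_one,
          Perm.one_apply] at this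
        exact i.2.1 this
    obtain ⟨e1, e2⟩ := e i j hij
    refine common_edge (hX i) (hX j) ?_ ?_
    · have := congrArg (fun g => (φ g : Perm α)) e1
      simpa [X] using this
    · intro h
      apply e2
      apply φ.injective
      apply Subtype.ext
      simpa [X] using h
  obtain ⟨i0, j0, hij⟩ : ∃ i j : {i : α // i ≠ p ∧ i ≠ q}, i ≠ j := by
    have : 1 < (Finset.univ \ {p, q} : Finset α).card := by
      rw [Finset.card_sdiff, Finset.inter_univ, Finset.card_univ, Finset.card_pair hpq]
      omega
    obtain ⟨b, hb, c, hc, hbc⟩ := Finset.one_lt_card.1 this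
    simp at hb hc
    exact ⟨⟨b, hb⟩, ⟨c, hc⟩, fun h => hbc (congrArg Subtype.val h)⟩
  obtain ⟨a, ha, ha'⟩ := hpair i0 j0 hij
  have hab : ∀ k, X k a = X i0 a := by
    intro k
    by_cases hk : k = i0
    · rw [hk]
    by_cases hk' : k = j0
    · rw [hk', ha']
    obtain ⟨u, hu, hu'⟩ := hpair i0 k (Ne.symm hk)
    obtain ⟨v, hv, hv'⟩ := hpair j0 k (Ne.symm hk')
    exact common_edge_three (hX i0) (hX j0) (hX k) (hne _ _ hij) ha ha' hu hu' hv hv'
  obtain ⟨b, hb⟩ : ∃ b, b = X i0 a := ⟨_, rfl⟩
  rw [← hb] at ha hab
  have hm : ∀ k, X k a ≠ a := fun k => by rw [hab k]; exact ha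
  have hf1 : ∀ k, X k b ≠ b := fun k => by rw [← hab k]; exact moved1 (hm k)
  have hf2 : ∀ k, X k b ≠ a := fun k => by rw [← hab k]; exact third_ne (hX k) (hm k)
  have hf3 : ∀ k, X k (X k b) = a := fun k => by rw [← hab k, rot (hX k)]
  have hf4 : ∀ i j, X i b = X j b → i = j := by
    intro i j h
    by_contra hne'
    exact hne i j hne' (eq_of_two (hX i) (hX j) (hm i) (by rw [hab i, hab j]) (by rw [hab i, h]))
  let f : α → α := fun z =>
    if hp : z = p then a else if hq : z = q then b else X ⟨z, hp, hq⟩ b
  have fp : f p = a := by simp [f]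
  have fq : f q = b := by simp [f, hpq.symm]
  have fi : ∀ i : {i : α // i ≠ p ∧ i ≠ q}, f i.1 = X i b := fun i => by simp [f, i.2.1, i.2.2]
  have finj : Function.Injective f := by
    intro y z h
    simp only [f] at h
    split_ifs at h with h1 h2 h3 h4 h5 h6 h7 h8
    all_goals first
      | (subst_vars; rfl)
      | exact absurd h (by first | exact ha | exact Ne.symm ha)
      | exact absurd h (hf2 _)
      | exact absurd h.symm (hf2 _)
      | exact absurd h (hf1 _)
      | exact absurd h.symm (hf1 _)
      | exact congrArg Subtype.val (hf4 _ _ h)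
  let σ : Perm α := Equiv.ofBijective f (Finite.injective_iff_bijective.1 finj)
  refine ⟨σ, ?_⟩
  have hCσ : ∀ i, (MulAut.conjNormal σ (C i) : Perm α) = φ (C i) := by
    intro i
    rw [MulAut.conjNormal_apply, mul_inv_eq_iff_eq_mul]
    ext z
    simp only [Perm.mul_apply]
    show f ((C i : Perm α) z) = X i (f z)
    by_cases hz1 : z = p
    · subst hz1; rw [hC1, fp, fq, hab]
    by_cases hz2 : z = q
    · subst hz2; rw [hC2, fi, fq]
    by_cases hz3 : z = i.1
    · subst hz3
      rw [(cycle3_apply hpq i.2.1.symm i.2.2.symm).2.2, fp, fi, hf3]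
    have e : (C i : Perm α) z = z := by simp [C, swap_apply_of_ne_of_ne, hz1, hz2, hz3]
    rw [e]
    refine (fix_of_ne (hX i) (hm i) ?_ ?_ ?_).symm
    · rw [← fp]; exact fun h => hz1 (finj h)
    · rw [hab, ← fq]; exact fun h => hz2 (finj h)
    · rw [hab, ← fi]; exact fun h => hz3 (finj h)
  let E : Subgroup (alternatingGroup α) :=
    MonoidHom.eqLocus (MulAut.conjNormal σ : MulAut (alternatingGroup α)).toMonoidHom φ.toMonoidHom
  apply MulEquiv.ext
  intro g
  suffices hg : g ∈ E from hg
  have : (g : Perm α) ∈ E.map (alternatingGroup α).subtype := by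
    have hle : alternatingGroup α ≤ E.map (alternatingGroup α).subtype := by
      refine le_trans closure_three_cycles_eq_alternating.ge ?_
      rw [Subgroup.closure_le]
      intro x hx
      refine closure_star hpq h4 _ (fun i hi hi' => ?_) hx
      exact ⟨C ⟨i, hi, hi'⟩, Subtype.ext (hCσ _), rfl⟩
    exact hle g.2
  obtain ⟨e, he, heq⟩ := this
  exact (Subtype.ext heq : e = g) ▸ he

/-- In degree six, an automorphism with an odd power equal to an inner one preserves three-cycles. -/
theorem preserves_of_odd_pow (h6 : Fintype.card α = 6) (φ : MulAut (alternatingGroup α)) {m : ℕ}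
    (hm : Odd m) {s : alternatingGroup α} (hs : φ ^ m = MulAut.conj s) (c : alternatingGroup α)
    (hc : (c : Perm α).IsThreeCycle) : (φ c : Perm α).IsThreeCycle := by
  classical
  let P : alternatingGroup α → Prop := fun g => (g : Perm α).IsThreeCycle
  let T : alternatingGroup α → Prop := fun g => (g : Perm α).cycleType = Multiset.replicate 2 3
  by_contra hnot
  have hPinv : ∀ (ψ : MulAut (alternatingGroup α)) (a : alternatingGroup α), P a → P (ψ a) →
      ∀ b, P b → P (ψ b) := by
    intro ψ a ha ha' b hb
    obtain ⟨g, hg⟩ := isConj_iff.1 (alternatingGroup.isThreeCycle_isConj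
      (by rw [Nat.card_eq_fintype_card, h6]; omega) ha hb)
    show Perm.IsThreeCycle _
    rw [← hg, map_mul, map_mul, map_inv, Subgroup.coe_mul, Subgroup.coe_mul, Subgroup.coe_inv,
      IsThreeCycle, cycleType_conj]
    exact ha'
  have hT : ∀ (ψ : MulAut (alternatingGroup α)) (a : alternatingGroup α), P a ∨ T a →
      P (ψ a) ∨ T (ψ a) := by
    intro ψ a ha
    have h3 : orderOf (a : Perm α) = 3 := by
      rcases ha with h | h
      · exact h.orderOf
      · rw [← lcm_cycleType, show (a : Perm α).cycleType = Multiset.replicate 2 3 from h]; rfl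
    have hord : orderOf (ψ a : Perm α) = 3 := by
      rw [Subgroup.orderOf_coe, MulEquiv.orderOf_eq, ← Subgroup.orderOf_coe, h3]
    obtain ⟨n, hn⟩ := cycleType_prime_order (σ := (ψ a : Perm α)) (by rw [hord]; norm_num)
    rw [hord] at hn
    have hle := sum_cycleType_le (ψ a : Perm α)
    rw [hn, Multiset.sum_replicate, smul_eq_mul, h6] at hle
    have hn1 : n ≤ 1 := by omega
    interval_cases n
    · exact Or.inl (by simpa [P, IsThreeCycle] using hn)
    · exact Or.inr hn
  have hswap1 : ∀ a, P a → T (φ a) := fun a ha =>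
    (hT φ a (Or.inl ha)).resolve_left fun h => hnot (hPinv φ a ha h c hc)
  have hcount : (Finset.univ.filter P).card = (Finset.univ.filter T).card := by
    have e1 := card_type (α := α) 1 le_rfl (by omega)
    have e2 := card_type (α := α) 2 (by omega) (by omega)
    have conv : ∀ (k : ℕ), (Finset.univ.filter fun g : alternatingGroup α =>
        (g : Perm α).cycleType = Multiset.replicate k 3).card =
        (Finset.univ.filter fun g : Perm α => g.cycleType = Multiset.replicate k 3).card := by
      intro k
      refine Finset.card_bij (fun g _ => (g : Perm α)) (fun g hg => ?_)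
        (fun a _ b _ h => Subtype.ext h) (fun g hg => ?_)
      · simpa using hg
      · simp only [Finset.mem_filter, Finset.mem_univ, true_and] at hg
        refine ⟨⟨g, ?_⟩, by simp [hg], rfl⟩
        rw [mem_alternatingGroup, sign_of_cycleType, hg, Multiset.sum_replicate,
          Multiset.card_replicate, smul_eq_mul, show k * 3 + k = 2 * (2 * k) by ring, pow_mul]
        simp
    have p1 : Finset.univ.filter P = Finset.univ.filter fun g : alternatingGroup α =>
        (g : Perm α).cycleType = Multiset.replicate 1 3 :=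
      Finset.filter_congr fun g _ => by simp [P, IsThreeCycle]
    have p2 : Finset.univ.filter T = Finset.univ.filter fun g : alternatingGroup α =>
        (g : Perm α).cycleType = Multiset.replicate 2 3 :=
      Finset.filter_congr fun g _ => Iff.rfl
    rw [p1, p2, conv, conv]
    rw [h6] at e1 e2
    generalize (Finset.univ.filter fun g : Perm α =>
      g.cycleType = Multiset.replicate 1 3).card = A at e1 ⊢
    generalize (Finset.univ.filter fun g : Perm α =>
      g.cycleType = Multiset.replicate 2 3).card = B at e2 ⊢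
    norm_num [Nat.factorial] at e1 e2
    omega
  have himg : (Finset.univ.filter P).image φ = Finset.univ.filter T := by
    refine Finset.eq_of_subset_of_card_le (fun y hy => ?_) ?_
    · obtain ⟨a, ha, rfl⟩ := Finset.mem_image.1 hy
      simpa using hswap1 a (by simpa using ha)
    · rw [Finset.card_image_of_injective _ φ.injective, hcount]
  have hswap2 : ∀ a, T a → P (φ a) := by
    intro a ha
    refine (hT φ a (Or.inr ha)).resolve_right fun h => ?_
    have : φ a ∈ (Finset.univ.filter P).image φ := by rw [himg]; simpa using h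
    obtain ⟨b, hb, hba⟩ := Finset.mem_image.1 this
    have hb' : P a := φ.injective hba ▸ (Finset.mem_filter.1 hb).2
    simp [T, P, IsThreeCycle] at ha hb'
    rw [ha] at hb'
    exact absurd (congrArg Multiset.card hb') (by simp)
  have hiter : ∀ i : ℕ, (Even i → P ((φ ^ i) c)) ∧ (Odd i → T ((φ ^ i) c)) := by
    intro i
    induction i with
    | zero => exact ⟨fun _ => hc, fun h => absurd h (by simp)⟩
    | succ i ih =>
      rw [pow_succ', MulAut.mul_apply]
      exact ⟨fun h => hswap2 _ (ih.2 (Nat.not_even_iff_odd.1 (Nat.even_add_one.1 h))),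
        fun h => hswap1 _ (ih.1 (Nat.not_odd_iff_even.1 (Nat.odd_add_one.1 h)))⟩
  have h1 : T ((φ ^ m) c) := (hiter m).2 hm
  rw [hs] at h1
  simp only [T, MulAut.conj_apply, Subgroup.coe_mul, Subgroup.coe_inv, cycleType_conj] at h1
  rw [show (c : Perm α).cycleType = {3} from hc] at h1
  exact absurd (congrArg Multiset.card h1) (by simp)

end CfsgLib.AutThreeCycles
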