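import Cfsg.Agent.SymSylow.Overgroups
import Cfsg.Agent.PGroup.Normal

/-!
A 3-group of permutations of `n` points, `n` not in `{6, 9}` and not `3^a + 1`, lies in two proper
overgroups whose even parts generate all even permutations.
-/

set_option autoImplicit false
set_option linter.unusedSimpArgs false
set_option linter.unusedSectionVars false

namespace CfsgLib.SymSylow

open Equiv

variable {α : Type*} [DecidableEq α] [Fintype α]

/-- The product of the three transpositions `(z^i a, z^i b)`. -/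
def triSwap (z : Perm α) (a b : α) : Perm α :=
  swap a b * (swap (z a) (z b) * swap (z (z a)) (z (z b)))

section tri

variable {z : Perm α} (h3 : ∀ x, z (z (z x)) = x) (hfix : ∀ x, z x ≠ x) {a b : α}
  (h0 : b ≠ a) (h1 : b ≠ z a) (h2 : b ≠ z (z a))

include h3 hfix in
lemma three_distinct (x : α) : x ≠ z x ∧ x ≠ z (z x) ∧ z x ≠ z (z x) := by
  refine ⟨(hfix x).symm, fun h => hfix x ?_, (hfix (z x)).symm⟩
  have := congrArg z h
  rwa [h3] at this

include h3 hfix h0 h1 h2 in
lemma six_distinct : a ≠ b ∧ a ≠ z b ∧ a ≠ z (z b) ∧ z a ≠ b ∧ z a ≠ z b ∧ z a ≠ z (z b) ∧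
    z (z a) ≠ b ∧ z (z a) ≠ z b ∧ z (z a) ≠ z (z b) := by
  have e1 : a ≠ z b := fun h => h2 (by rw [h, h3])
  have e2 : a ≠ z (z b) := fun h => h1 (by rw [h, h3])
  exact ⟨h0.symm, e1, e2, h1.symm, fun h => h0.symm (z.injective h), fun h => e1 (z.injective h),
    h2.symm, fun h => h1.symm (z.injective h), fun h => h0.symm (z.injective (z.injective h))⟩

include h3 hfix h0 h1 h2 in
lemma triSwap_apply : triSwap z a b a = b ∧ triSwap z a b (z a) = z b ∧ triSwap z a b b = a ∧
    triSwap z a b (z b) = z a := by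
  obtain ⟨d1, d2, d3, d4, d5, d6, d7, d8, d9⟩ := six_distinct h3 hfix h0 h1 h2
  obtain ⟨a1, a2, a3⟩ := three_distinct h3 hfix a
  obtain ⟨b1, b2, b3⟩ := three_distinct h3 hfix b
  simp [triSwap, Perm.mul_apply, swap_apply_of_ne_of_ne, d1, d2, d3, d4, d5, d6, d7, d8, d9,
    a1, a2, a3, b1, b2, b3, a1.symm, a2.symm, a3.symm, b1.symm, b2.symm, b3.symm,
    d1.symm, d2.symm, d3.symm, d4.symm, d5.symm, d6.symm, d7.symm, d8.symm, d9.symm]

lemma triSwap_apply_of_ne {x : α} (ha : x ≠ a) (hza : x ≠ z a) (hzza : x ≠ z (z a)) (hb : x ≠ b)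
    (hzb : x ≠ z b) (hzzb : x ≠ z (z b)) : triSwap z a b x = x := by
  simp [triSwap, Perm.mul_apply, swap_apply_of_ne_of_ne, ha, hza, hzza, hb, hzb, hzzb]

include h0 in
lemma sign_triSwap : Perm.sign (triSwap z a b) = -1 := by
  simp only [triSwap, map_mul, Perm.sign_swap h0.symm,
    Perm.sign_swap (z.injective.ne h0.symm),
    Perm.sign_swap (show z (z a) ≠ z (z b) from fun h => h0.symm (z.injective (z.injective h)))]
  decide

include h3 hfix h0 h1 h2 in
lemma commute_triSwap : z * triSwap z a b = triSwap z a b * z := by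
  obtain ⟨d1, d2, d3, d4, d5, d6, d7, d8, d9⟩ := six_distinct h3 hfix h0 h1 h2
  obtain ⟨a1, a2, a3⟩ := three_distinct h3 hfix a
  obtain ⟨b1, b2, b3⟩ := three_distinct h3 hfix b
  set A := swap a b
  set B := swap (z a) (z b)
  set C := swap (z (z a)) (z (z b))
  have eA : z * A * z⁻¹ = B := (swap_apply_apply z a b).symm
  have eB : z * B * z⁻¹ = C := (swap_apply_apply z (z a) (z b)).symm
  have eC : z * C * z⁻¹ = A := by
    rw [show z * C * z⁻¹ = swap (z (z (z a))) (z (z (z b))) from (swap_apply_apply z _ _).symm,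
      h3, h3]
  have cA : A * (B * C) = (B * C) * A := by
    refine commute_of_disjoint_onSet (U := {a, b}) (V := {z a, z b, z (z a), z (z b)}) ?_
      (swap_mem_onSet (by simp) (by simp)) (mul_mem (swap_mem_onSet (by simp) (by simp))
        (swap_mem_onSet (by simp) (by simp)))
    simp only [Finset.disjoint_insert_left, Finset.mem_insert, Finset.mem_singleton,
      Finset.disjoint_singleton_left, not_or]
    exact ⟨⟨a1, d2, a2, d3⟩, ⟨d4.symm, b1, d7.symm, b2⟩⟩
  change z * (A * (B * C)) = A * (B * C) * z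
  calc z * (A * (B * C)) = (z * A * z⁻¹) * ((z * B * z⁻¹) * (z * C * z⁻¹)) * z := by group
    _ = A * (B * C) * z := by rw [eA, eB, eC, cA, mul_assoc B C A]

end tri

/-- Gluing along a semiregular element of order three. -/
theorem evenLE_union_of_mix_three {U V : Finset α} {J : Subgroup (Perm α)} {z : Perm α}
    (hd : Disjoint U V) (h3 : ∀ x, z (z (z x)) = x) (hfix : ∀ x, z x ≠ x) (hzU : z ∈ keeps U)
    (hzV : z ∈ keeps V) (hU4 : 4 ≤ U.card) (hV : V.Nonempty) (hJU : EvenLE U J) (hJV : EvenLE V J)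
    (hJz : ∀ e, Perm.sign e = 1 → z * e = e * z → e ∈ J) : EvenLE (U ∪ V) J := by
  obtain ⟨a, ha⟩ := Finset.card_pos.mp (by omega : 0 < U.card)
  obtain ⟨b, hb⟩ : ((U \ {a, z a, z (z a)})).Nonempty := by
    rw [← Finset.card_pos]
    have := Finset.le_card_sdiff ({a, z a, z (z a)} : Finset α) U
    have := Finset.card_le_three (a := a) (b := z a) (c := z (z a))
    omega
  simp only [Finset.mem_sdiff, Finset.mem_insert, Finset.mem_singleton, not_or] at hb
  obtain ⟨hbU, hb0, hb1, hb2⟩ := hb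
  obtain ⟨c, hc⟩ := hV
  have ne_UV : ∀ {x y : α}, x ∈ U → y ∈ V → x ≠ y := fun hx hy h =>
    Finset.disjoint_left.mp hd hx (h ▸ hy)
  have hUz : ∀ {x : α}, x ∈ U → z x ∈ U := fun {x} hx => (hzU x).mpr hx
  have hVz : ∀ {x : α}, x ∈ V → z x ∈ V := fun {x} hx => (hzV x).mpr hx
  have hc0 : c ≠ b := (ne_UV hbU hc).symm
  have hc1 : c ≠ z b := (ne_UV (hUz hbU) hc).symm
  have hc2 : c ≠ z (z b) := (ne_UV (hUz (hUz hbU)) hc).symm
  obtain ⟨p1, p2, p3, p4⟩ := triSwap_apply h3 hfix hb0 hb1 hb2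
  obtain ⟨q1, q2, q3, q4⟩ := triSwap_apply h3 hfix hc0 hc1 hc2
  obtain ⟨a1, a2, a3⟩ := three_distinct h3 hfix a
  set e := triSwap z a b * triSwap z b c with he
  have hes : Perm.sign e = 1 := by
    rw [he, map_mul, sign_triSwap hb0, sign_triSwap hc0]; decide
  have hze : z * e = e * z := by
    rw [he, ← mul_assoc, commute_triSwap h3 hfix hb0 hb1 hb2, mul_assoc,
      commute_triSwap h3 hfix hc0 hc1 hc2, ← mul_assoc]
  have heJ : e ∈ J := hJz e hes hze
  obtain ⟨d1, d2, d3, d4, d5, d6, d7, d8, d9⟩ := six_distinct h3 hfix hb0 hb1 hb2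
  have ea : e a = b := by
    rw [he, Perm.mul_apply, triSwap_apply_of_ne d1 d2 d3 (ne_UV ha hc) (ne_UV ha (hVz hc))
      (ne_UV ha (hVz (hVz hc))), p1]
  have eza : e (z a) = z b := by
    rw [he, Perm.mul_apply, triSwap_apply_of_ne d4 d5 d6 (ne_UV (hUz ha) hc)
      (ne_UV (hUz ha) (hVz hc)) (ne_UV (hUz ha) (hVz (hVz hc))), p2]
  have fixc : ∀ {y : α}, y ∈ V → triSwap z a b y = y := fun {y} hy =>
    triSwap_apply_of_ne (ne_UV ha hy).symm (ne_UV (hUz ha) hy).symm
      (ne_UV (hUz (hUz ha)) hy).symm (ne_UV hbU hy).symm (ne_UV (hUz hbU) hy).symm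
      (ne_UV (hUz (hUz hbU)) hy).symm
  have eb : e b = c := by rw [he, Perm.mul_apply, q1, fixc hc]
  have ezb : e (z b) = z c := by rw [he, Perm.mul_apply, q2, fixc (hVz hc)]
  have h1 : EvenLE (U ∪ U.image e) J :=
    hJU.union (hJU.image heJ) hbU (Finset.mem_image.mpr ⟨a, ha, ea⟩) (hUz hbU)
      (Finset.mem_image.mpr ⟨z a, hUz ha, eza⟩) (hfix b).symm
  have h2 := h1.union hJV (Finset.mem_union_right _ (Finset.mem_image.mpr ⟨b, hbU, eb⟩)) hc
    (Finset.mem_union_right _ (Finset.mem_image.mpr ⟨z b, hUz hbU, ezb⟩)) (hVz hc) (hfix c).symm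
  refine h2.mono fun x hx => ?_
  rcases Finset.mem_union.mp hx with h | h
  · exact Finset.mem_union_left _ (Finset.mem_union_left _ h)
  · exact Finset.mem_union_right _ h

/-- A nontrivial normal subgroup `N` of a `3`-group transitive on `O` contains a central element
of order three without fixed points on `O`. -/
theorem exists_central_three {O : Finset α} {P : Subgroup (Perm α)} (hP : IsPGroup 3 P)
    (hle : P ≤ onSet O) (htr : ∀ x ∈ O, ∀ y ∈ O, ∃ g ∈ P, g x = y) (N : Subgroup P) [N.Normal]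
    (hN : N ≠ ⊥) :
    ∃ z : P, z ∈ N ∧ (∀ x, (z : Perm α) ((z : Perm α) ((z : Perm α) x)) = x) ∧
      (∀ x ∈ O, (z : Perm α) x ≠ x) ∧ ∀ g ∈ P, (z : Perm α) * g = g * z := by
  haveI : Fact (Nat.Prime 3) := ⟨by norm_num⟩
  have hne := CfsgLib.PGroup.inf_center_ne_bot hP N hN
  set K := N ⊓ Subgroup.center P with hK
  obtain ⟨k, hk⟩ := IsPGroup.iff_card.mp (hP.to_subgroup K)
  have hk0 : k ≠ 0 := by
    rintro rfl
    exact hne (Subgroup.eq_bot_of_card_eq K (by simpa using hk))
  obtain ⟨w, hw⟩ := exists_prime_orderOf_dvd_card' (G := K) 3 (hk ▸ dvd_pow_self 3 hk0)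
  obtain ⟨hwN, hwC⟩ := Subgroup.mem_inf.mp w.2
  have hcomm : ∀ g ∈ P, ((w : P) : Perm α) * g = g * ((w : P) : Perm α) := fun g hg =>
    (congrArg Subtype.val (Subgroup.mem_center_iff.mp hwC ⟨g, hg⟩)).symm
  refine ⟨(w : P), hwN, fun x => ?_, fun x hx hfx => ?_, hcomm⟩
  · have h3 : w ^ 3 = 1 := hw ▸ pow_orderOf_eq_one w
    have := congrArg (fun u : K => ((u : P) : Perm α) x) h3
    simpa [pow_succ, Perm.mul_apply] using this
  · have hall : ((w : P) : Perm α) = 1 := by
      ext y
      by_cases hy : y ∈ O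
      · obtain ⟨g, hg, rfl⟩ := htr x hx y hy
        have := congrArg (fun u : Perm α => u x) (hcomm g hg)
        simp only [Perm.mul_apply, hfx] at this
        exact this
      · exact hle (w : P).2 y hy
    have h1 : w = 1 := Subtype.ext (Subtype.ext hall)
    rw [h1, orderOf_one] at hw
    omega

private lemma splits_transitive {Q : Subgroup (Perm α)} (hQ : IsPGroup 3 Q)
    (htr : ∀ x y : α, ∃ g ∈ Q, g x = y) {k : ℕ} (hk : Fintype.card α = 3 ^ k) (hk3 : 3 ≤ k) :
    Splits Q := by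
  haveI : Fact (Nat.Prime 3) := ⟨by norm_num⟩
  have h27 : 27 ≤ Fintype.card α := hk ▸ (show 27 = 3 ^ 3 from rfl) ▸
    Nat.pow_le_pow_right (by norm_num) hk3
  obtain ⟨x0⟩ : Nonempty α := Fintype.card_pos_iff.mp (by omega)
  haveI : MulAction.IsPretransitive Q α := ⟨fun x y => by
    obtain ⟨g, hg, h⟩ := htr x y; exact ⟨⟨g, hg⟩, h⟩⟩
  set S := MulAction.stabilizer Q x0 with hS
  have hSidx : S.index = Fintype.card α := by
    rw [hS, MulAction.index_stabilizer_of_transitive, Nat.card_eq_fintype_card]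
  obtain ⟨M, hM, hSM⟩ : ∃ M, IsCoatom M ∧ S ≤ M := by
    rcases eq_top_or_exists_le_coatom S with h | h
    · rw [h, Subgroup.index_top] at hSidx; omega
    · exact h
  have hMi := CfsgLib.PGroup.index_of_coatom hQ hM
  haveI hMn := CfsgLib.PGroup.normal_of_coatom hQ hM
  have hMne : M ≠ ⊥ := by
    intro h
    rw [h, Subgroup.index_bot] at hMi
    have := Subgroup.index_dvd_card S
    rw [hMi, hSidx] at this
    have := Nat.le_of_dvd (by norm_num) this
    omega
  obtain ⟨z, hzM, hz3, hzfix, hzc⟩ := exists_central_three hQ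
    (fun g _ x hx => absurd (Finset.mem_univ x) hx) (fun x _ y _ => htr x y) M hMne
  set Mp := M.map Q.subtype with hMp
  have hzMp : (z : Perm α) ∈ Mp := ⟨z, hzM, rfl⟩
  have hblock : ∀ g ∈ Q, ∀ x y, g y ∈ orb Mp (g x) ↔ y ∈ orb Mp x := by
    have one : ∀ g ∈ Q, ∀ x y, y ∈ orb Mp x → g y ∈ orb Mp (g x) := by
      intro g hg x y hy
      obtain ⟨m, ⟨m', hm', hmeq⟩, rfl⟩ := mem_orb.mp hy
      refine mem_orb.mpr ⟨g * m * g⁻¹, ⟨⟨g, hg⟩ * m' * ⟨g, hg⟩⁻¹,
        hMn.conj_mem _ hm' _, by simp [← hmeq]⟩, by simp⟩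
    intro g hg x y
    refine ⟨fun h => ?_, one g hg x y⟩
    simpa using one g⁻¹ (inv_mem hg) _ _ h
  set C := orb Mp x0 with hC
  have hCcard : 3 * C.card = Fintype.card α := by
    have e1 : C.card = (MulAction.stabilizer M x0).index := by
      rw [MulAction.index_stabilizer, ← Set.ncard_coe_finset]
      congr 1
      ext y
      rw [Finset.mem_coe, hC, mem_orb, MulAction.mem_orbit_iff]
      constructor
      · rintro ⟨m, ⟨m', hm', rfl⟩, h⟩; exact ⟨⟨m', hm'⟩, h⟩
      · rintro ⟨m, h⟩; exact ⟨_, ⟨m.1, m.2, rfl⟩, h⟩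
    have e2 : (S.subgroupOf M) = MulAction.stabilizer M x0 := by
      ext m; rfl
    rw [e1, ← e2, ← hSidx, mul_comm, ← hMi]
    exact Subgroup.relIndex_mul_index hSM
  have hcard : ∀ x, (orb Mp x).card = C.card := by
    intro x
    obtain ⟨g, hg, rfl⟩ := htr x0 x
    rw [← Finset.card_image_of_injective C g.injective]
    congr 1
    ext y
    rw [Finset.mem_image]
    refine ⟨fun h => ⟨g⁻¹ y, ?_, by simp⟩, ?_⟩
    · simpa using (hblock g⁻¹ (inv_mem hg) (g x0) y).mpr h
    · rintro ⟨w, hw, rfl⟩; exact (hblock g hg x0 w).mpr hw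
  have hdis : ∀ {x y}, y ∉ orb Mp x → Disjoint (orb Mp x) (orb Mp y) := by
    intro x y hy
    rw [Finset.disjoint_left]
    intro w hw hw'
    apply hy
    rw [← orb_eq_of_mem hw, orb_eq_of_mem hw']
    exact self_mem_orb Mp y
  let A : Subgroup (Perm α) :=
    { carrier := {g | ∀ x y, g y ∈ orb Mp (g x) ↔ y ∈ orb Mp x}
      one_mem' := fun _ _ => Iff.rfl
      mul_mem' := fun {a b} ha hb x y => by rw [Perm.mul_apply, Perm.mul_apply, ha, hb]
      inv_mem' := fun {a} ha x y => by
        have := ha (a⁻¹ x) (a⁻¹ y)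
        simpa using this.symm }
  have hon : ∀ w, onSet (orb Mp w) ≤ A := by
    intro w g hg x y
    have hsame : ∀ u, orb Mp (g u) = orb Mp u := by
      intro u
      by_cases hu : u ∈ orb Mp w
      · rw [orb_eq_of_mem hu, orb_eq_of_mem ((onSet_le_keeps _ hg u).mpr hu)]
      · rw [hg u hu]
    rw [hsame x]
    constructor
    · intro h
      rw [← orb_eq_of_mem h, hsame y]
      exact self_mem_orb Mp y
    · intro h
      rw [← orb_eq_of_mem h, ← hsame y]
      exact self_mem_orb Mp (g y)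
  refine ⟨A, Subgroup.centralizer ({(z : Perm α)} : Set (Perm α)), fun g hg => hblock g hg, ?_, ?_,
    ?_, fun J hJA hJB => ?_⟩
  · intro g hg
    rw [Subgroup.mem_centralizer_iff]
    rintro _ rfl
    exact hzc g hg
  · intro hle
    obtain ⟨a, ha, b, hb, hab⟩ := Finset.one_lt_card.mp (by omega : 1 < C.card)
    obtain ⟨c, hc⟩ : ∃ c, c ∉ C := by
      by_contra h
      push Not at h
      have : C = Finset.univ := Finset.eq_univ_of_forall h
      rw [this, Finset.card_univ] at hCcard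
      omega
    have hca : c ≠ a := fun e => hc (e ▸ ha)
    have hcb : c ≠ b := fun e => hc (e ▸ hb)
    set e := swap b c * swap a b with he
    have he' : e ∈ alternatingGroup α := by
      rw [Perm.mem_alternatingGroup, he, map_mul, Perm.sign_swap hcb.symm, Perm.sign_swap hab]
      simp
    have := (hle he' a b).mpr (by rw [orb_eq_of_mem ha]; exact hb)
    simp only [he, Perm.mul_apply, swap_apply_left, swap_apply_right,
      swap_apply_of_ne_of_ne hab hca.symm] at this
    apply hc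
    rw [hC, ← orb_eq_of_mem ha]
    rw [orb_eq_of_mem this]
    exact self_mem_orb Mp c
  · exact not_alternatingGroup_le_centralizer (fun x => hzfix x (Finset.mem_univ x)) x0 (by omega)
  · obtain ⟨y, hy⟩ : ∃ y, y ∉ C := by
      by_contra h
      push Not at h
      have : C = Finset.univ := Finset.eq_univ_of_forall h
      rw [this, Finset.card_univ] at hCcard
      omega
    set D := orb Mp y with hD
    obtain ⟨w, hw⟩ : ∃ w, w ∉ C ∪ D := by
      by_contra h
      push Not at h
      have h1 : (C ∪ D).card = Fintype.card α := by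
        rw [Finset.eq_univ_of_forall h, Finset.card_univ]
      rw [Finset.card_union_of_disjoint (hdis hy), hcard x0, hcard y] at h1
      omega
    rw [Finset.mem_union, not_or] at hw
    set E := orb Mp w with hE
    have hdE : Disjoint (C ∪ D) E :=
      Finset.disjoint_union_left.mpr ⟨hdis hw.1, hdis hw.2⟩
    have huniv : C ∪ D ∪ E = Finset.univ := by
      refine Finset.eq_univ_of_card _ ?_
      rw [Finset.card_union_of_disjoint hdE, Finset.card_union_of_disjoint (hdis hy),
        hcard x0, hcard y, hcard w]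
      omega
    have hkz : ∀ u, (z : Perm α) ∈ keeps (orb Mp u) := fun u => le_keeps_orb Mp u hzMp
    have hev : ∀ u, EvenLE (orb Mp u) J := fun u => evenLE_of_keeps (hon u) hJA
    have hJz : ∀ e : Perm α, Perm.sign e = 1 → (z : Perm α) * e = e * (z : Perm α) → e ∈ J := fun e he hc =>
      hJB e he (by rw [Subgroup.mem_centralizer_iff]; rintro _ rfl; exact hc)
    have hf : ∀ x, (z : Perm α) x ≠ x := fun x => hzfix x (Finset.mem_univ x)
    have hC4 : 4 ≤ (orb Mp x0).card := by rw [← hC]; omega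
    have h1 := evenLE_union_of_mix_three (hdis hy) hz3 hf (hkz x0) (hkz y) hC4
      ⟨y, self_mem_orb Mp y⟩ (hev x0) (hev y) hJz
    have h2 := evenLE_union_of_mix_three hdE hz3 hf (keeps_union (hkz x0) (hkz y)) (hkz w)
      (le_trans hC4 (Finset.card_le_card Finset.subset_union_left))
      ⟨w, self_mem_orb Mp w⟩ h1 (hev w) hJz
    exact alternatingGroup_le_of_evenLE (fun x => Finset.eq_univ_iff_forall.mp huniv x) h2

private lemma splits_two {Q : Subgroup (Perm α)} (hQ : IsPGroup 3 Q) {x y : α}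
    (huniv : ∀ w, w ∈ orb Q x ∪ orb Q y) (hd : Disjoint (orb Q x) (orb Q y))
    (h2 : 2 ≤ (orb Q x).card) (h4 : 4 ≤ (orb Q y).card) : Splits Q := by
  haveI : Fact (Nat.Prime 3) := ⟨by norm_num⟩
  set t := orb Q x with ht
  set u := orb Q y with hu
  have key : ∀ w, 2 ≤ (orb Q w).card → ∃ zw : Perm α, zw ∈ onSet (orb Q w) ∧
      (∀ a, zw (zw (zw a)) = a) ∧ (∀ a ∈ orb Q w, zw a ≠ a) ∧
      ∀ g ∈ Q, zw * res (orb Q w) g = res (orb Q w) g * zw := by
    intro w hw
    set R := resGroup (orb Q w) Q (le_keeps_orb Q w)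
    have hR : IsPGroup 3 R := isPGroup_resGroup _ hQ
    have hRtr : ∀ a ∈ orb Q w, ∀ b ∈ orb Q w, ∃ g ∈ R, g a = b := by
      intro a ha b hb
      obtain ⟨g, hg, rfl⟩ := exists_map_of_mem_orb ha hb
      exact ⟨_, mem_resGroup.mpr ⟨g, hg, rfl⟩, res_apply_of_mem (le_keeps_orb Q w hg) ha⟩
    have hne : (⊤ : Subgroup R) ≠ ⊥ := by
      intro h
      obtain ⟨a, ha, b, hb, hab⟩ := Finset.one_lt_card.mp (show 1 < (orb Q w).card by omega)
      obtain ⟨g, hg, hgab⟩ := hRtr a ha b hb
      have : (⟨g, hg⟩ : R) = 1 := Subgroup.mem_bot.mp (h ▸ Subgroup.mem_top _)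
      have h1 : g = 1 := congrArg Subtype.val this
      exact hab (by rw [← hgab, h1]; rfl)
    obtain ⟨z, -, z3, zf, zc⟩ :=
      exists_central_three hR (resGroup_le_onSet _ _ _) hRtr ⊤ hne
    exact ⟨z, resGroup_le_onSet _ _ _ z.2, z3, zf,
      fun g hg => zc _ (mem_resGroup.mpr ⟨g, hg, rfl⟩)⟩
  obtain ⟨zt, ht0, ht3, htf, htc⟩ := key x h2
  obtain ⟨zu, hu0, hu3, huf, huc⟩ := key y (by rw [← hu]; omega)
  rw [← ht] at ht0 htf htc
  rw [← hu] at hu0 huf huc
  have hcm : ∀ a ∈ onSet t, ∀ b ∈ onSet u, a * b = b * a := fun a ha b hb =>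
    commute_of_disjoint_onSet hd ha hb
  set z := zt * zu with hz
  have zval_t : ∀ a ∈ t, z a = zt a := fun a ha => by
    rw [hz, Perm.mul_apply, hu0 a (Finset.disjoint_left.mp hd ha)]
  have zval_u : ∀ a ∈ u, z a = zu a := fun a ha => by
    rw [hz, Perm.mul_apply, ht0 _ (Finset.disjoint_right.mp hd ((onSet_le_keeps u hu0 a).mpr ha))]
  have hkt : ∀ a ∈ t, zt a ∈ t := fun a ha => (onSet_le_keeps t ht0 a).mpr ha
  have hku : ∀ a ∈ u, zu a ∈ u := fun a ha => (onSet_le_keeps u hu0 a).mpr ha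
  have h3 : ∀ a, z (z (z a)) = a := by
    intro a
    rcases Finset.mem_union.mp (huniv a) with ha | ha
    · rw [zval_t a ha, zval_t _ (hkt a ha), zval_t _ (hkt _ (hkt a ha)), ht3]
    · rw [zval_u a ha, zval_u _ (hku a ha), zval_u _ (hku _ (hku a ha)), hu3]
  have hfix : ∀ a, z a ≠ a := by
    intro a
    rcases Finset.mem_union.mp (huniv a) with ha | ha
    · rw [zval_t a ha]; exact htf a ha
    · rw [zval_u a ha]; exact huf a ha
  have hzc : ∀ g ∈ Q, z * g = g * z := by
    intro g hg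
    have e := res_mul_res_sdiff (Finset.subset_univ t) (fun a ha => absurd (Finset.mem_univ a) ha)
      (le_keeps_orb Q x hg) (g := g)
    have hcompl : Finset.univ \ t = u := by
      ext a
      simp only [Finset.mem_sdiff, Finset.mem_univ, true_and]
      refine ⟨fun ha => ?_, fun ha => Finset.disjoint_right.mp hd ha⟩
      exact (Finset.mem_union.mp (huniv a)).resolve_left ha
    rw [hcompl] at e
    have c1 := htc g hg
    have c2 := huc g hg
    have d1 := hcm (res t g) (res_mem_onSet _ _) zu hu0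
    have d2 := hcm zt ht0 (res u g) (res_mem_onSet _ _)
    rw [← e, hz]
    calc zt * zu * (res t g * res u g) = zt * (zu * res t g) * res u g := by group
      _ = (zt * res t g) * (zu * res u g) := by rw [← d1]; group
      _ = res t g * (zt * res u g) * zu := by rw [c1, c2]; group
      _ = res t g * res u g * (zt * zu) := by rw [d2]; group
  have hyt : y ∉ t := Finset.disjoint_right.mp hd (self_mem_orb Q y)
  refine ⟨keeps t, Subgroup.centralizer ({z} : Set (Perm α)), le_keeps_orb Q x, ?_,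
    not_alternatingGroup_le_keeps (self_mem_orb Q x) hyt ?_,
    not_alternatingGroup_le_centralizer hfix x ?_, fun J hJA hJB => ?_⟩
  · intro g hg
    rw [Subgroup.mem_centralizer_iff]
    rintro _ rfl
    exact hzc g hg
  · have := Finset.card_le_univ u; omega
  · have := Finset.card_le_univ u; omega
  · refine alternatingGroup_le_of_evenLE (fun a => ?_)
      (evenLE_union_of_mix_three hd.symm h3 hfix ?_ ?_ h4 ⟨x, self_mem_orb Q x⟩
        (evenLE_of_keeps (onSet_le_keeps_of_disjoint hd) hJA)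
        (evenLE_of_keeps (onSet_le_keeps t) hJA) fun e he hc => hJB e he ?_)
    · rw [Finset.union_comm]; exact huniv a
    · exact mul_mem (onSet_le_keeps_of_disjoint hd.symm ht0) (onSet_le_keeps u hu0)
    · exact mul_mem (onSet_le_keeps t ht0) (onSet_le_keeps_of_disjoint hd hu0)
    · rw [Subgroup.mem_centralizer_iff]; rintro _ rfl; exact hc

/-- The dichotomy for 3-groups. -/
theorem splits_or_of_three_group {Q : Subgroup (Perm α)} (hQ : IsPGroup 3 Q)
    (h5 : 5 ≤ Fintype.card α) :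
    Splits Q ∨ (Fintype.card α = 6 ∨ Fintype.card α = 9 ∨
      ∃ a : ℕ, 2 ≤ a ∧ Fintype.card α = 3 ^ a + 1) := by
  haveI : Fact (Nat.Prime 3) := ⟨by norm_num⟩
  obtain ⟨z, -, hmax⟩ := Finset.exists_max_image Finset.univ (fun x => (orb Q x).card)
    (Finset.card_pos.mp (by rw [Finset.card_univ]; omega))
  set w := orb Q z with hw
  obtain ⟨k, hk⟩ := card_orb_eq_pow hQ z
  rw [← hw] at hk
  by_cases hwu : w = Finset.univ
  · rw [hwu, Finset.card_univ] at hk
    rcases Nat.lt_or_ge k 3 with hk3 | hk3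
    · right; right; left
      interval_cases k <;> omega
    · exact Or.inl (splits_transitive hQ (fun a b => exists_map_of_mem_orb
        (by rw [← hw, hwu]; exact Finset.mem_univ a) (by rw [← hw, hwu]; exact Finset.mem_univ b)) hk hk3)
  obtain ⟨x, hx⟩ : ∃ x, x ∉ w := by
    by_contra h
    push Not at h
    exact hwu (Finset.eq_univ_of_forall h)
  set t := orb Q x with ht
  have hdisj : ∀ {a b}, b ∉ orb Q a → Disjoint (orb Q a) (orb Q b) := by
    intro a b hb
    rw [Finset.disjoint_left]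
    intro v hv hv'
    apply hb
    rw [← orb_eq_of_mem hv, orb_eq_of_mem hv']
    exact self_mem_orb Q b
  have hwt : Disjoint w t := hdisj hx
  by_cases hrest : ∀ a, a ∈ w ∪ t
  · have hsum : w.card + t.card = Fintype.card α := by
      rw [← Finset.card_union_of_disjoint hwt, Finset.eq_univ_of_forall hrest, Finset.card_univ]
    obtain ⟨l, hl⟩ := card_orb_eq_pow hQ x
    rw [← ht] at hl
    have hlk : t.card ≤ w.card := hmax x (Finset.mem_univ x)
    rcases Nat.eq_zero_or_pos l with rfl | hl0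
    · right; right; right
      rw [pow_zero] at hl
      refine ⟨k, ?_, by omega⟩
      by_contra hk2
      have : 3 ^ k ≤ 3 ^ 1 := Nat.pow_le_pow_right (by norm_num) (by omega)
      omega
    have h3t : 3 ≤ t.card := hl ▸ Nat.le_self_pow (by omega) 3
    rcases Nat.lt_or_ge w.card 4 with hw4 | hw4
    · right; left; omega
    · exact Or.inl (splits_two hQ (x := x) (y := z) (fun a => Finset.union_comm w t ▸ hrest a)
        hwt.symm (by rw [← ht]; omega) hw4)
  push Not at hrest
  obtain ⟨y, hy⟩ := hrest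
  rw [Finset.mem_union, not_or] at hy
  set u := orb Q y with hu
  have hzt : z ∉ t := Finset.disjoint_left.mp hwt (self_mem_orb Q z)
  have hzu : z ∉ u := Finset.disjoint_left.mp (hdisj hy.1) (self_mem_orb Q z)
  have htu : Disjoint t u := hdisj hy.2
  obtain ⟨a, ha, b, hb, hab⟩ : ∃ a, (a ∉ t ∧ a ∉ u) ∧ ∃ b, (b ∉ t ∧ b ∉ u) ∧ a ≠ b := by
    rcases Nat.lt_or_ge w.card 2 with h | h
    · have hc : 1 < (Finset.univ \ (t ∪ u)).card := by
        rw [Finset.card_univ_sdiff, Finset.card_union_of_disjoint htu]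
        have h1 : t.card ≤ w.card := hmax x (Finset.mem_univ x)
        have h2 : u.card ≤ w.card := hmax y (Finset.mem_univ y)
        omega
      obtain ⟨a, ha, b, hb, hab⟩ := Finset.one_lt_card.mp hc
      simp only [Finset.mem_sdiff, Finset.mem_univ, true_and, Finset.mem_union, not_or] at ha hb
      exact ⟨a, ha, b, hb, hab⟩
    · obtain ⟨a, ha, b, hb, hab⟩ := Finset.one_lt_card.mp (show 1 < w.card by omega)
      exact ⟨a, ⟨Finset.disjoint_left.mp hwt ha, Finset.disjoint_left.mp (hdisj hy.1) ha⟩,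
        b, ⟨Finset.disjoint_left.mp hwt hb, Finset.disjoint_left.mp (hdisj hy.1) hb⟩, hab⟩
  left
  refine ⟨keeps t, keeps u, le_keeps_orb Q x, le_keeps_orb Q y,
    not_alternatingGroup_le_keeps (self_mem_orb Q x) hzt (by omega),
    not_alternatingGroup_le_keeps (self_mem_orb Q y) hzu (by omega), fun J hJA hJB => ?_⟩
  have e1 : EvenLE (Finset.univ \ t) J :=
    evenLE_of_keeps (onSet_le_keeps_of_disjoint Finset.disjoint_sdiff) hJA
  have e2 : EvenLE (Finset.univ \ u) J :=
    evenLE_of_keeps (onSet_le_keeps_of_disjoint Finset.disjoint_sdiff) hJB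
  refine alternatingGroup_le_of_evenLE (fun v => ?_)
    (e1.union e2 (a := a) (b := b) ?_ ?_ ?_ ?_ hab)
  · simp only [Finset.mem_union, Finset.mem_sdiff, Finset.mem_univ, true_and]
    by_cases hv : v ∈ t
    · exact Or.inr (Finset.disjoint_left.mp htu hv)
    · exact Or.inl hv
  all_goals simp [ha, hb]

end CfsgLib.SymSylow
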