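import Mathlib
import Cfsg.Agent.SymSylow.DerivedLength
import Cfsg.Agent.Zsigmondy.SylowLinear

/-!
Sylow `p`-subgroups of `GL_n(q)`, `p` odd and prime to `q`, as monomial groups.
-/

set_option autoImplicit false

namespace CfsgLib.SymSylow.GLOdd

open Equiv CfsgLib.SymSylow.SqDer CfsgLib.SymSylow.NRank CfsgLib.SymSylow.DLen

variable {p : ℕ} [hp : Fact p.Prime]

theorem padicValNat_prod_Icc (hodd : Odd p) {q : ℕ} (hq : 2 ≤ q) (hpq : ¬p ∣ q) (n : ℕ) :
    padicValNat p (∏ i ∈ Finset.Icc 1 n, (q ^ i - 1)) =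
      (n / orderOf (q : ZMod p)) * padicValNat p (q ^ orderOf (q : ZMod p) - 1) +
        padicValNat p (n / orderOf (q : ZMod p)).factorial := by
  set e := orderOf (q : ZMod p) with he
  have he0 : 0 < e := CfsgLib.Zsigmondy.orderOf_pos_of_not_dvd hpq
  induction n with
  | zero => simp
  | succ n ih =>
    have hne : ∀ i, i ≠ 0 → q ^ i - 1 ≠ 0 := fun i hi =>
      CfsgLib.Zsigmondy.pow_sub_one_ne_zero hq (Nat.pos_of_ne_zero hi)
    rw [Finset.prod_Icc_succ_top (by omega), padicValNat.mul
      (Finset.prod_ne_zero_iff.2 fun i hi => hne i (by have := (Finset.mem_Icc.1 hi).1; omega))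
      (hne _ (by omega)), ih, Nat.succ_div]
    by_cases hd : e ∣ n + 1
    · rw [if_pos hd]
      obtain ⟨m, hm⟩ := hd
      have hm0 : m ≠ 0 := fun h => by rw [h, mul_zero] at hm; omega
      have hdiv : n / e + 1 = m := by
        have h1 : (n + 1) / e = m := by rw [hm, Nat.mul_div_cancel_left _ he0]
        rw [Nat.succ_div, if_pos ⟨m, hm⟩] at h1
        exact h1
      have hx : 1 < q ^ e := Nat.one_lt_pow he0.ne' hq
      have hv : padicValNat p (q ^ (n + 1) - 1) = padicValNat p (q ^ e - 1) + padicValNat p m := by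
        have h := padicValNat.pow_sub_pow (p := p) hodd (y := 1) hx
          ((CfsgLib.Zsigmondy.dvd_pow_sub_one_iff (by omega) e).2 dvd_rfl)
          (fun h => hpq (hp.out.dvd_of_dvd_pow h)) hm0
        rwa [← pow_mul, ← hm, one_pow] at h
      rw [hv, hdiv, show n / e = m - 1 from by omega, ← Nat.mul_factorial_pred hm0,
        padicValNat.mul hm0 (Nat.factorial_ne_zero _)]
      obtain ⟨m', rfl⟩ : ∃ m', m = m' + 1 := ⟨m - 1, by omega⟩
      simp only [Nat.add_sub_cancel]
      ring
    · rw [if_neg hd, CfsgLib.Zsigmondy.padicValNat_pow_sub_one_eq_zero (by omega) hd, add_zero,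
        add_zero]

variable {F : Type*} [Field F] [Fintype F]

theorem derived_length (hodd : Odd p) {q : ℕ} (hq : Fintype.card F = q) (hpq : ¬p ∣ q) {n : ℕ}
    (hn : orderOf (q : ZMod p) ≤ n) (P : Sylow p (GL (Fin n) F)) :
    derivedSeries (P : Subgroup (GL (Fin n) F)) (Nat.log p (n / orderOf (q : ZMod p)) + 1) = ⊥ ∧
      derivedSeries (P : Subgroup (GL (Fin n) F)) (Nat.log p (n / orderOf (q : ZMod p))) ≠ ⊥ := by
  classical
  obtain ⟨ℓ, hℓ⟩ := CharP.exists F
  haveI : Fact ℓ.Prime := ⟨CharP.char_is_prime F ℓ⟩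
  have hq2 : 2 ≤ q := hq ▸ Fintype.one_lt_card
  set d := orderOf (q : ZMod p) with hd
  have hd0 : 0 < d := CfsgLib.Zsigmondy.orderOf_pos_of_not_dvd hpq
  haveI : NeZero d := ⟨hd0.ne'⟩
  let L := FiniteField.Extension F ℓ d
  have hL : Nat.card L = q ^ d := by
    rw [FiniteField.natCard_extension, Nat.card_eq_fintype_card, hq]
  let A := (Fin (n / d) → L) × (Fin (n % d) → F)
  have hfin : Module.finrank F A = n := by
    show Module.finrank F ((Fin (n / d) → L) × (Fin (n % d) → F)) = n
    rw [Module.finrank_prod, Module.finrank_pi_fintype, Module.finrank_fin_fun]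
    simp only [L, FiniteField.finrank_extension, Finset.sum_const, Finset.card_univ, Fintype.card_fin,
      smul_eq_mul]
    exact Nat.div_add_mod' n d
  let b : Module.Basis (Fin n) F A := Module.finBasisOfFinrankEq F A hfin
  let toM : Module.End F A →* Matrix (Fin n) (Fin n) F :=
    (LinearMap.toMatrixAlgEquiv b).toAlgHom.toRingHom.toMonoidHom
  let φ : (Fin (n / d) → Lˣ) →* GL (Fin n) F := MonoidHom.toHomUnits (toM.comp
    { toFun := fun a => LinearMap.prodMap (LinearMap.mulLeft F (fun i => (a i : L))) LinearMap.id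
      map_one' := LinearMap.ext fun x => Prod.ext (funext fun i => by simp) rfl
      map_mul' := fun a a' => LinearMap.ext fun x => Prod.ext (funext fun i => by simp [mul_assoc]) rfl })
  let ψ : Perm (Fin (n / d)) →* GL (Fin n) F := MonoidHom.toHomUnits (toM.comp
    { toFun := fun σ => LinearMap.prodMap (LinearMap.funLeft F L σ.symm) LinearMap.id
      map_one' := rfl
      map_mul' := fun σ τ => rfl })
  have hc : Compat φ ψ := by
    intro σ a
    refine Units.ext ?_
    show toM _ * toM _ = toM _ * toM _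
    rw [← map_mul, ← map_mul]
    congr 1
  have hinj : ∀ a σ, φ a * ψ σ = 1 → a = 1 ∧ σ = 1 := by
    intro a σ h
    have h' : toM (LinearMap.prodMap (LinearMap.mulLeft F (fun i => (a i : L))) LinearMap.id *
        LinearMap.prodMap (LinearMap.funLeft F L σ.symm) LinearMap.id) = toM 1 := by
      rw [map_mul, map_one]
      exact congrArg Units.val h
    have h'' : ∀ (x : Fin (n / d) → L) i, (a i : L) * x (σ.symm i) = x i := fun x i =>
      congrFun (congrArg Prod.fst (LinearMap.congr_fun
        ((LinearMap.toMatrixAlgEquiv b).injective h') (x, 0))) i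
    have hσ : σ = 1 := by
      refine Equiv.ext fun i => ?_
      by_contra hne
      have := h'' (Pi.single i 1) (σ i)
      rw [Equiv.symm_apply_apply, Pi.single_eq_same, mul_one,
        Pi.single_eq_of_ne (show σ i ≠ i from hne)] at this
      exact (a (σ i)).ne_zero this
    subst hσ
    exact ⟨funext fun i => Units.ext (by simpa using h'' (fun _ => 1) i), rfl⟩
  obtain ⟨W⟩ := (inferInstance : Nonempty (Sylow p Lˣ))
  obtain ⟨C⟩ := (inferInstance : Nonempty (Sylow p (Perm (Fin (n / d)))))
  have hfact : (Nat.card Lˣ).factorization p = padicValNat p (q ^ d - 1) := by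
    rw [Nat.factorization_def _ hp.out, Nat.card_units, hL]
  have hv : (Nat.card (GL (Fin n) F)).factorization p =
      (n / d) * padicValNat p (q ^ d - 1) + padicValNat p (n / d).factorial := by
    rw [Nat.factorization_def _ hp.out, CfsgLib.Zsigmondy.SylowLinear.card_gl_eq_prod, hq,
      padicValNat.mul (Finset.prod_ne_zero_iff.2 fun i _ => pow_ne_zero _ (by omega))
        (Finset.prod_ne_zero_iff.2 fun i hi =>
          CfsgLib.Zsigmondy.pow_sub_one_ne_zero hq2 (Finset.mem_Icc.1 hi).1),
      padicValNat_prod_Icc hodd hq2 hpq, padicValNat.eq_zero_of_not_dvd fun h => ?_, zero_add]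
    obtain ⟨i, -, hi⟩ := hp.out.prime.dvd_finsetProd_iff _ |>.mp h
    exact hpq (hp.out.dvd_of_dvd_pow hi)
  have hcomm : derivedSeries (W : Subgroup Lˣ) (0 + 1) = ⊥ := by
    rw [zero_add, derivedSeries_one, commutator_eq_bot_iff]
    exact ⟨⟨fun x y => Subtype.ext (mul_comm (x : Lˣ) y)⟩⟩
  have hW0 : derivedSeries (W : Subgroup Lˣ) 0 ≠ ⊥ := by
    rw [derivedSeries_zero]
    intro h
    have h1 : Nat.card (⊤ : Subgroup (W : Subgroup Lˣ)) = 1 := by rw [h, Subgroup.card_bot]
    rw [Subgroup.card_top] at h1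
    have hd' : p ^ 1 ∣ Nat.card Lˣ := by
      rw [pow_one, Nat.card_units, hL]
      exact (CfsgLib.Zsigmondy.dvd_pow_sub_one_iff (by omega) d).2 dvd_rfl
    have := W.pow_dvd_card_of_pow_dvd_card hd'
    rw [h1, pow_one] at this
    exact hp.out.ne_one (Nat.dvd_one.1 this)
  have hw : n / d ≠ 0 := (Nat.div_pos hn hd0).ne'
  have key := sylow_derived_length hc hinj hw (W : Subgroup Lˣ) W.isPGroup' hW0 hcomm C ?_ P
  · simpa using key
  · rw [card_monoSub hc _ hinj, card_pi, W.card_eq_multiplicity, C.card_eq_multiplicity, Nat.card_perm,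
      Nat.card_fin, ← pow_mul, ← pow_add, hv, hfact, Nat.factorization_def _ hp.out, mul_comm]

end CfsgLib.SymSylow.GLOdd
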